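import Cfsg.Agent.Lib.Helper11.SimpleMaster2
import Cfsg.Prelude.Def_SporadicB

/-! # Recognising a nonsplit double cover of a presented simple group -/

set_option autoImplicit false

namespace Cfsg.Agent.Lib.Helper11.DC

open Cfsg.Spor Cfsg.Agent.Lib.Helper11.TC Cfsg.Agent.Lib.Helper11

/-- abstract criterion -/
theorem nonsplit_of_data {H K : Type} [Group H] [Group K] [Finite H] [Finite K]
    (hK : IsSimpleGroup K) (hnp : ¬ (Nat.card K).Prime)
    (z : H) (hz1 : z ≠ 1) (hz2 : z * z = 1) (hzc : ∀ x : H, x * z = z * x)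
    (hN : (Subgroup.zpowers z).Normal)
    (θ : K →* H ⧸ Subgroup.zpowers z) (hθ : Function.Surjective θ)
    (hcard : Nat.card H = 2 * Nat.card K)
    (hidx : ∀ L : Subgroup H, L.index ≠ 2) : Cfsg.IsNonsplitDoubleCover H K := by
  set N := Subgroup.zpowers z with hNdef
  have hord : orderOf z = 2 := by
    apply orderOf_eq_prime (by rw [pow_two]; exact hz2) hz1
  have hcN : Nat.card N = 2 := by rw [hNdef, Nat.card_zpowers, hord]
  have hcQ : Nat.card (H ⧸ N) = Nat.card K := by
    have h1 := Subgroup.card_eq_card_quotient_mul_card_subgroup N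
    rw [hcN, hcard] at h1
    omega
  have hbij : Function.Bijective θ :=
    Function.Surjective.bijective_of_nat_card_le hθ (by rw [hcQ])
  let e : K ≃* H ⧸ N := MulEquiv.ofBijective θ hbij
  have hcK : Subgroup.center K = ⊥ := by
    rcases hK.eq_bot_or_eq_top_of_normal (Subgroup.center K) inferInstance with h | h
    · exact h
    · exfalso
      have hcomm : ∀ a b : K, a * b = b * a := by
        intro a b
        have hb : b ∈ Subgroup.center K := by rw [h]; trivial
        exact (Subgroup.mem_center_iff.mp hb a)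
      letI : CommGroup K := { (inferInstance : Group K) with mul_comm := hcomm }
      exact hnp (IsSimpleGroup.prime_card (α := K))
  have hcen : Subgroup.center H = N := by
    apply le_antisymm
    · intro c hc
      have h1 : e.symm (c : H ⧸ N) ∈ Subgroup.center K := by
        rw [Subgroup.mem_center_iff]
        intro k
        apply e.injective
        rw [map_mul, map_mul, MulEquiv.apply_symm_apply]
        obtain ⟨x, hx⟩ := QuotientGroup.mk_surjective (e k)
        rw [← hx, ← QuotientGroup.mk_mul, ← QuotientGroup.mk_mul, Subgroup.mem_center_iff.mp hc x]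
      rw [hcK, Subgroup.mem_bot] at h1
      have h2 : (c : H ⧸ N) = 1 := by
        have := congrArg e h1
        rwa [MulEquiv.apply_symm_apply, map_one] at this
      exact (QuotientGroup.eq_one_iff c).mp h2
    · rw [hNdef, Subgroup.zpowers_le, Subgroup.mem_center_iff]
      exact hzc
  refine ⟨by rw [hcen, hcN], ⟨(QuotientGroup.quotientMulEquivOfEq hcen).trans e.symm⟩, ?_⟩
  intro L hL
  have h1 := hL.card_mul
  rw [hcen, hcN] at h1
  have h2 := Subgroup.index_mul_card L
  apply hidx L
  have hpos : 0 < Nat.card L := Nat.card_pos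
  have : L.index * Nat.card L = 2 * Nat.card L := by rw [h2, h1]
  exact Nat.eq_of_mul_eq_mul_right hpos this

/-- adding chosen products `r₁ r₂⁻¹` of relators -/
theorem collapses_of_derived {Ls : List ℕ} {rels : List (List ℕ)} {s : ℕ}
    (D : List (List ℕ × List ℕ)) (hD : ∀ p ∈ D, p.1 ∈ rels ∧ p.2 ∈ rels)
    (h : Simp.Collapses Ls (rels ++ D.map (fun p => p.1 ++ p.2.reverse)) s) :
    Simp.Collapses Ls rels s := by
  intro Γ _ g hsq h31 hrel hs
  apply h Γ g hsq h31 _ hs
  intro r hr
  rcases List.mem_append.mp hr with h | h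
  · exact hrel r h
  · obtain ⟨p, hp, rfl⟩ := List.mem_map.mp h
    rw [Simp.ev_append, Simp.ev_reverse g hsq, hrel _ (hD p hp).1, hrel _ (hD p hp).2]; simp

/-- words `[s,t,s,t]` -/
def sqW (Ls : List ℕ) : List (List ℕ) := Ls.flatMap (fun s => Ls.map (fun t => [s, t, s, t]))

variable {α : Type} [DecidableEq α]
variable {edges : List (α × ℕ × α)} {extra : List (FreeGroup α)} {dec : ℕ → Option α}
  {code : α → ℕ} {Ls : List ℕ} {coxW extraW : List (List ℕ)}

/-- The subgroup generated by the involutions `g l`, `l ∈ Ls`, of a group `Γ` is a nonsplit double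
cover of the presented group, if the relators of the latter hold up to the central involution. -/
theorem doubleCover (E : Cox.Enc edges extra dec code Ls coxW extraW)
    {Γ : Type} [Group Γ] (g : ℕ → Γ) (hsq : ∀ l, g l * g l = 1) (h31 : 31 ∉ Ls)
    (hfin : Finite (Subgroup.closure {x | ∃ l ∈ Ls, x = g l}))
    (zw : List ℕ) (hzw : ∀ l ∈ zw, l ∈ Ls) (hz1 : ev g zw ≠ 1) (hz2 : ev g zw * ev g zw = 1)
    (hzc : ∀ l ∈ Ls, g l * ev g zw = ev g zw * g l)
    (hrel : ∀ r ∈ coxW ++ extraW, ev g r = 1 ∨ r = zw)
    (hfinK : Finite (CoxPresented α edges extra))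
    (hsimple : IsSimpleGroup (CoxPresented α edges extra))
    (hnp : ¬ (Nat.card (CoxPresented α edges extra)).Prime)
    (hcard : Nat.card (Subgroup.closure {x | ∃ l ∈ Ls, x = g l}) =
      2 * Nat.card (CoxPresented α edges extra))
    (rels9 : List (List ℕ)) (hrels9 : ∀ r ∈ rels9, ev g r = 1 ∧ ∀ l ∈ r, l ∈ Ls)
    (hcol : Simp.Collapses Ls (rels9 ++ sqW Ls) 31) :
    Cfsg.IsNonsplitDoubleCover (Subgroup.closure {x | ∃ l ∈ Ls, x = g l})
      (CoxPresented α edges extra) := by
  classical
  set K : Subgroup Γ := Subgroup.closure {x | ∃ l ∈ Ls, x = g l} with hK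
  let gen : ℕ → K := fun l => if h : l ∈ Ls then ⟨g l, Subgroup.subset_closure ⟨l, h, rfl⟩⟩ else 1
  have hgen_coe : ∀ l ∈ Ls, ((gen l : K) : Γ) = g l := by
    intro l hl; simp only [gen, dif_pos hl]
  have hg31 : gen 31 = 1 := by simp only [gen, dif_neg h31]
  have hsq' : ∀ l, gen l * gen l = 1 := by
    intro l
    by_cases h : l ∈ Ls
    · apply Subtype.ext
      rw [Subgroup.coe_mul, hgen_coe l h, hsq]; rfl
    · simp only [gen, dif_neg h, mul_one]
  have hev : ∀ w : List ℕ, (∀ l ∈ w, l ∈ Ls) → ((ev gen w : K) : Γ) = ev g w := by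
    intro w hw
    induction w with
    | nil => rfl
    | cons l w ih =>
      rw [ev_cons, ev_cons, Subgroup.coe_mul, hgen_coe l (hw l List.mem_cons_self),
        ih (fun l' hl' => hw l' (List.mem_cons_of_mem _ hl'))]
  have hgen : Subgroup.closure {x : K | ∃ l ∈ Ls, x = gen l} = ⊤ := by
    have h1 : (Subgroup.closure {x : K | ∃ l ∈ Ls, x = gen l}).map K.subtype = K := by
      rw [MonoidHom.map_closure]
      have h2 : (K.subtype '' {x : K | ∃ l ∈ Ls, x = gen l}) = {x | ∃ l ∈ Ls, x = g l} := by
        ext x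
        constructor
        · rintro ⟨_, ⟨l, hl, rfl⟩, rfl⟩; exact ⟨l, hl, hgen_coe l hl⟩
        · rintro ⟨l, hl, rfl⟩; exact ⟨gen l, ⟨l, hl, rfl⟩, hgen_coe l hl⟩
      rw [h2]
    rw [eq_top_iff]
    intro x _
    have hx : (x : Γ) ∈ (Subgroup.closure {x : K | ∃ l ∈ Ls, x = gen l}).map K.subtype := by
      rw [h1]; exact x.2
    obtain ⟨y, hy, hyx⟩ := hx
    have : y = x := Subtype.ext hyx
    rwa [← this]
  set z : K := ev gen zw with hz
  have hzcoe : (z : Γ) = ev g zw := hev zw hzw
  have hzc' : ∀ x : K, x * z = z * x := by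
    intro x
    have hx : x ∈ Subgroup.closure {x : K | ∃ l ∈ Ls, x = gen l} := by rw [hgen]; trivial
    have hle : Subgroup.closure {x : K | ∃ l ∈ Ls, x = gen l} ≤ Subgroup.centralizer {z} := by
      rw [Subgroup.closure_le]
      rintro _ ⟨l, hl, rfl⟩
      rw [SetLike.mem_coe, Subgroup.mem_centralizer_singleton_iff]
      apply Subtype.ext
      rw [Subgroup.coe_mul, Subgroup.coe_mul, hgen_coe l hl, hzcoe]
      exact hzc l hl
    have := hle hx
    rw [Subgroup.mem_centralizer_singleton_iff] at this
    exact this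
  have hN : (Subgroup.zpowers z).Normal := by
    have : Subgroup.zpowers z ≤ Subgroup.center K := by
      rw [Subgroup.zpowers_le, Subgroup.mem_center_iff]; exact hzc'
    refine ⟨fun n hn x => ?_⟩
    have h1 := Subgroup.mem_center_iff.mp (this hn) x
    rw [h1, mul_inv_cancel_right]
    exact hn
  -- the homomorphism
  let f : α → K ⧸ Subgroup.zpowers z := fun x => ((gen (code x) : K) : K ⧸ Subgroup.zpowers z)
  have hgf : ∀ l ∈ Ls, Cox.genOf dec f l = ((gen l : K) : K ⧸ Subgroup.zpowers z) := by
    intro l hl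
    have := E.ls l hl
    unfold Cox.genOf
    cases hd : dec l with
    | none => rw [hd] at this; simp at this
    | some x =>
      rw [hd] at this
      simp only [Option.map_some, Option.some.injEq] at this
      simp only [f, this]
  have hevf : ∀ r : List ℕ, (∀ l ∈ r, l ∈ Ls) →
      ev (Cox.genOf dec f) r = ((ev gen r : K) : K ⧸ Subgroup.zpowers z) := by
    intro r hr
    induction r with
    | nil => rfl
    | cons l r ih =>
      rw [ev_cons, ev_cons, hgf l (hr l List.mem_cons_self),
        ih (fun l' hl' => hr l' (List.mem_cons_of_mem _ hl'))]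
      rfl
  have hlift := Cox.lift_ok E f
    (fun x => by
      show ((gen (code x) * gen (code x) : K) : K ⧸ Subgroup.zpowers z) = 1
      rw [hsq']; rfl)
    (by
      intro r hr
      rw [hevf r (E.wl r hr)]
      rcases hrel r hr with h | h
      · have : ev gen r = 1 := by
          apply Subtype.ext
          rw [hev r (E.wl r hr), h]; rfl
        rw [this]; rfl
      · rw [h]
        exact (QuotientGroup.eq_one_iff _).mpr (Subgroup.mem_zpowers z))
  let θ : CoxPresented α edges extra →* K ⧸ Subgroup.zpowers z := PresentedGroup.toGroup hlift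
  have hθ : Function.Surjective θ := by
    rw [← MonoidHom.range_eq_top, eq_top_iff]
    have h1 : (⊤ : Subgroup (K ⧸ Subgroup.zpowers z)) =
        (Subgroup.closure {x : K | ∃ l ∈ Ls, x = gen l}).map (QuotientGroup.mk' _) := by
      rw [hgen, ← MonoidHom.range_eq_map]
      exact (MonoidHom.range_eq_top.mpr (QuotientGroup.mk'_surjective _)).symm
    rw [h1, MonoidHom.map_closure, Subgroup.closure_le]
    rintro _ ⟨_, ⟨l, hl, rfl⟩, rfl⟩
    have := E.ls l hl
    cases hd : dec l with
    | none => rw [hd] at this; simp at this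
    | some x =>
      rw [hd] at this
      simp only [Option.map_some, Option.some.injEq] at this
      refine ⟨PresentedGroup.of x, ?_⟩
      show (PresentedGroup.toGroup hlift) (PresentedGroup.of x) = _
      rw [PresentedGroup.toGroup.of]
      simp only [f, this]
      rfl
  apply nonsplit_of_data hsimple hnp z _ _ hzc' hN θ hθ hcard
  · -- no subgroup of index two
    intro L hL
    have hLn : L.Normal := Subgroup.normal_of_index_eq_two hL
    have hc2 : Nat.card (K ⧸ L) = 2 := by rw [← Subgroup.index_eq_card]; exact hL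
    have hsq2 : ∀ x : K ⧸ L, x * x = 1 := by
      intro x
      have := pow_card_eq_one' (x := x)
      rwa [hc2, pow_two] at this
    have hq : ∀ w : List ℕ, ev (fun l => (gen l : K ⧸ L)) w = ((ev gen w : K) : K ⧸ L) := by
      intro w
      induction w with
      | nil => rfl
      | cons l w ih => rw [ev_cons, ev_cons, ih]; rfl
    have h3 := hcol (K ⧸ L) (fun l => (gen l : K ⧸ L)) (fun l => hsq2 _)
      (by show ((gen 31 : K) : K ⧸ L) = 1
          rw [hg31]; rfl)
      (by
        intro r hr
        rcases List.mem_append.mp hr with h | h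
        · obtain ⟨h1, h2⟩ := hrels9 r h
          rw [hq]
          have : ev gen r = 1 := by
            apply Subtype.ext
            rw [hev r h2, h1]; rfl
          rw [this]; rfl
        · obtain ⟨s, _, h'⟩ := List.mem_flatMap.mp h
          obtain ⟨t, _, rfl⟩ := List.mem_map.mp h'
          simp only [ev_cons, ev_nil, mul_one]
          rw [← mul_assoc]
          exact hsq2 _)
      (by show ((gen 31 : K) : K ⧸ L) = 1
          rw [hg31]; rfl)
    have htop : L = ⊤ := by
      rw [eq_top_iff, ← hgen, Subgroup.closure_le]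
      rintro _ ⟨l, hl, rfl⟩
      exact (QuotientGroup.eq_one_iff _).mp (h3 l hl)
    rw [htop, Subgroup.index_top] at hL
    omega
  · intro h
    apply hz1
    rw [← hzcoe, h]; rfl
  · apply Subtype.ext
    rw [Subgroup.coe_mul, hzcoe, hz2]; rfl

end Cfsg.Agent.Lib.Helper11.DC
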