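import Cfsg.Agent.Lib.Helper11.TCCore
import Cfsg.Agent.Lib.Helper11.Fi22bB0
import Cfsg.Agent.Lib.Helper11.Fi22bB1

set_option autoImplicit false
set_option maxRecDepth 100000

namespace Cfsg.Agent.Lib.Helper11.Fi22b

open Cfsg.Agent.Lib.Helper11

theorem f0 : F 0 = 32505856 := by decide +kernel

theorem valid {Q : Type*} (act : ℕ → Q → Q) (q0 : Q) (h31 : ∀ x, act 31 x = x)
    (hadm : ∀ a ∈ adm, TC.AdmOK act q0 a) :
    ∀ f < 70855, TC.Valid act q0 F f := by
  have h := TC.valid_zero act q0 F h31 f0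
  have h := TC.checkDefs_chain act q0 F 1 10000 dfs0 h
  have h := TC.checkDefs_chain act q0 F 10001 4613 dfs1 h
  have h := TC.checkBlocks_sound act q0 F h31 adm hadm _ 14614 19758 (by norm_num) blk0 h
  have h := TC.checkBlocks_sound act q0 F h31 adm hadm _ 19758 24407 (by norm_num) blk1 h
  have h := TC.checkBlocks_sound act q0 F h31 adm hadm _ 24407 29296 (by norm_num) blk2 h
  have h := TC.checkBlocks_sound act q0 F h31 adm hadm _ 29296 34100 (by norm_num) blk3 h
  have h := TC.checkBlocks_sound act q0 F h31 adm hadm _ 34100 38728 (by norm_num) blk4 h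
  have h := TC.checkBlocks_sound act q0 F h31 adm hadm _ 38728 43433 (by norm_num) blk5 h
  have h := TC.checkBlocks_sound act q0 F h31 adm hadm _ 43433 47917 (by norm_num) blk6 h
  have h := TC.checkBlocks_sound act q0 F h31 adm hadm _ 47917 52462 (by norm_num) blk7 h
  have h := TC.checkBlocks_sound act q0 F h31 adm hadm _ 52462 56524 (by norm_num) blk8 h
  have h := TC.checkBlocks_sound act q0 F h31 adm hadm _ 56524 60442 (by norm_num) blk9 h
  have h := TC.checkBlocks_sound act q0 F h31 adm hadm _ 60442 63430 (by norm_num) blk10 h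
  have h := TC.checkBlocks_sound act q0 F h31 adm hadm _ 63430 65163 (by norm_num) blk11 h
  have h := TC.checkBlocks_sound act q0 F h31 adm hadm _ 65163 66455 (by norm_num) blk12 h
  have h := TC.checkBlocks_sound act q0 F h31 adm hadm _ 66455 67340 (by norm_num) blk13 h
  have h := TC.checkBlocks_sound act q0 F h31 adm hadm _ 67340 68065 (by norm_num) blk14 h
  have h := TC.checkBlocks_sound act q0 F h31 adm hadm _ 68065 68793 (by norm_num) blk15 h
  have h := TC.checkBlocks_sound act q0 F h31 adm hadm _ 68793 69502 (by norm_num) blk16 h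
  have h := TC.checkBlocks_sound act q0 F h31 adm hadm _ 69502 70111 (by norm_num) blk17 h
  have h := TC.checkBlocks_sound act q0 F h31 adm hadm _ 70111 70605 (by norm_num) blk18 h
  have h := TC.checkBlocks_sound act q0 F h31 adm hadm _ 70605 70855 (by norm_num) blk19 h
  exact h

theorem closed {Q : Type*} (act : ℕ → Q → Q) (q0 : Q) (h31 : ∀ x, act 31 x = x)
    (hadm : ∀ a ∈ adm, TC.AdmOK act q0 a) (hl : ∀ e ∈ letters, TC.PairOK act e) :
    ∀ e ∈ letters, ∀ u < 14080, ∃ v ≤ 14079, act e.1 (TC.kap act q0 F u) = TC.kap act q0 F v := by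
  have hV : ∀ d, d ≤ 141709 → TC.Valid act q0 F (d / 2) := fun d hd => valid act q0 h31 hadm _ (by omega)
  intro e he
  have hp := hl e he
  simp only [letters, List.mem_cons, List.mem_nil_iff, or_false] at he
  rcases he with rfl | rfl | rfl | rfl | rfl | rfl | rfl | rfl | rfl
  · have h : ∀ u < 0, ∃ v ≤ 14079, act ((0, 0) : ℕ × ℕ).1 (TC.kap act q0 F u) = TC.kap act q0 F v := fun u hu => absurd hu (Nat.not_lt_zero u)
    have h := (TC.checkCL_sound act q0 F _ _ _ hp hV _ 0 10000 (by norm_num) cmp0_0 h).2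
    have h := (TC.checkCL_sound act q0 F _ _ _ hp hV _ 10000 14080 (by norm_num) cmp0_1 h).2
    exact h
  · have h : ∀ u < 0, ∃ v ≤ 14079, act ((2, 2097152) : ℕ × ℕ).1 (TC.kap act q0 F u) = TC.kap act q0 F v := fun u hu => absurd hu (Nat.not_lt_zero u)
    have h := (TC.checkCL_sound act q0 F _ _ _ hp hV _ 0 10000 (by norm_num) cmp1_0 h).2
    have h := (TC.checkCL_sound act q0 F _ _ _ hp hV _ 10000 14080 (by norm_num) cmp1_1 h).2
    exact h
  · have h : ∀ u < 0, ∃ v ≤ 14079, act ((4, 4194304) : ℕ × ℕ).1 (TC.kap act q0 F u) = TC.kap act q0 F v := fun u hu => absurd hu (Nat.not_lt_zero u)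
    have h := (TC.checkCL_sound act q0 F _ _ _ hp hV _ 0 10000 (by norm_num) cmp2_0 h).2
    have h := (TC.checkCL_sound act q0 F _ _ _ hp hV _ 10000 14080 (by norm_num) cmp2_1 h).2
    exact h
  · have h : ∀ u < 0, ∃ v ≤ 14079, act ((6, 6291456) : ℕ × ℕ).1 (TC.kap act q0 F u) = TC.kap act q0 F v := fun u hu => absurd hu (Nat.not_lt_zero u)
    have h := (TC.checkCL_sound act q0 F _ _ _ hp hV _ 0 10000 (by norm_num) cmp3_0 h).2
    have h := (TC.checkCL_sound act q0 F _ _ _ hp hV _ 10000 14080 (by norm_num) cmp3_1 h).2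
    exact h
  · have h : ∀ u < 0, ∃ v ≤ 14079, act ((8, 8388608) : ℕ × ℕ).1 (TC.kap act q0 F u) = TC.kap act q0 F v := fun u hu => absurd hu (Nat.not_lt_zero u)
    have h := (TC.checkCL_sound act q0 F _ _ _ hp hV _ 0 10000 (by norm_num) cmp4_0 h).2
    have h := (TC.checkCL_sound act q0 F _ _ _ hp hV _ 10000 14080 (by norm_num) cmp4_1 h).2
    exact h
  · have h : ∀ u < 0, ∃ v ≤ 14079, act ((10, 10485760) : ℕ × ℕ).1 (TC.kap act q0 F u) = TC.kap act q0 F v := fun u hu => absurd hu (Nat.not_lt_zero u)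
    have h := (TC.checkCL_sound act q0 F _ _ _ hp hV _ 0 10000 (by norm_num) cmp5_0 h).2
    have h := (TC.checkCL_sound act q0 F _ _ _ hp hV _ 10000 14080 (by norm_num) cmp5_1 h).2
    exact h
  · have h : ∀ u < 0, ∃ v ≤ 14079, act ((12, 12582912) : ℕ × ℕ).1 (TC.kap act q0 F u) = TC.kap act q0 F v := fun u hu => absurd hu (Nat.not_lt_zero u)
    have h := (TC.checkCL_sound act q0 F _ _ _ hp hV _ 0 10000 (by norm_num) cmp6_0 h).2
    have h := (TC.checkCL_sound act q0 F _ _ _ hp hV _ 10000 14080 (by norm_num) cmp6_1 h).2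
    exact h
  · have h : ∀ u < 0, ∃ v ≤ 14079, act ((14, 14680064) : ℕ × ℕ).1 (TC.kap act q0 F u) = TC.kap act q0 F v := fun u hu => absurd hu (Nat.not_lt_zero u)
    have h := (TC.checkCL_sound act q0 F _ _ _ hp hV _ 0 10000 (by norm_num) cmp7_0 h).2
    have h := (TC.checkCL_sound act q0 F _ _ _ hp hV _ 10000 14080 (by norm_num) cmp7_1 h).2
    exact h
  · have h : ∀ u < 0, ∃ v ≤ 14079, act ((16, 16777216) : ℕ × ℕ).1 (TC.kap act q0 F u) = TC.kap act q0 F v := fun u hu => absurd hu (Nat.not_lt_zero u)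
    have h := (TC.checkCL_sound act q0 F _ _ _ hp hV _ 0 10000 (by norm_num) cmp8_0 h).2
    have h := (TC.checkCL_sound act q0 F _ _ _ hp hV _ 10000 14080 (by norm_num) cmp8_1 h).2
    exact h

end Cfsg.Agent.Lib.Helper11.Fi22b
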