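import Cfsg.Agent.Lib.Helper11.OrderUB
import Cfsg.Agent.Lib.Helper11.Fi22bEnc
import Cfsg.Agent.Lib.Helper11.Fi22bCert
import Cfsg.Agent.Lib.Helper11.Fi22bPres
import Cfsg.Agent.Lib.Helper11.Fi22U1Cert
import Cfsg.Agent.Lib.Helper11.Fi22U1Pres
import Cfsg.Agent.Lib.Helper11.Fi22U2Cert
import Cfsg.Agent.Lib.Helper11.Fi22U2Pres
import Cfsg.Agent.Lib.Helper11.Fi22U3Cert
import Cfsg.Agent.Lib.Helper11.Fi22U3Pres
import Cfsg.Agent.Lib.Helper11.Fi22U4Cert
import Cfsg.Agent.Lib.Helper11.Fi22U4Pres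
import Cfsg.Agent.Lib.Helper11.Fi22U5Cert
import Cfsg.Agent.Lib.Helper11.Fi22U5Pres

set_option autoImplicit false
set_option maxRecDepth 100000

namespace Cfsg.Agent.Lib.Helper11.Fi22Order

open Cfsg.Agent.Lib.Helper11 Cfsg.Agent.Lib.Helper11.TC

theorem b5 : UB.Bound Fi22U5.Ls (Fi22U5.coxW ++ Fi22U5.extraW) (120 * 1) :=
  UB.Bound.step (n := 120) (by norm_num)
    (fun act q0 h31 hadm hl => Fi22U5.closed act q0 h31 hadm hl) (subs := Fi22U5.subs)
    (by decide +kernel) (by decide) (by decide) (by decide +kernel)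
    (Ls' := []) (by decide) (by decide) (rels' := []) (by decide) (UB.Bound.nil _)

theorem b4 : UB.Bound Fi22U4.Ls (Fi22U4.coxW ++ Fi22U4.extraW) (16 * (120 * 1)) :=
  UB.Bound.step (n := 16) (by norm_num)
    (fun act q0 h31 hadm hl => Fi22U4.closed act q0 h31 hadm hl) (subs := Fi22U4.subs)
    (by decide +kernel) (by decide) (by decide) (by decide +kernel)
    (by decide) (by decide) (by decide +kernel) b5

theorem b3 : UB.Bound Fi22U3.Ls (Fi22U3.coxW ++ Fi22U3.extraW) (27 * (16 * (120 * 1))) :=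
  UB.Bound.step (n := 27) (by norm_num)
    (fun act q0 h31 hadm hl => Fi22U3.closed act q0 h31 hadm hl) (subs := Fi22U3.subs)
    (by decide +kernel) (by decide) (by decide) (by decide +kernel)
    (by decide) (by decide) (by decide +kernel) b4

theorem b2 : UB.Bound Fi22U2.Ls (Fi22U2.coxW ++ Fi22U2.extraW) (28 * (27 * (16 * (120 * 1)))) :=
  UB.Bound.step (n := 28) (by norm_num)
    (fun act q0 h31 hadm hl => Fi22U2.closed act q0 h31 hadm hl) (subs := Fi22U2.subs)
    (by decide +kernel) (by decide) (by decide) (by decide +kernel)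
    (by decide) (by decide) (by decide +kernel) b3

theorem b1 : UB.Bound Fi22U1.Ls (Fi22U1.coxW ++ Fi22U1.extraW) (3159 * (28 * (27 * (16 * (120 * 1))))) :=
  UB.Bound.step (n := 3159) (by norm_num)
    (fun act q0 h31 hadm hl => Fi22U1.closed act q0 h31 hadm hl) (subs := Fi22U1.subs)
    (by decide +kernel) (by decide) (by decide) (by decide +kernel)
    (by decide) (by decide) (by decide +kernel) b2

theorem b0 : UB.Bound Fi22b.Ls (Fi22b.coxW ++ Fi22b.extraW) (14080 * (3159 * (28 * (27 * (16 * (120 * 1)))))) :=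
  UB.Bound.step (n := 14080) (by norm_num)
    (fun act q0 h31 hadm hl => Fi22b.closed act q0 h31 hadm hl) (subs := Fi22b.subs)
    (by decide +kernel) (by decide) (by decide) (by decide +kernel)
    (by decide) (by decide) (by decide +kernel) b1

theorem card_le : Finite Cfsg.Spor.Fi22 ∧ Nat.card Cfsg.Spor.Fi22 ≤ 64561751654400 :=
  UB.card_le_of_bound Fi22b.enc b0

end Cfsg.Agent.Lib.Helper11.Fi22Order
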