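import Cfsg.Agent.Lib.Helper11.TCCore
import Cfsg.Agent.Lib.Helper11.Fi23aB0
import Cfsg.Agent.Lib.Helper11.Fi23aB1
import Cfsg.Agent.Lib.Helper11.Fi23aB2
import Cfsg.Agent.Lib.Helper11.Fi23aB3

set_option autoImplicit false
set_option maxRecDepth 100000

namespace Cfsg.Agent.Lib.Helper11.Fi23a

open Cfsg.Agent.Lib.Helper11

theorem f0 : F 0 = 32505856 := by decide +kernel

theorem valid {Q : Type*} (act : ℕ → Q → Q) (q0 : Q) (h31 : ∀ x, act 31 x = x)
    (hadm : ∀ a ∈ adm, TC.AdmOK act q0 a) :
    ∀ f < 190277, TC.Valid act q0 F f := by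
  have h := TC.valid_zero act q0 F h31 f0
  have h := TC.checkDefs_chain act q0 F 1 10000 dfs0 h
  have h := TC.checkDefs_chain act q0 F 10001 10000 dfs1 h
  have h := TC.checkDefs_chain act q0 F 20001 10000 dfs2 h
  have h := TC.checkDefs_chain act q0 F 30001 7305 dfs3 h
  have h := TC.checkBlocks_sound act q0 F h31 adm hadm _ 37306 42320 (by norm_num) blk0 h
  have h := TC.checkBlocks_sound act q0 F h31 adm hadm _ 42320 47345 (by norm_num) blk1 h
  have h := TC.checkBlocks_sound act q0 F h31 adm hadm _ 47345 52483 (by norm_num) blk2 h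
  have h := TC.checkBlocks_sound act q0 F h31 adm hadm _ 52483 57358 (by norm_num) blk3 h
  have h := TC.checkBlocks_sound act q0 F h31 adm hadm _ 57358 62281 (by norm_num) blk4 h
  have h := TC.checkBlocks_sound act q0 F h31 adm hadm _ 62281 67121 (by norm_num) blk5 h
  have h := TC.checkBlocks_sound act q0 F h31 adm hadm _ 67121 72097 (by norm_num) blk6 h
  have h := TC.checkBlocks_sound act q0 F h31 adm hadm _ 72097 76860 (by norm_num) blk7 h
  have h := TC.checkBlocks_sound act q0 F h31 adm hadm _ 76860 81768 (by norm_num) blk8 h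
  have h := TC.checkBlocks_sound act q0 F h31 adm hadm _ 81768 86614 (by norm_num) blk9 h
  have h := TC.checkBlocks_sound act q0 F h31 adm hadm _ 86614 91389 (by norm_num) blk10 h
  have h := TC.checkBlocks_sound act q0 F h31 adm hadm _ 91389 95989 (by norm_num) blk11 h
  have h := TC.checkBlocks_sound act q0 F h31 adm hadm _ 95989 100859 (by norm_num) blk12 h
  have h := TC.checkBlocks_sound act q0 F h31 adm hadm _ 100859 105613 (by norm_num) blk13 h
  have h := TC.checkBlocks_sound act q0 F h31 adm hadm _ 105613 110379 (by norm_num) blk14 h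
  have h := TC.checkBlocks_sound act q0 F h31 adm hadm _ 110379 115043 (by norm_num) blk15 h
  have h := TC.checkBlocks_sound act q0 F h31 adm hadm _ 115043 119604 (by norm_num) blk16 h
  have h := TC.checkBlocks_sound act q0 F h31 adm hadm _ 119604 124013 (by norm_num) blk17 h
  have h := TC.checkBlocks_sound act q0 F h31 adm hadm _ 124013 128358 (by norm_num) blk18 h
  have h := TC.checkBlocks_sound act q0 F h31 adm hadm _ 128358 132733 (by norm_num) blk19 h
  have h := TC.checkBlocks_sound act q0 F h31 adm hadm _ 132733 137172 (by norm_num) blk20 h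
  have h := TC.checkBlocks_sound act q0 F h31 adm hadm _ 137172 141854 (by norm_num) blk21 h
  have h := TC.checkBlocks_sound act q0 F h31 adm hadm _ 141854 145501 (by norm_num) blk22 h
  have h := TC.checkBlocks_sound act q0 F h31 adm hadm _ 145501 148658 (by norm_num) blk23 h
  have h := TC.checkBlocks_sound act q0 F h31 adm hadm _ 148658 153409 (by norm_num) blk24 h
  have h := TC.checkBlocks_sound act q0 F h31 adm hadm _ 153409 157946 (by norm_num) blk25 h
  have h := TC.checkBlocks_sound act q0 F h31 adm hadm _ 157946 162113 (by norm_num) blk26 h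
  have h := TC.checkBlocks_sound act q0 F h31 adm hadm _ 162113 165706 (by norm_num) blk27 h
  have h := TC.checkBlocks_sound act q0 F h31 adm hadm _ 165706 169231 (by norm_num) blk28 h
  have h := TC.checkBlocks_sound act q0 F h31 adm hadm _ 169231 172502 (by norm_num) blk29 h
  have h := TC.checkBlocks_sound act q0 F h31 adm hadm _ 172502 175735 (by norm_num) blk30 h
  have h := TC.checkBlocks_sound act q0 F h31 adm hadm _ 175735 178412 (by norm_num) blk31 h
  have h := TC.checkBlocks_sound act q0 F h31 adm hadm _ 178412 180002 (by norm_num) blk32 h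
  have h := TC.checkBlocks_sound act q0 F h31 adm hadm _ 180002 181452 (by norm_num) blk33 h
  have h := TC.checkBlocks_sound act q0 F h31 adm hadm _ 181452 182480 (by norm_num) blk34 h
  have h := TC.checkBlocks_sound act q0 F h31 adm hadm _ 182480 183608 (by norm_num) blk35 h
  have h := TC.checkBlocks_sound act q0 F h31 adm hadm _ 183608 184845 (by norm_num) blk36 h
  have h := TC.checkBlocks_sound act q0 F h31 adm hadm _ 184845 186135 (by norm_num) blk37 h
  have h := TC.checkBlocks_sound act q0 F h31 adm hadm _ 186135 186974 (by norm_num) blk38 h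
  have h := TC.checkBlocks_sound act q0 F h31 adm hadm _ 186974 187774 (by norm_num) blk39 h
  have h := TC.checkBlocks_sound act q0 F h31 adm hadm _ 187774 188534 (by norm_num) blk40 h
  have h := TC.checkBlocks_sound act q0 F h31 adm hadm _ 188534 189256 (by norm_num) blk41 h
  have h := TC.checkBlocks_sound act q0 F h31 adm hadm _ 189256 189767 (by norm_num) blk42 h
  have h := TC.checkBlocks_sound act q0 F h31 adm hadm _ 189767 190239 (by norm_num) blk43 h
  have h := TC.checkBlocks_sound act q0 F h31 adm hadm _ 190239 190277 (by norm_num) blk44 h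
  exact h

theorem closed {Q : Type*} (act : ℕ → Q → Q) (q0 : Q) (h31 : ∀ x, act 31 x = x)
    (hadm : ∀ a ∈ adm, TC.AdmOK act q0 a) (hl : ∀ e ∈ letters, TC.PairOK act e) :
    ∀ e ∈ letters, ∀ u < 31671, ∃ v ≤ 31670, act e.1 (TC.kap act q0 F u) = TC.kap act q0 F v := by
  have hV : ∀ d, d ≤ 380553 → TC.Valid act q0 F (d / 2) := fun d hd => valid act q0 h31 hadm _ (by omega)
  intro e he
  have hp := hl e he
  simp only [letters, List.mem_cons, List.mem_nil_iff, or_false] at he
  rcases he with rfl | rfl | rfl | rfl | rfl | rfl | rfl | rfl | rfl | rfl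
  · have h : ∀ u < 0, ∃ v ≤ 31670, act ((0, 0) : ℕ × ℕ).1 (TC.kap act q0 F u) = TC.kap act q0 F v := fun u hu => absurd hu (Nat.not_lt_zero u)
    have h := (TC.checkCL_sound act q0 F _ _ _ hp hV _ 0 10000 (by norm_num) cmp0_0 h).2
    have h := (TC.checkCL_sound act q0 F _ _ _ hp hV _ 10000 20000 (by norm_num) cmp0_1 h).2
    have h := (TC.checkCL_sound act q0 F _ _ _ hp hV _ 20000 30000 (by norm_num) cmp0_2 h).2
    have h := (TC.checkCL_sound act q0 F _ _ _ hp hV _ 30000 31671 (by norm_num) cmp0_3 h).2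
    exact h
  · have h : ∀ u < 0, ∃ v ≤ 31670, act ((2, 2097152) : ℕ × ℕ).1 (TC.kap act q0 F u) = TC.kap act q0 F v := fun u hu => absurd hu (Nat.not_lt_zero u)
    have h := (TC.checkCL_sound act q0 F _ _ _ hp hV _ 0 10000 (by norm_num) cmp1_0 h).2
    have h := (TC.checkCL_sound act q0 F _ _ _ hp hV _ 10000 20000 (by norm_num) cmp1_1 h).2
    have h := (TC.checkCL_sound act q0 F _ _ _ hp hV _ 20000 30000 (by norm_num) cmp1_2 h).2
    have h := (TC.checkCL_sound act q0 F _ _ _ hp hV _ 30000 31671 (by norm_num) cmp1_3 h).2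
    exact h
  · have h : ∀ u < 0, ∃ v ≤ 31670, act ((4, 4194304) : ℕ × ℕ).1 (TC.kap act q0 F u) = TC.kap act q0 F v := fun u hu => absurd hu (Nat.not_lt_zero u)
    have h := (TC.checkCL_sound act q0 F _ _ _ hp hV _ 0 10000 (by norm_num) cmp2_0 h).2
    have h := (TC.checkCL_sound act q0 F _ _ _ hp hV _ 10000 20000 (by norm_num) cmp2_1 h).2
    have h := (TC.checkCL_sound act q0 F _ _ _ hp hV _ 20000 30000 (by norm_num) cmp2_2 h).2
    have h := (TC.checkCL_sound act q0 F _ _ _ hp hV _ 30000 31671 (by norm_num) cmp2_3 h).2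
    exact h
  · have h : ∀ u < 0, ∃ v ≤ 31670, act ((6, 6291456) : ℕ × ℕ).1 (TC.kap act q0 F u) = TC.kap act q0 F v := fun u hu => absurd hu (Nat.not_lt_zero u)
    have h := (TC.checkCL_sound act q0 F _ _ _ hp hV _ 0 10000 (by norm_num) cmp3_0 h).2
    have h := (TC.checkCL_sound act q0 F _ _ _ hp hV _ 10000 20000 (by norm_num) cmp3_1 h).2
    have h := (TC.checkCL_sound act q0 F _ _ _ hp hV _ 20000 30000 (by norm_num) cmp3_2 h).2
    have h := (TC.checkCL_sound act q0 F _ _ _ hp hV _ 30000 31671 (by norm_num) cmp3_3 h).2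
    exact h
  · have h : ∀ u < 0, ∃ v ≤ 31670, act ((8, 8388608) : ℕ × ℕ).1 (TC.kap act q0 F u) = TC.kap act q0 F v := fun u hu => absurd hu (Nat.not_lt_zero u)
    have h := (TC.checkCL_sound act q0 F _ _ _ hp hV _ 0 10000 (by norm_num) cmp4_0 h).2
    have h := (TC.checkCL_sound act q0 F _ _ _ hp hV _ 10000 20000 (by norm_num) cmp4_1 h).2
    have h := (TC.checkCL_sound act q0 F _ _ _ hp hV _ 20000 30000 (by norm_num) cmp4_2 h).2
    have h := (TC.checkCL_sound act q0 F _ _ _ hp hV _ 30000 31671 (by norm_num) cmp4_3 h).2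
    exact h
  · have h : ∀ u < 0, ∃ v ≤ 31670, act ((10, 10485760) : ℕ × ℕ).1 (TC.kap act q0 F u) = TC.kap act q0 F v := fun u hu => absurd hu (Nat.not_lt_zero u)
    have h := (TC.checkCL_sound act q0 F _ _ _ hp hV _ 0 10000 (by norm_num) cmp5_0 h).2
    have h := (TC.checkCL_sound act q0 F _ _ _ hp hV _ 10000 20000 (by norm_num) cmp5_1 h).2
    have h := (TC.checkCL_sound act q0 F _ _ _ hp hV _ 20000 30000 (by norm_num) cmp5_2 h).2
    have h := (TC.checkCL_sound act q0 F _ _ _ hp hV _ 30000 31671 (by norm_num) cmp5_3 h).2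
    exact h
  · have h : ∀ u < 0, ∃ v ≤ 31670, act ((12, 12582912) : ℕ × ℕ).1 (TC.kap act q0 F u) = TC.kap act q0 F v := fun u hu => absurd hu (Nat.not_lt_zero u)
    have h := (TC.checkCL_sound act q0 F _ _ _ hp hV _ 0 10000 (by norm_num) cmp6_0 h).2
    have h := (TC.checkCL_sound act q0 F _ _ _ hp hV _ 10000 20000 (by norm_num) cmp6_1 h).2
    have h := (TC.checkCL_sound act q0 F _ _ _ hp hV _ 20000 30000 (by norm_num) cmp6_2 h).2
    have h := (TC.checkCL_sound act q0 F _ _ _ hp hV _ 30000 31671 (by norm_num) cmp6_3 h).2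
    exact h
  · have h : ∀ u < 0, ∃ v ≤ 31670, act ((14, 14680064) : ℕ × ℕ).1 (TC.kap act q0 F u) = TC.kap act q0 F v := fun u hu => absurd hu (Nat.not_lt_zero u)
    have h := (TC.checkCL_sound act q0 F _ _ _ hp hV _ 0 10000 (by norm_num) cmp7_0 h).2
    have h := (TC.checkCL_sound act q0 F _ _ _ hp hV _ 10000 20000 (by norm_num) cmp7_1 h).2
    have h := (TC.checkCL_sound act q0 F _ _ _ hp hV _ 20000 30000 (by norm_num) cmp7_2 h).2
    have h := (TC.checkCL_sound act q0 F _ _ _ hp hV _ 30000 31671 (by norm_num) cmp7_3 h).2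
    exact h
  · have h : ∀ u < 0, ∃ v ≤ 31670, act ((16, 16777216) : ℕ × ℕ).1 (TC.kap act q0 F u) = TC.kap act q0 F v := fun u hu => absurd hu (Nat.not_lt_zero u)
    have h := (TC.checkCL_sound act q0 F _ _ _ hp hV _ 0 10000 (by norm_num) cmp8_0 h).2
    have h := (TC.checkCL_sound act q0 F _ _ _ hp hV _ 10000 20000 (by norm_num) cmp8_1 h).2
    have h := (TC.checkCL_sound act q0 F _ _ _ hp hV _ 20000 30000 (by norm_num) cmp8_2 h).2
    have h := (TC.checkCL_sound act q0 F _ _ _ hp hV _ 30000 31671 (by norm_num) cmp8_3 h).2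
    exact h
  · have h : ∀ u < 0, ∃ v ≤ 31670, act ((18, 18874368) : ℕ × ℕ).1 (TC.kap act q0 F u) = TC.kap act q0 F v := fun u hu => absurd hu (Nat.not_lt_zero u)
    have h := (TC.checkCL_sound act q0 F _ _ _ hp hV _ 0 10000 (by norm_num) cmp9_0 h).2
    have h := (TC.checkCL_sound act q0 F _ _ _ hp hV _ 10000 20000 (by norm_num) cmp9_1 h).2
    have h := (TC.checkCL_sound act q0 F _ _ _ hp hV _ 20000 30000 (by norm_num) cmp9_2 h).2
    have h := (TC.checkCL_sound act q0 F _ _ _ hp hV _ 30000 31671 (by norm_num) cmp9_3 h).2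
    exact h

end Cfsg.Agent.Lib.Helper11.Fi23a
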