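import Cfsg.Agent.Lib.Helper11.Fi23aLT

set_option autoImplicit false
set_option maxRecDepth 1000000
set_option Elab.async false

namespace Cfsg.Agent.Lib.Helper11.Fi23a

open Cfsg.Agent.Lib.Helper11

theorem lb0_0 : PR.allR (PR.lbF lP0 lM0 lwT0) 1 1713 = true := by decide +kernel

theorem lb0_1 : PR.allR (PR.lbF lP0 lM0 lwT0) 1714 1713 = true := by decide +kernel

theorem lb0_2 : PR.allR (PR.lbF lP0 lM0 lwT0) 3427 1713 = true := by decide +kernel

theorem lb0_3 : PR.allR (PR.lbF lP0 lM0 lwT0) 5140 1713 = true := by decide +kernel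

theorem lb0_4 : PR.allR (PR.lbF lP0 lM0 lwT0) 6853 1713 = true := by decide +kernel

theorem lb0_5 : PR.allR (PR.lbF lP0 lM0 lwT0) 8566 1713 = true := by decide +kernel

theorem lb0_6 : PR.allR (PR.lbF lP0 lM0 lwT0) 10279 1713 = true := by decide +kernel

theorem lb0_7 : PR.allR (PR.lbF lP0 lM0 lwT0) 11992 1713 = true := by decide +kernel

theorem lb0_8 : PR.allR (PR.lbF lP0 lM0 lwT0) 13705 1713 = true := by decide +kernel

theorem lb0_9 : PR.allR (PR.lbF lP0 lM0 lwT0) 15418 1713 = true := by decide +kernel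

theorem lb0_10 : PR.allR (PR.lbF lP0 lM0 lwT0) 17131 1713 = true := by decide +kernel

theorem lb0_11 : PR.allR (PR.lbF lP0 lM0 lwT0) 18844 1713 = true := by decide +kernel

theorem lb0_12 : PR.allR (PR.lbF lP0 lM0 lwT0) 20557 1713 = true := by decide +kernel

theorem lb0_13 : PR.allR (PR.lbF lP0 lM0 lwT0) 22270 1713 = true := by decide +kernel

theorem lb0_14 : PR.allR (PR.lbF lP0 lM0 lwT0) 23983 1713 = true := by decide +kernel

theorem lb0_15 : PR.allR (PR.lbF lP0 lM0 lwT0) 25696 1713 = true := by decide +kernel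

theorem lb0_16 : PR.allR (PR.lbF lP0 lM0 lwT0) 27409 1713 = true := by decide +kernel

theorem lb0_17 : PR.allR (PR.lbF lP0 lM0 lwT0) 29122 1713 = true := by decide +kernel

theorem lb0_18 : PR.allR (PR.lbF lP0 lM0 lwT0) 30835 836 = true := by decide +kernel

theorem lb1_0 : PR.allR (PR.lbF lP1 lM1 lwT1) 1 1713 = true := by decide +kernel

theorem lb1_1 : PR.allR (PR.lbF lP1 lM1 lwT1) 1714 1713 = true := by decide +kernel

theorem lb1_2 : PR.allR (PR.lbF lP1 lM1 lwT1) 3427 1713 = true := by decide +kernel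

theorem lb1_3 : PR.allR (PR.lbF lP1 lM1 lwT1) 5140 1713 = true := by decide +kernel

theorem lb1_4 : PR.allR (PR.lbF lP1 lM1 lwT1) 6853 1713 = true := by decide +kernel

theorem lb1_5 : PR.allR (PR.lbF lP1 lM1 lwT1) 8566 1713 = true := by decide +kernel

theorem lb1_6 : PR.allR (PR.lbF lP1 lM1 lwT1) 10279 1713 = true := by decide +kernel

end Cfsg.Agent.Lib.Helper11.Fi23a
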