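import Cfsg.Agent.Lib.Helper11.Fi23aLT

set_option autoImplicit false
set_option maxRecDepth 1000000
set_option Elab.async false

namespace Cfsg.Agent.Lib.Helper11.Fi23a

open Cfsg.Agent.Lib.Helper11

theorem lb1_7 : PR.allR (PR.lbF lP1 lM1 lwT1) 11992 1713 = true := by decide +kernel

theorem lb1_8 : PR.allR (PR.lbF lP1 lM1 lwT1) 13705 1713 = true := by decide +kernel

theorem lb1_9 : PR.allR (PR.lbF lP1 lM1 lwT1) 15418 1713 = true := by decide +kernel

theorem lb1_10 : PR.allR (PR.lbF lP1 lM1 lwT1) 17131 1713 = true := by decide +kernel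

theorem lb1_11 : PR.allR (PR.lbF lP1 lM1 lwT1) 18844 1713 = true := by decide +kernel

theorem lb1_12 : PR.allR (PR.lbF lP1 lM1 lwT1) 20557 1713 = true := by decide +kernel

theorem lb1_13 : PR.allR (PR.lbF lP1 lM1 lwT1) 22270 1713 = true := by decide +kernel

theorem lb1_14 : PR.allR (PR.lbF lP1 lM1 lwT1) 23983 1713 = true := by decide +kernel

theorem lb1_15 : PR.allR (PR.lbF lP1 lM1 lwT1) 25696 1713 = true := by decide +kernel

theorem lb1_16 : PR.allR (PR.lbF lP1 lM1 lwT1) 27409 751 = true := by decide +kernel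

theorem lb2_0 : PR.allR (PR.lbF lP2 lM2 lwT2) 1 1713 = true := by decide +kernel

theorem lb2_1 : PR.allR (PR.lbF lP2 lM2 lwT2) 1714 1713 = true := by decide +kernel

theorem lb2_2 : PR.allR (PR.lbF lP2 lM2 lwT2) 3427 1713 = true := by decide +kernel

theorem lb2_3 : PR.allR (PR.lbF lP2 lM2 lwT2) 5140 1713 = true := by decide +kernel

theorem lb2_4 : PR.allR (PR.lbF lP2 lM2 lwT2) 6853 1713 = true := by decide +kernel

theorem lb2_5 : PR.allR (PR.lbF lP2 lM2 lwT2) 8566 1713 = true := by decide +kernel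

theorem lb2_6 : PR.allR (PR.lbF lP2 lM2 lwT2) 10279 1713 = true := by decide +kernel

theorem lb2_7 : PR.allR (PR.lbF lP2 lM2 lwT2) 11992 1713 = true := by decide +kernel

theorem lb2_8 : PR.allR (PR.lbF lP2 lM2 lwT2) 13705 1713 = true := by decide +kernel

theorem lb2_9 : PR.allR (PR.lbF lP2 lM2 lwT2) 15418 1713 = true := by decide +kernel

theorem lb2_10 : PR.allR (PR.lbF lP2 lM2 lwT2) 17131 1713 = true := by decide +kernel

theorem lb2_11 : PR.allR (PR.lbF lP2 lM2 lwT2) 18844 1713 = true := by decide +kernel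

theorem lb2_12 : PR.allR (PR.lbF lP2 lM2 lwT2) 20557 1283 = true := by decide +kernel

theorem lb3_0 : PR.allR (PR.lbF lP3 lM3 lwT3) 1 1341 = true := by decide +kernel

theorem lb3_1 : PR.allR (PR.lbF lP3 lM3 lwT3) 1342 1464 = true := by decide +kernel

theorem lb3_2 : PR.allR (PR.lbF lP3 lM3 lwT3) 2806 1109 = true := by decide +kernel

end Cfsg.Agent.Lib.Helper11.Fi23a
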