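import Cfsg.Agent.Lib.Helper11.Fi23aLT

set_option autoImplicit false
set_option maxRecDepth 1000000
set_option Elab.async false

namespace Cfsg.Agent.Lib.Helper11.Fi23a

open Cfsg.Agent.Lib.Helper11

theorem lb3_3 : PR.allR (PR.lbF lP3 lM3 lwT3) 3915 1228 = true := by decide +kernel

theorem lb3_4 : PR.allR (PR.lbF lP3 lM3 lwT3) 5143 1031 = true := by decide +kernel

theorem lb3_5 : PR.allR (PR.lbF lP3 lM3 lwT3) 6174 1268 = true := by decide +kernel

theorem lb3_6 : PR.allR (PR.lbF lP3 lM3 lwT3) 7442 334 = true := by decide +kernel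

theorem lb4_0 : PR.allR (PR.lbF lP4 lM4 lwT4) 1 26 = true := by decide +kernel

end Cfsg.Agent.Lib.Helper11.Fi23a
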