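import Cfsg.Agent.Lib.Helper11.PRMain
import Cfsg.Agent.Lib.Helper11.Fi23aPres
import Cfsg.Agent.Lib.Helper11.Fi23aPC0
import Cfsg.Agent.Lib.Helper11.Fi23aPC1
import Cfsg.Agent.Lib.Helper11.Fi23aPC2
import Cfsg.Agent.Lib.Helper11.Fi23aPC3
import Cfsg.Agent.Lib.Helper11.Fi23aPC4
import Cfsg.Agent.Lib.Helper11.Fi23aPC5
import Cfsg.Agent.Lib.Helper11.Fi23aPC6

set_option autoImplicit false
set_option maxRecDepth 1000000

namespace Cfsg.Agent.Lib.Helper11.Fi23a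

open Cfsg.Agent.Lib.Helper11

theorem rng0 : ∀ u, 0 ≤ u → u < 31671 → PR.mapsF [tb0] 0 31670 u = true := by
  have h : ∀ u, 0 ≤ u → u < 0 → PR.mapsF [tb0] 0 31670 u = true := fun u h1 h2 => absurd h2 (by omega)
  have h := PR.allR_chain (PR.mapsF [tb0] 0 31670) 0 0 19814 rng0_0 h
  have h := PR.allR_chain (PR.mapsF [tb0] 0 31670) 0 19814 11857 rng0_1 h
  exact h

theorem sq0 : ∀ u, 0 ≤ u → u < 31671 → PR.fixF [tb0, tb0] u = true := by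
  have h : ∀ u, 0 ≤ u → u < 0 → PR.fixF [tb0, tb0] u = true := fun u h1 h2 => absurd h2 (by omega)
  have h := PR.allR_chain (PR.fixF [tb0, tb0]) 0 0 9907 sq0_0 h
  have h := PR.allR_chain (PR.fixF [tb0, tb0]) 0 9907 9907 sq0_1 h
  have h := PR.allR_chain (PR.fixF [tb0, tb0]) 0 19814 9907 sq0_2 h
  have h := PR.allR_chain (PR.fixF [tb0, tb0]) 0 29721 1950 sq0_3 h
  exact h

theorem rng2 : ∀ u, 0 ≤ u → u < 31671 → PR.mapsF [tb2] 0 31670 u = true := by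
  have h : ∀ u, 0 ≤ u → u < 0 → PR.mapsF [tb2] 0 31670 u = true := fun u h1 h2 => absurd h2 (by omega)
  have h := PR.allR_chain (PR.mapsF [tb2] 0 31670) 0 0 19814 rng2_0 h
  have h := PR.allR_chain (PR.mapsF [tb2] 0 31670) 0 19814 11857 rng2_1 h
  exact h

theorem sq2 : ∀ u, 0 ≤ u → u < 31671 → PR.fixF [tb2, tb2] u = true := by
  have h : ∀ u, 0 ≤ u → u < 0 → PR.fixF [tb2, tb2] u = true := fun u h1 h2 => absurd h2 (by omega)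
  have h := PR.allR_chain (PR.fixF [tb2, tb2]) 0 0 9907 sq2_0 h
  have h := PR.allR_chain (PR.fixF [tb2, tb2]) 0 9907 9907 sq2_1 h
  have h := PR.allR_chain (PR.fixF [tb2, tb2]) 0 19814 9907 sq2_2 h
  have h := PR.allR_chain (PR.fixF [tb2, tb2]) 0 29721 1950 sq2_3 h
  exact h

theorem rng4 : ∀ u, 0 ≤ u → u < 31671 → PR.mapsF [tb4] 0 31670 u = true := by
  have h : ∀ u, 0 ≤ u → u < 0 → PR.mapsF [tb4] 0 31670 u = true := fun u h1 h2 => absurd h2 (by omega)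
  have h := PR.allR_chain (PR.mapsF [tb4] 0 31670) 0 0 19814 rng4_0 h
  have h := PR.allR_chain (PR.mapsF [tb4] 0 31670) 0 19814 11857 rng4_1 h
  exact h

theorem sq4 : ∀ u, 0 ≤ u → u < 31671 → PR.fixF [tb4, tb4] u = true := by
  have h : ∀ u, 0 ≤ u → u < 0 → PR.fixF [tb4, tb4] u = true := fun u h1 h2 => absurd h2 (by omega)
  have h := PR.allR_chain (PR.fixF [tb4, tb4]) 0 0 9907 sq4_0 h
  have h := PR.allR_chain (PR.fixF [tb4, tb4]) 0 9907 9907 sq4_1 h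
  have h := PR.allR_chain (PR.fixF [tb4, tb4]) 0 19814 9907 sq4_2 h
  have h := PR.allR_chain (PR.fixF [tb4, tb4]) 0 29721 1950 sq4_3 h
  exact h

theorem rng6 : ∀ u, 0 ≤ u → u < 31671 → PR.mapsF [tb6] 0 31670 u = true := by
  have h : ∀ u, 0 ≤ u → u < 0 → PR.mapsF [tb6] 0 31670 u = true := fun u h1 h2 => absurd h2 (by omega)
  have h := PR.allR_chain (PR.mapsF [tb6] 0 31670) 0 0 19814 rng6_0 h
  have h := PR.allR_chain (PR.mapsF [tb6] 0 31670) 0 19814 11857 rng6_1 h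
  exact h

theorem sq6 : ∀ u, 0 ≤ u → u < 31671 → PR.fixF [tb6, tb6] u = true := by
  have h : ∀ u, 0 ≤ u → u < 0 → PR.fixF [tb6, tb6] u = true := fun u h1 h2 => absurd h2 (by omega)
  have h := PR.allR_chain (PR.fixF [tb6, tb6]) 0 0 9907 sq6_0 h
  have h := PR.allR_chain (PR.fixF [tb6, tb6]) 0 9907 9907 sq6_1 h
  have h := PR.allR_chain (PR.fixF [tb6, tb6]) 0 19814 9907 sq6_2 h
  have h := PR.allR_chain (PR.fixF [tb6, tb6]) 0 29721 1950 sq6_3 h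
  exact h

theorem rng8 : ∀ u, 0 ≤ u → u < 31671 → PR.mapsF [tb8] 0 31670 u = true := by
  have h : ∀ u, 0 ≤ u → u < 0 → PR.mapsF [tb8] 0 31670 u = true := fun u h1 h2 => absurd h2 (by omega)
  have h := PR.allR_chain (PR.mapsF [tb8] 0 31670) 0 0 19814 rng8_0 h
  have h := PR.allR_chain (PR.mapsF [tb8] 0 31670) 0 19814 11857 rng8_1 h
  exact h

theorem sq8 : ∀ u, 0 ≤ u → u < 31671 → PR.fixF [tb8, tb8] u = true := by
  have h : ∀ u, 0 ≤ u → u < 0 → PR.fixF [tb8, tb8] u = true := fun u h1 h2 => absurd h2 (by omega)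
  have h := PR.allR_chain (PR.fixF [tb8, tb8]) 0 0 9907 sq8_0 h
  have h := PR.allR_chain (PR.fixF [tb8, tb8]) 0 9907 9907 sq8_1 h
  have h := PR.allR_chain (PR.fixF [tb8, tb8]) 0 19814 9907 sq8_2 h
  have h := PR.allR_chain (PR.fixF [tb8, tb8]) 0 29721 1950 sq8_3 h
  exact h

theorem rng10 : ∀ u, 0 ≤ u → u < 31671 → PR.mapsF [tb10] 0 31670 u = true := by
  have h : ∀ u, 0 ≤ u → u < 0 → PR.mapsF [tb10] 0 31670 u = true := fun u h1 h2 => absurd h2 (by omega)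
  have h := PR.allR_chain (PR.mapsF [tb10] 0 31670) 0 0 19814 rng10_0 h
  have h := PR.allR_chain (PR.mapsF [tb10] 0 31670) 0 19814 11857 rng10_1 h
  exact h

theorem sq10 : ∀ u, 0 ≤ u → u < 31671 → PR.fixF [tb10, tb10] u = true := by
  have h : ∀ u, 0 ≤ u → u < 0 → PR.fixF [tb10, tb10] u = true := fun u h1 h2 => absurd h2 (by omega)
  have h := PR.allR_chain (PR.fixF [tb10, tb10]) 0 0 9907 sq10_0 h
  have h := PR.allR_chain (PR.fixF [tb10, tb10]) 0 9907 9907 sq10_1 h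
  have h := PR.allR_chain (PR.fixF [tb10, tb10]) 0 19814 9907 sq10_2 h
  have h := PR.allR_chain (PR.fixF [tb10, tb10]) 0 29721 1950 sq10_3 h
  exact h

theorem rng12 : ∀ u, 0 ≤ u → u < 31671 → PR.mapsF [tb12] 0 31670 u = true := by
  have h : ∀ u, 0 ≤ u → u < 0 → PR.mapsF [tb12] 0 31670 u = true := fun u h1 h2 => absurd h2 (by omega)
  have h := PR.allR_chain (PR.mapsF [tb12] 0 31670) 0 0 19814 rng12_0 h
  have h := PR.allR_chain (PR.mapsF [tb12] 0 31670) 0 19814 11857 rng12_1 h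
  exact h

theorem sq12 : ∀ u, 0 ≤ u → u < 31671 → PR.fixF [tb12, tb12] u = true := by
  have h : ∀ u, 0 ≤ u → u < 0 → PR.fixF [tb12, tb12] u = true := fun u h1 h2 => absurd h2 (by omega)
  have h := PR.allR_chain (PR.fixF [tb12, tb12]) 0 0 9907 sq12_0 h
  have h := PR.allR_chain (PR.fixF [tb12, tb12]) 0 9907 9907 sq12_1 h
  have h := PR.allR_chain (PR.fixF [tb12, tb12]) 0 19814 9907 sq12_2 h
  have h := PR.allR_chain (PR.fixF [tb12, tb12]) 0 29721 1950 sq12_3 h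
  exact h

theorem rng14 : ∀ u, 0 ≤ u → u < 31671 → PR.mapsF [tb14] 0 31670 u = true := by
  have h : ∀ u, 0 ≤ u → u < 0 → PR.mapsF [tb14] 0 31670 u = true := fun u h1 h2 => absurd h2 (by omega)
  have h := PR.allR_chain (PR.mapsF [tb14] 0 31670) 0 0 19814 rng14_0 h
  have h := PR.allR_chain (PR.mapsF [tb14] 0 31670) 0 19814 11857 rng14_1 h
  exact h

theorem sq14 : ∀ u, 0 ≤ u → u < 31671 → PR.fixF [tb14, tb14] u = true := by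
  have h : ∀ u, 0 ≤ u → u < 0 → PR.fixF [tb14, tb14] u = true := fun u h1 h2 => absurd h2 (by omega)
  have h := PR.allR_chain (PR.fixF [tb14, tb14]) 0 0 9907 sq14_0 h
  have h := PR.allR_chain (PR.fixF [tb14, tb14]) 0 9907 9907 sq14_1 h
  have h := PR.allR_chain (PR.fixF [tb14, tb14]) 0 19814 9907 sq14_2 h
  have h := PR.allR_chain (PR.fixF [tb14, tb14]) 0 29721 1950 sq14_3 h
  exact h

theorem rng16 : ∀ u, 0 ≤ u → u < 31671 → PR.mapsF [tb16] 0 31670 u = true := by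
  have h : ∀ u, 0 ≤ u → u < 0 → PR.mapsF [tb16] 0 31670 u = true := fun u h1 h2 => absurd h2 (by omega)
  have h := PR.allR_chain (PR.mapsF [tb16] 0 31670) 0 0 19814 rng16_0 h
  have h := PR.allR_chain (PR.mapsF [tb16] 0 31670) 0 19814 11857 rng16_1 h
  exact h

theorem sq16 : ∀ u, 0 ≤ u → u < 31671 → PR.fixF [tb16, tb16] u = true := by
  have h : ∀ u, 0 ≤ u → u < 0 → PR.fixF [tb16, tb16] u = true := fun u h1 h2 => absurd h2 (by omega)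
  have h := PR.allR_chain (PR.fixF [tb16, tb16]) 0 0 9907 sq16_0 h
  have h := PR.allR_chain (PR.fixF [tb16, tb16]) 0 9907 9907 sq16_1 h
  have h := PR.allR_chain (PR.fixF [tb16, tb16]) 0 19814 9907 sq16_2 h
  have h := PR.allR_chain (PR.fixF [tb16, tb16]) 0 29721 1950 sq16_3 h
  exact h

theorem rng18 : ∀ u, 0 ≤ u → u < 31671 → PR.mapsF [tb18] 0 31670 u = true := by
  have h : ∀ u, 0 ≤ u → u < 0 → PR.mapsF [tb18] 0 31670 u = true := fun u h1 h2 => absurd h2 (by omega)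
  have h := PR.allR_chain (PR.mapsF [tb18] 0 31670) 0 0 19814 rng18_0 h
  have h := PR.allR_chain (PR.mapsF [tb18] 0 31670) 0 19814 11857 rng18_1 h
  exact h

theorem sq18 : ∀ u, 0 ≤ u → u < 31671 → PR.fixF [tb18, tb18] u = true := by
  have h : ∀ u, 0 ≤ u → u < 0 → PR.fixF [tb18, tb18] u = true := fun u h1 h2 => absurd h2 (by omega)
  have h := PR.allR_chain (PR.fixF [tb18, tb18]) 0 0 9907 sq18_0 h
  have h := PR.allR_chain (PR.fixF [tb18, tb18]) 0 9907 9907 sq18_1 h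
  have h := PR.allR_chain (PR.fixF [tb18, tb18]) 0 19814 9907 sq18_2 h
  have h := PR.allR_chain (PR.fixF [tb18, tb18]) 0 29721 1950 sq18_3 h
  exact h

theorem rel0 : ∀ u, 0 ≤ u → u < 31671 → PR.fixF [tb0, tb2, tb0, tb2, tb0, tb2] u = true := by
  have h : ∀ u, 0 ≤ u → u < 0 → PR.fixF [tb0, tb2, tb0, tb2, tb0, tb2] u = true := fun u h1 h2 => absurd h2 (by omega)
  have h := PR.allR_chain (PR.fixF [tb0, tb2, tb0, tb2, tb0, tb2]) 0 0 3302 rel0_0 h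
  have h := PR.allR_chain (PR.fixF [tb0, tb2, tb0, tb2, tb0, tb2]) 0 3302 3302 rel0_1 h
  have h := PR.allR_chain (PR.fixF [tb0, tb2, tb0, tb2, tb0, tb2]) 0 6604 3302 rel0_2 h
  have h := PR.allR_chain (PR.fixF [tb0, tb2, tb0, tb2, tb0, tb2]) 0 9906 3302 rel0_3 h
  have h := PR.allR_chain (PR.fixF [tb0, tb2, tb0, tb2, tb0, tb2]) 0 13208 3302 rel0_4 h
  have h := PR.allR_chain (PR.fixF [tb0, tb2, tb0, tb2, tb0, tb2]) 0 16510 3302 rel0_5 h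
  have h := PR.allR_chain (PR.fixF [tb0, tb2, tb0, tb2, tb0, tb2]) 0 19812 3302 rel0_6 h
  have h := PR.allR_chain (PR.fixF [tb0, tb2, tb0, tb2, tb0, tb2]) 0 23114 3302 rel0_7 h
  have h := PR.allR_chain (PR.fixF [tb0, tb2, tb0, tb2, tb0, tb2]) 0 26416 3302 rel0_8 h
  have h := PR.allR_chain (PR.fixF [tb0, tb2, tb0, tb2, tb0, tb2]) 0 29718 1953 rel0_9 h
  exact h

theorem rel1 : ∀ u, 0 ≤ u → u < 31671 → PR.fixF [tb0, tb4, tb0, tb4] u = true := by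
  have h : ∀ u, 0 ≤ u → u < 0 → PR.fixF [tb0, tb4, tb0, tb4] u = true := fun u h1 h2 => absurd h2 (by omega)
  have h := PR.allR_chain (PR.fixF [tb0, tb4, tb0, tb4]) 0 0 4953 rel1_0 h
  have h := PR.allR_chain (PR.fixF [tb0, tb4, tb0, tb4]) 0 4953 4953 rel1_1 h
  have h := PR.allR_chain (PR.fixF [tb0, tb4, tb0, tb4]) 0 9906 4953 rel1_2 h
  have h := PR.allR_chain (PR.fixF [tb0, tb4, tb0, tb4]) 0 14859 4953 rel1_3 h
  have h := PR.allR_chain (PR.fixF [tb0, tb4, tb0, tb4]) 0 19812 4953 rel1_4 h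
  have h := PR.allR_chain (PR.fixF [tb0, tb4, tb0, tb4]) 0 24765 4953 rel1_5 h
  have h := PR.allR_chain (PR.fixF [tb0, tb4, tb0, tb4]) 0 29718 1953 rel1_6 h
  exact h

theorem rel2 : ∀ u, 0 ≤ u → u < 31671 → PR.fixF [tb0, tb6, tb0, tb6] u = true := by
  have h : ∀ u, 0 ≤ u → u < 0 → PR.fixF [tb0, tb6, tb0, tb6] u = true := fun u h1 h2 => absurd h2 (by omega)
  have h := PR.allR_chain (PR.fixF [tb0, tb6, tb0, tb6]) 0 0 4953 rel2_0 h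
  have h := PR.allR_chain (PR.fixF [tb0, tb6, tb0, tb6]) 0 4953 4953 rel2_1 h
  have h := PR.allR_chain (PR.fixF [tb0, tb6, tb0, tb6]) 0 9906 4953 rel2_2 h
  have h := PR.allR_chain (PR.fixF [tb0, tb6, tb0, tb6]) 0 14859 4953 rel2_3 h
  have h := PR.allR_chain (PR.fixF [tb0, tb6, tb0, tb6]) 0 19812 4953 rel2_4 h
  have h := PR.allR_chain (PR.fixF [tb0, tb6, tb0, tb6]) 0 24765 4953 rel2_5 h
  have h := PR.allR_chain (PR.fixF [tb0, tb6, tb0, tb6]) 0 29718 1953 rel2_6 h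
  exact h

theorem rel3 : ∀ u, 0 ≤ u → u < 31671 → PR.fixF [tb0, tb8, tb0, tb8] u = true := by
  have h : ∀ u, 0 ≤ u → u < 0 → PR.fixF [tb0, tb8, tb0, tb8] u = true := fun u h1 h2 => absurd h2 (by omega)
  have h := PR.allR_chain (PR.fixF [tb0, tb8, tb0, tb8]) 0 0 4953 rel3_0 h
  have h := PR.allR_chain (PR.fixF [tb0, tb8, tb0, tb8]) 0 4953 4953 rel3_1 h
  have h := PR.allR_chain (PR.fixF [tb0, tb8, tb0, tb8]) 0 9906 4953 rel3_2 h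
  have h := PR.allR_chain (PR.fixF [tb0, tb8, tb0, tb8]) 0 14859 4953 rel3_3 h
  have h := PR.allR_chain (PR.fixF [tb0, tb8, tb0, tb8]) 0 19812 4953 rel3_4 h
  have h := PR.allR_chain (PR.fixF [tb0, tb8, tb0, tb8]) 0 24765 4953 rel3_5 h
  have h := PR.allR_chain (PR.fixF [tb0, tb8, tb0, tb8]) 0 29718 1953 rel3_6 h
  exact h

theorem rel4 : ∀ u, 0 ≤ u → u < 31671 → PR.fixF [tb0, tb14, tb0, tb14] u = true := by
  have h : ∀ u, 0 ≤ u → u < 0 → PR.fixF [tb0, tb14, tb0, tb14] u = true := fun u h1 h2 => absurd h2 (by omega)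
  have h := PR.allR_chain (PR.fixF [tb0, tb14, tb0, tb14]) 0 0 4953 rel4_0 h
  have h := PR.allR_chain (PR.fixF [tb0, tb14, tb0, tb14]) 0 4953 4953 rel4_1 h
  have h := PR.allR_chain (PR.fixF [tb0, tb14, tb0, tb14]) 0 9906 4953 rel4_2 h
  have h := PR.allR_chain (PR.fixF [tb0, tb14, tb0, tb14]) 0 14859 4953 rel4_3 h
  have h := PR.allR_chain (PR.fixF [tb0, tb14, tb0, tb14]) 0 19812 4953 rel4_4 h
  have h := PR.allR_chain (PR.fixF [tb0, tb14, tb0, tb14]) 0 24765 4953 rel4_5 h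
  have h := PR.allR_chain (PR.fixF [tb0, tb14, tb0, tb14]) 0 29718 1953 rel4_6 h
  exact h

theorem rel5 : ∀ u, 0 ≤ u → u < 31671 → PR.fixF [tb0, tb10, tb0, tb10] u = true := by
  have h : ∀ u, 0 ≤ u → u < 0 → PR.fixF [tb0, tb10, tb0, tb10] u = true := fun u h1 h2 => absurd h2 (by omega)
  have h := PR.allR_chain (PR.fixF [tb0, tb10, tb0, tb10]) 0 0 4953 rel5_0 h
  have h := PR.allR_chain (PR.fixF [tb0, tb10, tb0, tb10]) 0 4953 4953 rel5_1 h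
  have h := PR.allR_chain (PR.fixF [tb0, tb10, tb0, tb10]) 0 9906 4953 rel5_2 h
  have h := PR.allR_chain (PR.fixF [tb0, tb10, tb0, tb10]) 0 14859 4953 rel5_3 h
  have h := PR.allR_chain (PR.fixF [tb0, tb10, tb0, tb10]) 0 19812 4953 rel5_4 h
  have h := PR.allR_chain (PR.fixF [tb0, tb10, tb0, tb10]) 0 24765 4953 rel5_5 h
  have h := PR.allR_chain (PR.fixF [tb0, tb10, tb0, tb10]) 0 29718 1953 rel5_6 h
  exact h

theorem rel6 : ∀ u, 0 ≤ u → u < 31671 → PR.fixF [tb0, tb12, tb0, tb12] u = true := by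
  have h : ∀ u, 0 ≤ u → u < 0 → PR.fixF [tb0, tb12, tb0, tb12] u = true := fun u h1 h2 => absurd h2 (by omega)
  have h := PR.allR_chain (PR.fixF [tb0, tb12, tb0, tb12]) 0 0 4953 rel6_0 h
  have h := PR.allR_chain (PR.fixF [tb0, tb12, tb0, tb12]) 0 4953 4953 rel6_1 h
  have h := PR.allR_chain (PR.fixF [tb0, tb12, tb0, tb12]) 0 9906 4953 rel6_2 h
  have h := PR.allR_chain (PR.fixF [tb0, tb12, tb0, tb12]) 0 14859 4953 rel6_3 h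
  have h := PR.allR_chain (PR.fixF [tb0, tb12, tb0, tb12]) 0 19812 4953 rel6_4 h
  have h := PR.allR_chain (PR.fixF [tb0, tb12, tb0, tb12]) 0 24765 4953 rel6_5 h
  have h := PR.allR_chain (PR.fixF [tb0, tb12, tb0, tb12]) 0 29718 1953 rel6_6 h
  exact h

theorem rel7 : ∀ u, 0 ≤ u → u < 31671 → PR.fixF [tb0, tb18, tb0, tb18] u = true := by
  have h : ∀ u, 0 ≤ u → u < 0 → PR.fixF [tb0, tb18, tb0, tb18] u = true := fun u h1 h2 => absurd h2 (by omega)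
  have h := PR.allR_chain (PR.fixF [tb0, tb18, tb0, tb18]) 0 0 4953 rel7_0 h
  have h := PR.allR_chain (PR.fixF [tb0, tb18, tb0, tb18]) 0 4953 4953 rel7_1 h
  have h := PR.allR_chain (PR.fixF [tb0, tb18, tb0, tb18]) 0 9906 4953 rel7_2 h
  have h := PR.allR_chain (PR.fixF [tb0, tb18, tb0, tb18]) 0 14859 4953 rel7_3 h
  have h := PR.allR_chain (PR.fixF [tb0, tb18, tb0, tb18]) 0 19812 4953 rel7_4 h
  have h := PR.allR_chain (PR.fixF [tb0, tb18, tb0, tb18]) 0 24765 4953 rel7_5 h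
  have h := PR.allR_chain (PR.fixF [tb0, tb18, tb0, tb18]) 0 29718 1953 rel7_6 h
  exact h

theorem rel8 : ∀ u, 0 ≤ u → u < 31671 → PR.fixF [tb0, tb16, tb0, tb16] u = true := by
  have h : ∀ u, 0 ≤ u → u < 0 → PR.fixF [tb0, tb16, tb0, tb16] u = true := fun u h1 h2 => absurd h2 (by omega)
  have h := PR.allR_chain (PR.fixF [tb0, tb16, tb0, tb16]) 0 0 4953 rel8_0 h
  have h := PR.allR_chain (PR.fixF [tb0, tb16, tb0, tb16]) 0 4953 4953 rel8_1 h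
  have h := PR.allR_chain (PR.fixF [tb0, tb16, tb0, tb16]) 0 9906 4953 rel8_2 h
  have h := PR.allR_chain (PR.fixF [tb0, tb16, tb0, tb16]) 0 14859 4953 rel8_3 h
  have h := PR.allR_chain (PR.fixF [tb0, tb16, tb0, tb16]) 0 19812 4953 rel8_4 h
  have h := PR.allR_chain (PR.fixF [tb0, tb16, tb0, tb16]) 0 24765 4953 rel8_5 h
  have h := PR.allR_chain (PR.fixF [tb0, tb16, tb0, tb16]) 0 29718 1953 rel8_6 h
  exact h

theorem rel9 : ∀ u, 0 ≤ u → u < 31671 → PR.fixF [tb2, tb4, tb2, tb4, tb2, tb4] u = true := by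
  have h : ∀ u, 0 ≤ u → u < 0 → PR.fixF [tb2, tb4, tb2, tb4, tb2, tb4] u = true := fun u h1 h2 => absurd h2 (by omega)
  have h := PR.allR_chain (PR.fixF [tb2, tb4, tb2, tb4, tb2, tb4]) 0 0 3302 rel9_0 h
  have h := PR.allR_chain (PR.fixF [tb2, tb4, tb2, tb4, tb2, tb4]) 0 3302 3302 rel9_1 h
  have h := PR.allR_chain (PR.fixF [tb2, tb4, tb2, tb4, tb2, tb4]) 0 6604 3302 rel9_2 h
  have h := PR.allR_chain (PR.fixF [tb2, tb4, tb2, tb4, tb2, tb4]) 0 9906 3302 rel9_3 h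
  have h := PR.allR_chain (PR.fixF [tb2, tb4, tb2, tb4, tb2, tb4]) 0 13208 3302 rel9_4 h
  have h := PR.allR_chain (PR.fixF [tb2, tb4, tb2, tb4, tb2, tb4]) 0 16510 3302 rel9_5 h
  have h := PR.allR_chain (PR.fixF [tb2, tb4, tb2, tb4, tb2, tb4]) 0 19812 3302 rel9_6 h
  have h := PR.allR_chain (PR.fixF [tb2, tb4, tb2, tb4, tb2, tb4]) 0 23114 3302 rel9_7 h
  have h := PR.allR_chain (PR.fixF [tb2, tb4, tb2, tb4, tb2, tb4]) 0 26416 3302 rel9_8 h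
  have h := PR.allR_chain (PR.fixF [tb2, tb4, tb2, tb4, tb2, tb4]) 0 29718 1953 rel9_9 h
  exact h

theorem rel10 : ∀ u, 0 ≤ u → u < 31671 → PR.fixF [tb2, tb6, tb2, tb6] u = true := by
  have h : ∀ u, 0 ≤ u → u < 0 → PR.fixF [tb2, tb6, tb2, tb6] u = true := fun u h1 h2 => absurd h2 (by omega)
  have h := PR.allR_chain (PR.fixF [tb2, tb6, tb2, tb6]) 0 0 4953 rel10_0 h
  have h := PR.allR_chain (PR.fixF [tb2, tb6, tb2, tb6]) 0 4953 4953 rel10_1 h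
  have h := PR.allR_chain (PR.fixF [tb2, tb6, tb2, tb6]) 0 9906 4953 rel10_2 h
  have h := PR.allR_chain (PR.fixF [tb2, tb6, tb2, tb6]) 0 14859 4953 rel10_3 h
  have h := PR.allR_chain (PR.fixF [tb2, tb6, tb2, tb6]) 0 19812 4953 rel10_4 h
  have h := PR.allR_chain (PR.fixF [tb2, tb6, tb2, tb6]) 0 24765 4953 rel10_5 h
  have h := PR.allR_chain (PR.fixF [tb2, tb6, tb2, tb6]) 0 29718 1953 rel10_6 h
  exact h

theorem rel11 : ∀ u, 0 ≤ u → u < 31671 → PR.fixF [tb2, tb8, tb2, tb8] u = true := by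
  have h : ∀ u, 0 ≤ u → u < 0 → PR.fixF [tb2, tb8, tb2, tb8] u = true := fun u h1 h2 => absurd h2 (by omega)
  have h := PR.allR_chain (PR.fixF [tb2, tb8, tb2, tb8]) 0 0 4953 rel11_0 h
  have h := PR.allR_chain (PR.fixF [tb2, tb8, tb2, tb8]) 0 4953 4953 rel11_1 h
  have h := PR.allR_chain (PR.fixF [tb2, tb8, tb2, tb8]) 0 9906 4953 rel11_2 h
  have h := PR.allR_chain (PR.fixF [tb2, tb8, tb2, tb8]) 0 14859 4953 rel11_3 h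
  have h := PR.allR_chain (PR.fixF [tb2, tb8, tb2, tb8]) 0 19812 4953 rel11_4 h
  have h := PR.allR_chain (PR.fixF [tb2, tb8, tb2, tb8]) 0 24765 4953 rel11_5 h
  have h := PR.allR_chain (PR.fixF [tb2, tb8, tb2, tb8]) 0 29718 1953 rel11_6 h
  exact h

theorem rel12 : ∀ u, 0 ≤ u → u < 31671 → PR.fixF [tb2, tb14, tb2, tb14] u = true := by
  have h : ∀ u, 0 ≤ u → u < 0 → PR.fixF [tb2, tb14, tb2, tb14] u = true := fun u h1 h2 => absurd h2 (by omega)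
  have h := PR.allR_chain (PR.fixF [tb2, tb14, tb2, tb14]) 0 0 4953 rel12_0 h
  have h := PR.allR_chain (PR.fixF [tb2, tb14, tb2, tb14]) 0 4953 4953 rel12_1 h
  have h := PR.allR_chain (PR.fixF [tb2, tb14, tb2, tb14]) 0 9906 4953 rel12_2 h
  have h := PR.allR_chain (PR.fixF [tb2, tb14, tb2, tb14]) 0 14859 4953 rel12_3 h
  have h := PR.allR_chain (PR.fixF [tb2, tb14, tb2, tb14]) 0 19812 4953 rel12_4 h
  have h := PR.allR_chain (PR.fixF [tb2, tb14, tb2, tb14]) 0 24765 4953 rel12_5 h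
  have h := PR.allR_chain (PR.fixF [tb2, tb14, tb2, tb14]) 0 29718 1953 rel12_6 h
  exact h

theorem rel13 : ∀ u, 0 ≤ u → u < 31671 → PR.fixF [tb2, tb10, tb2, tb10] u = true := by
  have h : ∀ u, 0 ≤ u → u < 0 → PR.fixF [tb2, tb10, tb2, tb10] u = true := fun u h1 h2 => absurd h2 (by omega)
  have h := PR.allR_chain (PR.fixF [tb2, tb10, tb2, tb10]) 0 0 4953 rel13_0 h
  have h := PR.allR_chain (PR.fixF [tb2, tb10, tb2, tb10]) 0 4953 4953 rel13_1 h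
  have h := PR.allR_chain (PR.fixF [tb2, tb10, tb2, tb10]) 0 9906 4953 rel13_2 h
  have h := PR.allR_chain (PR.fixF [tb2, tb10, tb2, tb10]) 0 14859 4953 rel13_3 h
  have h := PR.allR_chain (PR.fixF [tb2, tb10, tb2, tb10]) 0 19812 4953 rel13_4 h
  have h := PR.allR_chain (PR.fixF [tb2, tb10, tb2, tb10]) 0 24765 4953 rel13_5 h
  have h := PR.allR_chain (PR.fixF [tb2, tb10, tb2, tb10]) 0 29718 1953 rel13_6 h
  exact h

theorem rel14 : ∀ u, 0 ≤ u → u < 31671 → PR.fixF [tb2, tb12, tb2, tb12] u = true := by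
  have h : ∀ u, 0 ≤ u → u < 0 → PR.fixF [tb2, tb12, tb2, tb12] u = true := fun u h1 h2 => absurd h2 (by omega)
  have h := PR.allR_chain (PR.fixF [tb2, tb12, tb2, tb12]) 0 0 4953 rel14_0 h
  have h := PR.allR_chain (PR.fixF [tb2, tb12, tb2, tb12]) 0 4953 4953 rel14_1 h
  have h := PR.allR_chain (PR.fixF [tb2, tb12, tb2, tb12]) 0 9906 4953 rel14_2 h
  have h := PR.allR_chain (PR.fixF [tb2, tb12, tb2, tb12]) 0 14859 4953 rel14_3 h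
  have h := PR.allR_chain (PR.fixF [tb2, tb12, tb2, tb12]) 0 19812 4953 rel14_4 h
  have h := PR.allR_chain (PR.fixF [tb2, tb12, tb2, tb12]) 0 24765 4953 rel14_5 h
  have h := PR.allR_chain (PR.fixF [tb2, tb12, tb2, tb12]) 0 29718 1953 rel14_6 h
  exact h

theorem rel15 : ∀ u, 0 ≤ u → u < 31671 → PR.fixF [tb2, tb18, tb2, tb18] u = true := by
  have h : ∀ u, 0 ≤ u → u < 0 → PR.fixF [tb2, tb18, tb2, tb18] u = true := fun u h1 h2 => absurd h2 (by omega)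
  have h := PR.allR_chain (PR.fixF [tb2, tb18, tb2, tb18]) 0 0 4953 rel15_0 h
  have h := PR.allR_chain (PR.fixF [tb2, tb18, tb2, tb18]) 0 4953 4953 rel15_1 h
  have h := PR.allR_chain (PR.fixF [tb2, tb18, tb2, tb18]) 0 9906 4953 rel15_2 h
  have h := PR.allR_chain (PR.fixF [tb2, tb18, tb2, tb18]) 0 14859 4953 rel15_3 h
  have h := PR.allR_chain (PR.fixF [tb2, tb18, tb2, tb18]) 0 19812 4953 rel15_4 h
  have h := PR.allR_chain (PR.fixF [tb2, tb18, tb2, tb18]) 0 24765 4953 rel15_5 h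
  have h := PR.allR_chain (PR.fixF [tb2, tb18, tb2, tb18]) 0 29718 1953 rel15_6 h
  exact h

theorem rel16 : ∀ u, 0 ≤ u → u < 31671 → PR.fixF [tb2, tb16, tb2, tb16] u = true := by
  have h : ∀ u, 0 ≤ u → u < 0 → PR.fixF [tb2, tb16, tb2, tb16] u = true := fun u h1 h2 => absurd h2 (by omega)
  have h := PR.allR_chain (PR.fixF [tb2, tb16, tb2, tb16]) 0 0 4953 rel16_0 h
  have h := PR.allR_chain (PR.fixF [tb2, tb16, tb2, tb16]) 0 4953 4953 rel16_1 h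
  have h := PR.allR_chain (PR.fixF [tb2, tb16, tb2, tb16]) 0 9906 4953 rel16_2 h
  have h := PR.allR_chain (PR.fixF [tb2, tb16, tb2, tb16]) 0 14859 4953 rel16_3 h
  have h := PR.allR_chain (PR.fixF [tb2, tb16, tb2, tb16]) 0 19812 4953 rel16_4 h
  have h := PR.allR_chain (PR.fixF [tb2, tb16, tb2, tb16]) 0 24765 4953 rel16_5 h
  have h := PR.allR_chain (PR.fixF [tb2, tb16, tb2, tb16]) 0 29718 1953 rel16_6 h
  exact h

theorem rel17 : ∀ u, 0 ≤ u → u < 31671 → PR.fixF [tb4, tb6, tb4, tb6, tb4, tb6] u = true := by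
  have h : ∀ u, 0 ≤ u → u < 0 → PR.fixF [tb4, tb6, tb4, tb6, tb4, tb6] u = true := fun u h1 h2 => absurd h2 (by omega)
  have h := PR.allR_chain (PR.fixF [tb4, tb6, tb4, tb6, tb4, tb6]) 0 0 3302 rel17_0 h
  have h := PR.allR_chain (PR.fixF [tb4, tb6, tb4, tb6, tb4, tb6]) 0 3302 3302 rel17_1 h
  have h := PR.allR_chain (PR.fixF [tb4, tb6, tb4, tb6, tb4, tb6]) 0 6604 3302 rel17_2 h
  have h := PR.allR_chain (PR.fixF [tb4, tb6, tb4, tb6, tb4, tb6]) 0 9906 3302 rel17_3 h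
  have h := PR.allR_chain (PR.fixF [tb4, tb6, tb4, tb6, tb4, tb6]) 0 13208 3302 rel17_4 h
  have h := PR.allR_chain (PR.fixF [tb4, tb6, tb4, tb6, tb4, tb6]) 0 16510 3302 rel17_5 h
  have h := PR.allR_chain (PR.fixF [tb4, tb6, tb4, tb6, tb4, tb6]) 0 19812 3302 rel17_6 h
  have h := PR.allR_chain (PR.fixF [tb4, tb6, tb4, tb6, tb4, tb6]) 0 23114 3302 rel17_7 h
  have h := PR.allR_chain (PR.fixF [tb4, tb6, tb4, tb6, tb4, tb6]) 0 26416 3302 rel17_8 h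
  have h := PR.allR_chain (PR.fixF [tb4, tb6, tb4, tb6, tb4, tb6]) 0 29718 1953 rel17_9 h
  exact h

theorem rel18 : ∀ u, 0 ≤ u → u < 31671 → PR.fixF [tb4, tb8, tb4, tb8] u = true := by
  have h : ∀ u, 0 ≤ u → u < 0 → PR.fixF [tb4, tb8, tb4, tb8] u = true := fun u h1 h2 => absurd h2 (by omega)
  have h := PR.allR_chain (PR.fixF [tb4, tb8, tb4, tb8]) 0 0 4953 rel18_0 h
  have h := PR.allR_chain (PR.fixF [tb4, tb8, tb4, tb8]) 0 4953 4953 rel18_1 h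
  have h := PR.allR_chain (PR.fixF [tb4, tb8, tb4, tb8]) 0 9906 4953 rel18_2 h
  have h := PR.allR_chain (PR.fixF [tb4, tb8, tb4, tb8]) 0 14859 4953 rel18_3 h
  have h := PR.allR_chain (PR.fixF [tb4, tb8, tb4, tb8]) 0 19812 4953 rel18_4 h
  have h := PR.allR_chain (PR.fixF [tb4, tb8, tb4, tb8]) 0 24765 4953 rel18_5 h
  have h := PR.allR_chain (PR.fixF [tb4, tb8, tb4, tb8]) 0 29718 1953 rel18_6 h
  exact h

theorem rel19 : ∀ u, 0 ≤ u → u < 31671 → PR.fixF [tb4, tb14, tb4, tb14] u = true := by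
  have h : ∀ u, 0 ≤ u → u < 0 → PR.fixF [tb4, tb14, tb4, tb14] u = true := fun u h1 h2 => absurd h2 (by omega)
  have h := PR.allR_chain (PR.fixF [tb4, tb14, tb4, tb14]) 0 0 4953 rel19_0 h
  have h := PR.allR_chain (PR.fixF [tb4, tb14, tb4, tb14]) 0 4953 4953 rel19_1 h
  have h := PR.allR_chain (PR.fixF [tb4, tb14, tb4, tb14]) 0 9906 4953 rel19_2 h
  have h := PR.allR_chain (PR.fixF [tb4, tb14, tb4, tb14]) 0 14859 4953 rel19_3 h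
  have h := PR.allR_chain (PR.fixF [tb4, tb14, tb4, tb14]) 0 19812 4953 rel19_4 h
  have h := PR.allR_chain (PR.fixF [tb4, tb14, tb4, tb14]) 0 24765 4953 rel19_5 h
  have h := PR.allR_chain (PR.fixF [tb4, tb14, tb4, tb14]) 0 29718 1953 rel19_6 h
  exact h

theorem rel20 : ∀ u, 0 ≤ u → u < 31671 → PR.fixF [tb4, tb10, tb4, tb10] u = true := by
  have h : ∀ u, 0 ≤ u → u < 0 → PR.fixF [tb4, tb10, tb4, tb10] u = true := fun u h1 h2 => absurd h2 (by omega)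
  have h := PR.allR_chain (PR.fixF [tb4, tb10, tb4, tb10]) 0 0 4953 rel20_0 h
  have h := PR.allR_chain (PR.fixF [tb4, tb10, tb4, tb10]) 0 4953 4953 rel20_1 h
  have h := PR.allR_chain (PR.fixF [tb4, tb10, tb4, tb10]) 0 9906 4953 rel20_2 h
  have h := PR.allR_chain (PR.fixF [tb4, tb10, tb4, tb10]) 0 14859 4953 rel20_3 h
  have h := PR.allR_chain (PR.fixF [tb4, tb10, tb4, tb10]) 0 19812 4953 rel20_4 h
  have h := PR.allR_chain (PR.fixF [tb4, tb10, tb4, tb10]) 0 24765 4953 rel20_5 h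
  have h := PR.allR_chain (PR.fixF [tb4, tb10, tb4, tb10]) 0 29718 1953 rel20_6 h
  exact h

theorem rel21 : ∀ u, 0 ≤ u → u < 31671 → PR.fixF [tb4, tb12, tb4, tb12] u = true := by
  have h : ∀ u, 0 ≤ u → u < 0 → PR.fixF [tb4, tb12, tb4, tb12] u = true := fun u h1 h2 => absurd h2 (by omega)
  have h := PR.allR_chain (PR.fixF [tb4, tb12, tb4, tb12]) 0 0 4953 rel21_0 h
  have h := PR.allR_chain (PR.fixF [tb4, tb12, tb4, tb12]) 0 4953 4953 rel21_1 h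
  have h := PR.allR_chain (PR.fixF [tb4, tb12, tb4, tb12]) 0 9906 4953 rel21_2 h
  have h := PR.allR_chain (PR.fixF [tb4, tb12, tb4, tb12]) 0 14859 4953 rel21_3 h
  have h := PR.allR_chain (PR.fixF [tb4, tb12, tb4, tb12]) 0 19812 4953 rel21_4 h
  have h := PR.allR_chain (PR.fixF [tb4, tb12, tb4, tb12]) 0 24765 4953 rel21_5 h
  have h := PR.allR_chain (PR.fixF [tb4, tb12, tb4, tb12]) 0 29718 1953 rel21_6 h
  exact h

theorem rel22 : ∀ u, 0 ≤ u → u < 31671 → PR.fixF [tb4, tb18, tb4, tb18] u = true := by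
  have h : ∀ u, 0 ≤ u → u < 0 → PR.fixF [tb4, tb18, tb4, tb18] u = true := fun u h1 h2 => absurd h2 (by omega)
  have h := PR.allR_chain (PR.fixF [tb4, tb18, tb4, tb18]) 0 0 4953 rel22_0 h
  have h := PR.allR_chain (PR.fixF [tb4, tb18, tb4, tb18]) 0 4953 4953 rel22_1 h
  have h := PR.allR_chain (PR.fixF [tb4, tb18, tb4, tb18]) 0 9906 4953 rel22_2 h
  have h := PR.allR_chain (PR.fixF [tb4, tb18, tb4, tb18]) 0 14859 4953 rel22_3 h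
  have h := PR.allR_chain (PR.fixF [tb4, tb18, tb4, tb18]) 0 19812 4953 rel22_4 h
  have h := PR.allR_chain (PR.fixF [tb4, tb18, tb4, tb18]) 0 24765 4953 rel22_5 h
  have h := PR.allR_chain (PR.fixF [tb4, tb18, tb4, tb18]) 0 29718 1953 rel22_6 h
  exact h

theorem rel23 : ∀ u, 0 ≤ u → u < 31671 → PR.fixF [tb4, tb16, tb4, tb16] u = true := by
  have h : ∀ u, 0 ≤ u → u < 0 → PR.fixF [tb4, tb16, tb4, tb16] u = true := fun u h1 h2 => absurd h2 (by omega)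
  have h := PR.allR_chain (PR.fixF [tb4, tb16, tb4, tb16]) 0 0 4953 rel23_0 h
  have h := PR.allR_chain (PR.fixF [tb4, tb16, tb4, tb16]) 0 4953 4953 rel23_1 h
  have h := PR.allR_chain (PR.fixF [tb4, tb16, tb4, tb16]) 0 9906 4953 rel23_2 h
  have h := PR.allR_chain (PR.fixF [tb4, tb16, tb4, tb16]) 0 14859 4953 rel23_3 h
  have h := PR.allR_chain (PR.fixF [tb4, tb16, tb4, tb16]) 0 19812 4953 rel23_4 h
  have h := PR.allR_chain (PR.fixF [tb4, tb16, tb4, tb16]) 0 24765 4953 rel23_5 h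
  have h := PR.allR_chain (PR.fixF [tb4, tb16, tb4, tb16]) 0 29718 1953 rel23_6 h
  exact h

theorem rel24 : ∀ u, 0 ≤ u → u < 31671 → PR.fixF [tb6, tb8, tb6, tb8, tb6, tb8] u = true := by
  have h : ∀ u, 0 ≤ u → u < 0 → PR.fixF [tb6, tb8, tb6, tb8, tb6, tb8] u = true := fun u h1 h2 => absurd h2 (by omega)
  have h := PR.allR_chain (PR.fixF [tb6, tb8, tb6, tb8, tb6, tb8]) 0 0 3302 rel24_0 h
  have h := PR.allR_chain (PR.fixF [tb6, tb8, tb6, tb8, tb6, tb8]) 0 3302 3302 rel24_1 h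
  have h := PR.allR_chain (PR.fixF [tb6, tb8, tb6, tb8, tb6, tb8]) 0 6604 3302 rel24_2 h
  have h := PR.allR_chain (PR.fixF [tb6, tb8, tb6, tb8, tb6, tb8]) 0 9906 3302 rel24_3 h
  have h := PR.allR_chain (PR.fixF [tb6, tb8, tb6, tb8, tb6, tb8]) 0 13208 3302 rel24_4 h
  have h := PR.allR_chain (PR.fixF [tb6, tb8, tb6, tb8, tb6, tb8]) 0 16510 3302 rel24_5 h
  have h := PR.allR_chain (PR.fixF [tb6, tb8, tb6, tb8, tb6, tb8]) 0 19812 3302 rel24_6 h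
  have h := PR.allR_chain (PR.fixF [tb6, tb8, tb6, tb8, tb6, tb8]) 0 23114 3302 rel24_7 h
  have h := PR.allR_chain (PR.fixF [tb6, tb8, tb6, tb8, tb6, tb8]) 0 26416 3302 rel24_8 h
  have h := PR.allR_chain (PR.fixF [tb6, tb8, tb6, tb8, tb6, tb8]) 0 29718 1953 rel24_9 h
  exact h

theorem rel25 : ∀ u, 0 ≤ u → u < 31671 → PR.fixF [tb6, tb14, tb6, tb14, tb6, tb14] u = true := by
  have h : ∀ u, 0 ≤ u → u < 0 → PR.fixF [tb6, tb14, tb6, tb14, tb6, tb14] u = true := fun u h1 h2 => absurd h2 (by omega)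
  have h := PR.allR_chain (PR.fixF [tb6, tb14, tb6, tb14, tb6, tb14]) 0 0 3302 rel25_0 h
  have h := PR.allR_chain (PR.fixF [tb6, tb14, tb6, tb14, tb6, tb14]) 0 3302 3302 rel25_1 h
  have h := PR.allR_chain (PR.fixF [tb6, tb14, tb6, tb14, tb6, tb14]) 0 6604 3302 rel25_2 h
  have h := PR.allR_chain (PR.fixF [tb6, tb14, tb6, tb14, tb6, tb14]) 0 9906 3302 rel25_3 h
  have h := PR.allR_chain (PR.fixF [tb6, tb14, tb6, tb14, tb6, tb14]) 0 13208 3302 rel25_4 h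
  have h := PR.allR_chain (PR.fixF [tb6, tb14, tb6, tb14, tb6, tb14]) 0 16510 3302 rel25_5 h
  have h := PR.allR_chain (PR.fixF [tb6, tb14, tb6, tb14, tb6, tb14]) 0 19812 3302 rel25_6 h
  have h := PR.allR_chain (PR.fixF [tb6, tb14, tb6, tb14, tb6, tb14]) 0 23114 3302 rel25_7 h
  have h := PR.allR_chain (PR.fixF [tb6, tb14, tb6, tb14, tb6, tb14]) 0 26416 3302 rel25_8 h
  have h := PR.allR_chain (PR.fixF [tb6, tb14, tb6, tb14, tb6, tb14]) 0 29718 1953 rel25_9 h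
  exact h

theorem rel26 : ∀ u, 0 ≤ u → u < 31671 → PR.fixF [tb6, tb10, tb6, tb10] u = true := by
  have h : ∀ u, 0 ≤ u → u < 0 → PR.fixF [tb6, tb10, tb6, tb10] u = true := fun u h1 h2 => absurd h2 (by omega)
  have h := PR.allR_chain (PR.fixF [tb6, tb10, tb6, tb10]) 0 0 4953 rel26_0 h
  have h := PR.allR_chain (PR.fixF [tb6, tb10, tb6, tb10]) 0 4953 4953 rel26_1 h
  have h := PR.allR_chain (PR.fixF [tb6, tb10, tb6, tb10]) 0 9906 4953 rel26_2 h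
  have h := PR.allR_chain (PR.fixF [tb6, tb10, tb6, tb10]) 0 14859 4953 rel26_3 h
  have h := PR.allR_chain (PR.fixF [tb6, tb10, tb6, tb10]) 0 19812 4953 rel26_4 h
  have h := PR.allR_chain (PR.fixF [tb6, tb10, tb6, tb10]) 0 24765 4953 rel26_5 h
  have h := PR.allR_chain (PR.fixF [tb6, tb10, tb6, tb10]) 0 29718 1953 rel26_6 h
  exact h

theorem rel27 : ∀ u, 0 ≤ u → u < 31671 → PR.fixF [tb6, tb12, tb6, tb12] u = true := by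
  have h : ∀ u, 0 ≤ u → u < 0 → PR.fixF [tb6, tb12, tb6, tb12] u = true := fun u h1 h2 => absurd h2 (by omega)
  have h := PR.allR_chain (PR.fixF [tb6, tb12, tb6, tb12]) 0 0 4953 rel27_0 h
  have h := PR.allR_chain (PR.fixF [tb6, tb12, tb6, tb12]) 0 4953 4953 rel27_1 h
  have h := PR.allR_chain (PR.fixF [tb6, tb12, tb6, tb12]) 0 9906 4953 rel27_2 h
  have h := PR.allR_chain (PR.fixF [tb6, tb12, tb6, tb12]) 0 14859 4953 rel27_3 h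
  have h := PR.allR_chain (PR.fixF [tb6, tb12, tb6, tb12]) 0 19812 4953 rel27_4 h
  have h := PR.allR_chain (PR.fixF [tb6, tb12, tb6, tb12]) 0 24765 4953 rel27_5 h
  have h := PR.allR_chain (PR.fixF [tb6, tb12, tb6, tb12]) 0 29718 1953 rel27_6 h
  exact h

theorem rel28 : ∀ u, 0 ≤ u → u < 31671 → PR.fixF [tb6, tb18, tb6, tb18] u = true := by
  have h : ∀ u, 0 ≤ u → u < 0 → PR.fixF [tb6, tb18, tb6, tb18] u = true := fun u h1 h2 => absurd h2 (by omega)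
  have h := PR.allR_chain (PR.fixF [tb6, tb18, tb6, tb18]) 0 0 4953 rel28_0 h
  have h := PR.allR_chain (PR.fixF [tb6, tb18, tb6, tb18]) 0 4953 4953 rel28_1 h
  have h := PR.allR_chain (PR.fixF [tb6, tb18, tb6, tb18]) 0 9906 4953 rel28_2 h
  have h := PR.allR_chain (PR.fixF [tb6, tb18, tb6, tb18]) 0 14859 4953 rel28_3 h
  have h := PR.allR_chain (PR.fixF [tb6, tb18, tb6, tb18]) 0 19812 4953 rel28_4 h
  have h := PR.allR_chain (PR.fixF [tb6, tb18, tb6, tb18]) 0 24765 4953 rel28_5 h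
  have h := PR.allR_chain (PR.fixF [tb6, tb18, tb6, tb18]) 0 29718 1953 rel28_6 h
  exact h

theorem rel29 : ∀ u, 0 ≤ u → u < 31671 → PR.fixF [tb6, tb16, tb6, tb16] u = true := by
  have h : ∀ u, 0 ≤ u → u < 0 → PR.fixF [tb6, tb16, tb6, tb16] u = true := fun u h1 h2 => absurd h2 (by omega)
  have h := PR.allR_chain (PR.fixF [tb6, tb16, tb6, tb16]) 0 0 4953 rel29_0 h
  have h := PR.allR_chain (PR.fixF [tb6, tb16, tb6, tb16]) 0 4953 4953 rel29_1 h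
  have h := PR.allR_chain (PR.fixF [tb6, tb16, tb6, tb16]) 0 9906 4953 rel29_2 h
  have h := PR.allR_chain (PR.fixF [tb6, tb16, tb6, tb16]) 0 14859 4953 rel29_3 h
  have h := PR.allR_chain (PR.fixF [tb6, tb16, tb6, tb16]) 0 19812 4953 rel29_4 h
  have h := PR.allR_chain (PR.fixF [tb6, tb16, tb6, tb16]) 0 24765 4953 rel29_5 h
  have h := PR.allR_chain (PR.fixF [tb6, tb16, tb6, tb16]) 0 29718 1953 rel29_6 h
  exact h

theorem rel30 : ∀ u, 0 ≤ u → u < 31671 → PR.fixF [tb8, tb14, tb8, tb14] u = true := by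
  have h : ∀ u, 0 ≤ u → u < 0 → PR.fixF [tb8, tb14, tb8, tb14] u = true := fun u h1 h2 => absurd h2 (by omega)
  have h := PR.allR_chain (PR.fixF [tb8, tb14, tb8, tb14]) 0 0 4953 rel30_0 h
  have h := PR.allR_chain (PR.fixF [tb8, tb14, tb8, tb14]) 0 4953 4953 rel30_1 h
  have h := PR.allR_chain (PR.fixF [tb8, tb14, tb8, tb14]) 0 9906 4953 rel30_2 h
  have h := PR.allR_chain (PR.fixF [tb8, tb14, tb8, tb14]) 0 14859 4953 rel30_3 h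
  have h := PR.allR_chain (PR.fixF [tb8, tb14, tb8, tb14]) 0 19812 4953 rel30_4 h
  have h := PR.allR_chain (PR.fixF [tb8, tb14, tb8, tb14]) 0 24765 4953 rel30_5 h
  have h := PR.allR_chain (PR.fixF [tb8, tb14, tb8, tb14]) 0 29718 1953 rel30_6 h
  exact h

theorem rel31 : ∀ u, 0 ≤ u → u < 31671 → PR.fixF [tb8, tb10, tb8, tb10, tb8, tb10] u = true := by
  have h : ∀ u, 0 ≤ u → u < 0 → PR.fixF [tb8, tb10, tb8, tb10, tb8, tb10] u = true := fun u h1 h2 => absurd h2 (by omega)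
  have h := PR.allR_chain (PR.fixF [tb8, tb10, tb8, tb10, tb8, tb10]) 0 0 3302 rel31_0 h
  have h := PR.allR_chain (PR.fixF [tb8, tb10, tb8, tb10, tb8, tb10]) 0 3302 3302 rel31_1 h
  have h := PR.allR_chain (PR.fixF [tb8, tb10, tb8, tb10, tb8, tb10]) 0 6604 3302 rel31_2 h
  have h := PR.allR_chain (PR.fixF [tb8, tb10, tb8, tb10, tb8, tb10]) 0 9906 3302 rel31_3 h
  have h := PR.allR_chain (PR.fixF [tb8, tb10, tb8, tb10, tb8, tb10]) 0 13208 3302 rel31_4 h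
  have h := PR.allR_chain (PR.fixF [tb8, tb10, tb8, tb10, tb8, tb10]) 0 16510 3302 rel31_5 h
  have h := PR.allR_chain (PR.fixF [tb8, tb10, tb8, tb10, tb8, tb10]) 0 19812 3302 rel31_6 h
  have h := PR.allR_chain (PR.fixF [tb8, tb10, tb8, tb10, tb8, tb10]) 0 23114 3302 rel31_7 h
  have h := PR.allR_chain (PR.fixF [tb8, tb10, tb8, tb10, tb8, tb10]) 0 26416 3302 rel31_8 h
  have h := PR.allR_chain (PR.fixF [tb8, tb10, tb8, tb10, tb8, tb10]) 0 29718 1953 rel31_9 h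
  exact h

theorem rel32 : ∀ u, 0 ≤ u → u < 31671 → PR.fixF [tb8, tb12, tb8, tb12] u = true := by
  have h : ∀ u, 0 ≤ u → u < 0 → PR.fixF [tb8, tb12, tb8, tb12] u = true := fun u h1 h2 => absurd h2 (by omega)
  have h := PR.allR_chain (PR.fixF [tb8, tb12, tb8, tb12]) 0 0 4953 rel32_0 h
  have h := PR.allR_chain (PR.fixF [tb8, tb12, tb8, tb12]) 0 4953 4953 rel32_1 h
  have h := PR.allR_chain (PR.fixF [tb8, tb12, tb8, tb12]) 0 9906 4953 rel32_2 h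
  have h := PR.allR_chain (PR.fixF [tb8, tb12, tb8, tb12]) 0 14859 4953 rel32_3 h
  have h := PR.allR_chain (PR.fixF [tb8, tb12, tb8, tb12]) 0 19812 4953 rel32_4 h
  have h := PR.allR_chain (PR.fixF [tb8, tb12, tb8, tb12]) 0 24765 4953 rel32_5 h
  have h := PR.allR_chain (PR.fixF [tb8, tb12, tb8, tb12]) 0 29718 1953 rel32_6 h
  exact h

theorem rel33 : ∀ u, 0 ≤ u → u < 31671 → PR.fixF [tb8, tb18, tb8, tb18] u = true := by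
  have h : ∀ u, 0 ≤ u → u < 0 → PR.fixF [tb8, tb18, tb8, tb18] u = true := fun u h1 h2 => absurd h2 (by omega)
  have h := PR.allR_chain (PR.fixF [tb8, tb18, tb8, tb18]) 0 0 4953 rel33_0 h
  have h := PR.allR_chain (PR.fixF [tb8, tb18, tb8, tb18]) 0 4953 4953 rel33_1 h
  have h := PR.allR_chain (PR.fixF [tb8, tb18, tb8, tb18]) 0 9906 4953 rel33_2 h
  have h := PR.allR_chain (PR.fixF [tb8, tb18, tb8, tb18]) 0 14859 4953 rel33_3 h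
  have h := PR.allR_chain (PR.fixF [tb8, tb18, tb8, tb18]) 0 19812 4953 rel33_4 h
  have h := PR.allR_chain (PR.fixF [tb8, tb18, tb8, tb18]) 0 24765 4953 rel33_5 h
  have h := PR.allR_chain (PR.fixF [tb8, tb18, tb8, tb18]) 0 29718 1953 rel33_6 h
  exact h

theorem rel34 : ∀ u, 0 ≤ u → u < 31671 → PR.fixF [tb8, tb16, tb8, tb16] u = true := by
  have h : ∀ u, 0 ≤ u → u < 0 → PR.fixF [tb8, tb16, tb8, tb16] u = true := fun u h1 h2 => absurd h2 (by omega)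
  have h := PR.allR_chain (PR.fixF [tb8, tb16, tb8, tb16]) 0 0 4953 rel34_0 h
  have h := PR.allR_chain (PR.fixF [tb8, tb16, tb8, tb16]) 0 4953 4953 rel34_1 h
  have h := PR.allR_chain (PR.fixF [tb8, tb16, tb8, tb16]) 0 9906 4953 rel34_2 h
  have h := PR.allR_chain (PR.fixF [tb8, tb16, tb8, tb16]) 0 14859 4953 rel34_3 h
  have h := PR.allR_chain (PR.fixF [tb8, tb16, tb8, tb16]) 0 19812 4953 rel34_4 h
  have h := PR.allR_chain (PR.fixF [tb8, tb16, tb8, tb16]) 0 24765 4953 rel34_5 h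
  have h := PR.allR_chain (PR.fixF [tb8, tb16, tb8, tb16]) 0 29718 1953 rel34_6 h
  exact h

theorem rel35 : ∀ u, 0 ≤ u → u < 31671 → PR.fixF [tb14, tb10, tb14, tb10] u = true := by
  have h : ∀ u, 0 ≤ u → u < 0 → PR.fixF [tb14, tb10, tb14, tb10] u = true := fun u h1 h2 => absurd h2 (by omega)
  have h := PR.allR_chain (PR.fixF [tb14, tb10, tb14, tb10]) 0 0 4953 rel35_0 h
  have h := PR.allR_chain (PR.fixF [tb14, tb10, tb14, tb10]) 0 4953 4953 rel35_1 h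
  have h := PR.allR_chain (PR.fixF [tb14, tb10, tb14, tb10]) 0 9906 4953 rel35_2 h
  have h := PR.allR_chain (PR.fixF [tb14, tb10, tb14, tb10]) 0 14859 4953 rel35_3 h
  have h := PR.allR_chain (PR.fixF [tb14, tb10, tb14, tb10]) 0 19812 4953 rel35_4 h
  have h := PR.allR_chain (PR.fixF [tb14, tb10, tb14, tb10]) 0 24765 4953 rel35_5 h
  have h := PR.allR_chain (PR.fixF [tb14, tb10, tb14, tb10]) 0 29718 1953 rel35_6 h
  exact h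

theorem rel36 : ∀ u, 0 ≤ u → u < 31671 → PR.fixF [tb14, tb12, tb14, tb12] u = true := by
  have h : ∀ u, 0 ≤ u → u < 0 → PR.fixF [tb14, tb12, tb14, tb12] u = true := fun u h1 h2 => absurd h2 (by omega)
  have h := PR.allR_chain (PR.fixF [tb14, tb12, tb14, tb12]) 0 0 4953 rel36_0 h
  have h := PR.allR_chain (PR.fixF [tb14, tb12, tb14, tb12]) 0 4953 4953 rel36_1 h
  have h := PR.allR_chain (PR.fixF [tb14, tb12, tb14, tb12]) 0 9906 4953 rel36_2 h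
  have h := PR.allR_chain (PR.fixF [tb14, tb12, tb14, tb12]) 0 14859 4953 rel36_3 h
  have h := PR.allR_chain (PR.fixF [tb14, tb12, tb14, tb12]) 0 19812 4953 rel36_4 h
  have h := PR.allR_chain (PR.fixF [tb14, tb12, tb14, tb12]) 0 24765 4953 rel36_5 h
  have h := PR.allR_chain (PR.fixF [tb14, tb12, tb14, tb12]) 0 29718 1953 rel36_6 h
  exact h

theorem rel37 : ∀ u, 0 ≤ u → u < 31671 → PR.fixF [tb14, tb18, tb14, tb18] u = true := by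
  have h : ∀ u, 0 ≤ u → u < 0 → PR.fixF [tb14, tb18, tb14, tb18] u = true := fun u h1 h2 => absurd h2 (by omega)
  have h := PR.allR_chain (PR.fixF [tb14, tb18, tb14, tb18]) 0 0 4953 rel37_0 h
  have h := PR.allR_chain (PR.fixF [tb14, tb18, tb14, tb18]) 0 4953 4953 rel37_1 h
  have h := PR.allR_chain (PR.fixF [tb14, tb18, tb14, tb18]) 0 9906 4953 rel37_2 h
  have h := PR.allR_chain (PR.fixF [tb14, tb18, tb14, tb18]) 0 14859 4953 rel37_3 h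
  have h := PR.allR_chain (PR.fixF [tb14, tb18, tb14, tb18]) 0 19812 4953 rel37_4 h
  have h := PR.allR_chain (PR.fixF [tb14, tb18, tb14, tb18]) 0 24765 4953 rel37_5 h
  have h := PR.allR_chain (PR.fixF [tb14, tb18, tb14, tb18]) 0 29718 1953 rel37_6 h
  exact h

theorem rel38 : ∀ u, 0 ≤ u → u < 31671 → PR.fixF [tb14, tb16, tb14, tb16, tb14, tb16] u = true := by
  have h : ∀ u, 0 ≤ u → u < 0 → PR.fixF [tb14, tb16, tb14, tb16, tb14, tb16] u = true := fun u h1 h2 => absurd h2 (by omega)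
  have h := PR.allR_chain (PR.fixF [tb14, tb16, tb14, tb16, tb14, tb16]) 0 0 3302 rel38_0 h
  have h := PR.allR_chain (PR.fixF [tb14, tb16, tb14, tb16, tb14, tb16]) 0 3302 3302 rel38_1 h
  have h := PR.allR_chain (PR.fixF [tb14, tb16, tb14, tb16, tb14, tb16]) 0 6604 3302 rel38_2 h
  have h := PR.allR_chain (PR.fixF [tb14, tb16, tb14, tb16, tb14, tb16]) 0 9906 3302 rel38_3 h
  have h := PR.allR_chain (PR.fixF [tb14, tb16, tb14, tb16, tb14, tb16]) 0 13208 3302 rel38_4 h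
  have h := PR.allR_chain (PR.fixF [tb14, tb16, tb14, tb16, tb14, tb16]) 0 16510 3302 rel38_5 h
  have h := PR.allR_chain (PR.fixF [tb14, tb16, tb14, tb16, tb14, tb16]) 0 19812 3302 rel38_6 h
  have h := PR.allR_chain (PR.fixF [tb14, tb16, tb14, tb16, tb14, tb16]) 0 23114 3302 rel38_7 h
  have h := PR.allR_chain (PR.fixF [tb14, tb16, tb14, tb16, tb14, tb16]) 0 26416 3302 rel38_8 h
  have h := PR.allR_chain (PR.fixF [tb14, tb16, tb14, tb16, tb14, tb16]) 0 29718 1953 rel38_9 h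
  exact h

theorem rel39 : ∀ u, 0 ≤ u → u < 31671 → PR.fixF [tb10, tb12, tb10, tb12, tb10, tb12] u = true := by
  have h : ∀ u, 0 ≤ u → u < 0 → PR.fixF [tb10, tb12, tb10, tb12, tb10, tb12] u = true := fun u h1 h2 => absurd h2 (by omega)
  have h := PR.allR_chain (PR.fixF [tb10, tb12, tb10, tb12, tb10, tb12]) 0 0 3302 rel39_0 h
  have h := PR.allR_chain (PR.fixF [tb10, tb12, tb10, tb12, tb10, tb12]) 0 3302 3302 rel39_1 h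
  have h := PR.allR_chain (PR.fixF [tb10, tb12, tb10, tb12, tb10, tb12]) 0 6604 3302 rel39_2 h
  have h := PR.allR_chain (PR.fixF [tb10, tb12, tb10, tb12, tb10, tb12]) 0 9906 3302 rel39_3 h
  have h := PR.allR_chain (PR.fixF [tb10, tb12, tb10, tb12, tb10, tb12]) 0 13208 3302 rel39_4 h
  have h := PR.allR_chain (PR.fixF [tb10, tb12, tb10, tb12, tb10, tb12]) 0 16510 3302 rel39_5 h
  have h := PR.allR_chain (PR.fixF [tb10, tb12, tb10, tb12, tb10, tb12]) 0 19812 3302 rel39_6 h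
  have h := PR.allR_chain (PR.fixF [tb10, tb12, tb10, tb12, tb10, tb12]) 0 23114 3302 rel39_7 h
  have h := PR.allR_chain (PR.fixF [tb10, tb12, tb10, tb12, tb10, tb12]) 0 26416 3302 rel39_8 h
  have h := PR.allR_chain (PR.fixF [tb10, tb12, tb10, tb12, tb10, tb12]) 0 29718 1953 rel39_9 h
  exact h

theorem rel40 : ∀ u, 0 ≤ u → u < 31671 → PR.fixF [tb10, tb18, tb10, tb18] u = true := by
  have h : ∀ u, 0 ≤ u → u < 0 → PR.fixF [tb10, tb18, tb10, tb18] u = true := fun u h1 h2 => absurd h2 (by omega)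
  have h := PR.allR_chain (PR.fixF [tb10, tb18, tb10, tb18]) 0 0 4953 rel40_0 h
  have h := PR.allR_chain (PR.fixF [tb10, tb18, tb10, tb18]) 0 4953 4953 rel40_1 h
  have h := PR.allR_chain (PR.fixF [tb10, tb18, tb10, tb18]) 0 9906 4953 rel40_2 h
  have h := PR.allR_chain (PR.fixF [tb10, tb18, tb10, tb18]) 0 14859 4953 rel40_3 h
  have h := PR.allR_chain (PR.fixF [tb10, tb18, tb10, tb18]) 0 19812 4953 rel40_4 h
  have h := PR.allR_chain (PR.fixF [tb10, tb18, tb10, tb18]) 0 24765 4953 rel40_5 h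
  have h := PR.allR_chain (PR.fixF [tb10, tb18, tb10, tb18]) 0 29718 1953 rel40_6 h
  exact h

theorem rel41 : ∀ u, 0 ≤ u → u < 31671 → PR.fixF [tb10, tb16, tb10, tb16] u = true := by
  have h : ∀ u, 0 ≤ u → u < 0 → PR.fixF [tb10, tb16, tb10, tb16] u = true := fun u h1 h2 => absurd h2 (by omega)
  have h := PR.allR_chain (PR.fixF [tb10, tb16, tb10, tb16]) 0 0 4953 rel41_0 h
  have h := PR.allR_chain (PR.fixF [tb10, tb16, tb10, tb16]) 0 4953 4953 rel41_1 h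
  have h := PR.allR_chain (PR.fixF [tb10, tb16, tb10, tb16]) 0 9906 4953 rel41_2 h
  have h := PR.allR_chain (PR.fixF [tb10, tb16, tb10, tb16]) 0 14859 4953 rel41_3 h
  have h := PR.allR_chain (PR.fixF [tb10, tb16, tb10, tb16]) 0 19812 4953 rel41_4 h
  have h := PR.allR_chain (PR.fixF [tb10, tb16, tb10, tb16]) 0 24765 4953 rel41_5 h
  have h := PR.allR_chain (PR.fixF [tb10, tb16, tb10, tb16]) 0 29718 1953 rel41_6 h
  exact h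

theorem rel42 : ∀ u, 0 ≤ u → u < 31671 → PR.fixF [tb12, tb18, tb12, tb18, tb12, tb18] u = true := by
  have h : ∀ u, 0 ≤ u → u < 0 → PR.fixF [tb12, tb18, tb12, tb18, tb12, tb18] u = true := fun u h1 h2 => absurd h2 (by omega)
  have h := PR.allR_chain (PR.fixF [tb12, tb18, tb12, tb18, tb12, tb18]) 0 0 3302 rel42_0 h
  have h := PR.allR_chain (PR.fixF [tb12, tb18, tb12, tb18, tb12, tb18]) 0 3302 3302 rel42_1 h
  have h := PR.allR_chain (PR.fixF [tb12, tb18, tb12, tb18, tb12, tb18]) 0 6604 3302 rel42_2 h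
  have h := PR.allR_chain (PR.fixF [tb12, tb18, tb12, tb18, tb12, tb18]) 0 9906 3302 rel42_3 h
  have h := PR.allR_chain (PR.fixF [tb12, tb18, tb12, tb18, tb12, tb18]) 0 13208 3302 rel42_4 h
  have h := PR.allR_chain (PR.fixF [tb12, tb18, tb12, tb18, tb12, tb18]) 0 16510 3302 rel42_5 h
  have h := PR.allR_chain (PR.fixF [tb12, tb18, tb12, tb18, tb12, tb18]) 0 19812 3302 rel42_6 h
  have h := PR.allR_chain (PR.fixF [tb12, tb18, tb12, tb18, tb12, tb18]) 0 23114 3302 rel42_7 h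
  have h := PR.allR_chain (PR.fixF [tb12, tb18, tb12, tb18, tb12, tb18]) 0 26416 3302 rel42_8 h
  have h := PR.allR_chain (PR.fixF [tb12, tb18, tb12, tb18, tb12, tb18]) 0 29718 1953 rel42_9 h
  exact h

theorem rel43 : ∀ u, 0 ≤ u → u < 31671 → PR.fixF [tb12, tb16, tb12, tb16] u = true := by
  have h : ∀ u, 0 ≤ u → u < 0 → PR.fixF [tb12, tb16, tb12, tb16] u = true := fun u h1 h2 => absurd h2 (by omega)
  have h := PR.allR_chain (PR.fixF [tb12, tb16, tb12, tb16]) 0 0 4953 rel43_0 h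
  have h := PR.allR_chain (PR.fixF [tb12, tb16, tb12, tb16]) 0 4953 4953 rel43_1 h
  have h := PR.allR_chain (PR.fixF [tb12, tb16, tb12, tb16]) 0 9906 4953 rel43_2 h
  have h := PR.allR_chain (PR.fixF [tb12, tb16, tb12, tb16]) 0 14859 4953 rel43_3 h
  have h := PR.allR_chain (PR.fixF [tb12, tb16, tb12, tb16]) 0 19812 4953 rel43_4 h
  have h := PR.allR_chain (PR.fixF [tb12, tb16, tb12, tb16]) 0 24765 4953 rel43_5 h
  have h := PR.allR_chain (PR.fixF [tb12, tb16, tb12, tb16]) 0 29718 1953 rel43_6 h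
  exact h

theorem rel44 : ∀ u, 0 ≤ u → u < 31671 → PR.fixF [tb18, tb16, tb18, tb16] u = true := by
  have h : ∀ u, 0 ≤ u → u < 0 → PR.fixF [tb18, tb16, tb18, tb16] u = true := fun u h1 h2 => absurd h2 (by omega)
  have h := PR.allR_chain (PR.fixF [tb18, tb16, tb18, tb16]) 0 0 4953 rel44_0 h
  have h := PR.allR_chain (PR.fixF [tb18, tb16, tb18, tb16]) 0 4953 4953 rel44_1 h
  have h := PR.allR_chain (PR.fixF [tb18, tb16, tb18, tb16]) 0 9906 4953 rel44_2 h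
  have h := PR.allR_chain (PR.fixF [tb18, tb16, tb18, tb16]) 0 14859 4953 rel44_3 h
  have h := PR.allR_chain (PR.fixF [tb18, tb16, tb18, tb16]) 0 19812 4953 rel44_4 h
  have h := PR.allR_chain (PR.fixF [tb18, tb16, tb18, tb16]) 0 24765 4953 rel44_5 h
  have h := PR.allR_chain (PR.fixF [tb18, tb16, tb18, tb16]) 0 29718 1953 rel44_6 h
  exact h

theorem rel45 : ∀ u, 0 ≤ u → u < 31671 → PR.fixF [tb6, tb4, tb2, tb6, tb8, tb10, tb6, tb14, tb16, tb6, tb4, tb2, tb6, tb8, tb10, tb6, tb14, tb16, tb6, tb4, tb2, tb6, tb8, tb10, tb6, tb14, tb16, tb6, tb4, tb2, tb6, tb8, tb10, tb6, tb14, tb16, tb6, tb4, tb2, tb6, tb8, tb10, tb6, tb14, tb16, tb6, tb4, tb2, tb6, tb8, tb10, tb6, tb14, tb16, tb6, tb4, tb2, tb6, tb8, tb10, tb6, tb14, tb16, tb6, tb4, tb2, tb6, tb8, tb10, tb6, tb14, tb16, tb6, tb4, tb2, tb6, tb8, tb10, tb6, tb14, tb16, tb6, tb4, tb2,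 tb6, tb8, tb10, tb6, tb14, tb16] u = true := by
  have h : ∀ u, 0 ≤ u → u < 0 → PR.fixF [tb6, tb4, tb2, tb6, tb8, tb10, tb6, tb14, tb16, tb6, tb4, tb2, tb6, tb8, tb10, tb6, tb14, tb16, tb6, tb4, tb2, tb6, tb8, tb10, tb6, tb14, tb16, tb6, tb4, tb2, tb6, tb8, tb10, tb6, tb14, tb16, tb6, tb4, tb2, tb6, tb8, tb10, tb6, tb14, tb16, tb6, tb4, tb2, tb6, tb8, tb10, tb6, tb14, tb16, tb6, tb4, tb2, tb6, tb8, tb10, tb6, tb14, tb16, tb6, tb4, tb2, tb6, tb8, tb10, tb6, tb14, tb16, tb6, tb4, tb2, tb6, tb8, tb10, tb6, tb14, tb16, tb6, tb4, tb2, tb6, tb8, tb10, tb6, tb14, tb16] u = true := fun u h1 h2 => absurd h2 (by omega)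
  have h := PR.allR_chain (PR.fixF [tb6, tb4, tb2, tb6, tb8, tb10, tb6, tb14, tb16, tb6, tb4, tb2, tb6, tb8, tb10, tb6, tb14, tb16, tb6, tb4, tb2, tb6, tb8, tb10, tb6, tb14, tb16, tb6, tb4, tb2, tb6, tb8, tb10, tb6, tb14, tb16, tb6, tb4, tb2, tb6, tb8, tb10, tb6, tb14, tb16, tb6, tb4, tb2, tb6, tb8, tb10, tb6, tb14, tb16, tb6, tb4, tb2, tb6, tb8, tb10, tb6, tb14, tb16, tb6, tb4, tb2, tb6, tb8, tb10, tb6, tb14, tb16, tb6, tb4, tb2, tb6, tb8, tb10, tb6, tb14, tb16, tb6, tb4, tb2, tb6, tb8, tb10, tb6, tb14, tb16]) 0 0 220 rel45_0 h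
  have h := PR.allR_chain (PR.fixF [tb6, tb4, tb2, tb6, tb8, tb10, tb6, tb14, tb16, tb6, tb4, tb2, tb6, tb8, tb10, tb6, tb14, tb16, tb6, tb4, tb2, tb6, tb8, tb10, tb6, tb14, tb16, tb6, tb4, tb2, tb6, tb8, tb10, tb6, tb14, tb16, tb6, tb4, tb2, tb6, tb8, tb10, tb6, tb14, tb16, tb6, tb4, tb2, tb6, tb8, tb10, tb6, tb14, tb16, tb6, tb4, tb2, tb6, tb8, tb10, tb6, tb14, tb16, tb6, tb4, tb2, tb6, tb8, tb10, tb6, tb14, tb16, tb6, tb4, tb2, tb6, tb8, tb10, tb6, tb14, tb16, tb6, tb4, tb2, tb6, tb8, tb10, tb6, tb14, tb16]) 0 220 220 rel45_1 h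
  have h := PR.allR_chain (PR.fixF [tb6, tb4, tb2, tb6, tb8, tb10, tb6, tb14, tb16, tb6, tb4, tb2, tb6, tb8, tb10, tb6, tb14, tb16, tb6, tb4, tb2, tb6, tb8, tb10, tb6, tb14, tb16, tb6, tb4, tb2, tb6, tb8, tb10, tb6, tb14, tb16, tb6, tb4, tb2, tb6, tb8, tb10, tb6, tb14, tb16, tb6, tb4, tb2, tb6, tb8, tb10, tb6, tb14, tb16, tb6, tb4, tb2, tb6, tb8, tb10, tb6, tb14, tb16, tb6, tb4, tb2, tb6, tb8, tb10, tb6, tb14, tb16, tb6, tb4, tb2, tb6, tb8, tb10, tb6, tb14, tb16, tb6, tb4, tb2, tb6, tb8, tb10, tb6, tb14, tb16]) 0 440 220 rel45_2 h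
  have h := PR.allR_chain (PR.fixF [tb6, tb4, tb2, tb6, tb8, tb10, tb6, tb14, tb16, tb6, tb4, tb2, tb6, tb8, tb10, tb6, tb14, tb16, tb6, tb4, tb2, tb6, tb8, tb10, tb6, tb14, tb16, tb6, tb4, tb2, tb6, tb8, tb10, tb6, tb14, tb16, tb6, tb4, tb2, tb6, tb8, tb10, tb6, tb14, tb16, tb6, tb4, tb2, tb6, tb8, tb10, tb6, tb14, tb16, tb6, tb4, tb2, tb6, tb8, tb10, tb6, tb14, tb16, tb6, tb4, tb2, tb6, tb8, tb10, tb6, tb14, tb16, tb6, tb4, tb2, tb6, tb8, tb10, tb6, tb14, tb16, tb6, tb4, tb2, tb6, tb8, tb10, tb6, tb14, tb16]) 0 660 220 rel45_3 h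
  have h := PR.allR_chain (PR.fixF [tb6, tb4, tb2, tb6, tb8, tb10, tb6, tb14, tb16, tb6, tb4, tb2, tb6, tb8, tb10, tb6, tb14, tb16, tb6, tb4, tb2, tb6, tb8, tb10, tb6, tb14, tb16, tb6, tb4, tb2, tb6, tb8, tb10, tb6, tb14, tb16, tb6, tb4, tb2, tb6, tb8, tb10, tb6, tb14, tb16, tb6, tb4, tb2, tb6, tb8, tb10, tb6, tb14, tb16, tb6, tb4, tb2, tb6, tb8, tb10, tb6, tb14, tb16, tb6, tb4, tb2, tb6, tb8, tb10, tb6, tb14, tb16, tb6, tb4, tb2, tb6, tb8, tb10, tb6, tb14, tb16, tb6, tb4, tb2, tb6, tb8, tb10, tb6, tb14, tb16]) 0 880 220 rel45_4 h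
  have h := PR.allR_chain (PR.fixF [tb6, tb4, tb2, tb6, tb8, tb10, tb6, tb14, tb16, tb6, tb4, tb2, tb6, tb8, tb10, tb6, tb14, tb16, tb6, tb4, tb2, tb6, tb8, tb10, tb6, tb14, tb16, tb6, tb4, tb2, tb6, tb8, tb10, tb6, tb14, tb16, tb6, tb4, tb2, tb6, tb8, tb10, tb6, tb14, tb16, tb6, tb4, tb2, tb6, tb8, tb10, tb6, tb14, tb16, tb6, tb4, tb2, tb6, tb8, tb10, tb6, tb14, tb16, tb6, tb4, tb2, tb6, tb8, tb10, tb6, tb14, tb16, tb6, tb4, tb2, tb6, tb8, tb10, tb6, tb14, tb16, tb6, tb4, tb2, tb6, tb8, tb10, tb6, tb14, tb16]) 0 1100 220 rel45_5 h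
  have h := PR.allR_chain (PR.fixF [tb6, tb4, tb2, tb6, tb8, tb10, tb6, tb14, tb16, tb6, tb4, tb2, tb6, tb8, tb10, tb6, tb14, tb16, tb6, tb4, tb2, tb6, tb8, tb10, tb6, tb14, tb16, tb6, tb4, tb2, tb6, tb8, tb10, tb6, tb14, tb16, tb6, tb4, tb2, tb6, tb8, tb10, tb6, tb14, tb16, tb6, tb4, tb2, tb6, tb8, tb10, tb6, tb14, tb16, tb6, tb4, tb2, tb6, tb8, tb10, tb6, tb14, tb16, tb6, tb4, tb2, tb6, tb8, tb10, tb6, tb14, tb16, tb6, tb4, tb2, tb6, tb8, tb10, tb6, tb14, tb16, tb6, tb4, tb2, tb6, tb8, tb10, tb6, tb14, tb16]) 0 1320 220 rel45_6 h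
  have h := PR.allR_chain (PR.fixF [tb6, tb4, tb2, tb6, tb8, tb10, tb6, tb14, tb16, tb6, tb4, tb2, tb6, tb8, tb10, tb6, tb14, tb16, tb6, tb4, tb2, tb6, tb8, tb10, tb6, tb14, tb16, tb6, tb4, tb2, tb6, tb8, tb10, tb6, tb14, tb16, tb6, tb4, tb2, tb6, tb8, tb10, tb6, tb14, tb16, tb6, tb4, tb2, tb6, tb8, tb10, tb6, tb14, tb16, tb6, tb4, tb2, tb6, tb8, tb10, tb6, tb14, tb16, tb6, tb4, tb2, tb6, tb8, tb10, tb6, tb14, tb16, tb6, tb4, tb2, tb6, tb8, tb10, tb6, tb14, tb16, tb6, tb4, tb2, tb6, tb8, tb10, tb6, tb14, tb16]) 0 1540 220 rel45_7 h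
  have h := PR.allR_chain (PR.fixF [tb6, tb4, tb2, tb6, tb8, tb10, tb6, tb14, tb16, tb6, tb4, tb2, tb6, tb8, tb10, tb6, tb14, tb16, tb6, tb4, tb2, tb6, tb8, tb10, tb6, tb14, tb16, tb6, tb4, tb2, tb6, tb8, tb10, tb6, tb14, tb16, tb6, tb4, tb2, tb6, tb8, tb10, tb6, tb14, tb16, tb6, tb4, tb2, tb6, tb8, tb10, tb6, tb14, tb16, tb6, tb4, tb2, tb6, tb8, tb10, tb6, tb14, tb16, tb6, tb4, tb2, tb6, tb8, tb10, tb6, tb14, tb16, tb6, tb4, tb2, tb6, tb8, tb10, tb6, tb14, tb16, tb6, tb4, tb2, tb6, tb8, tb10, tb6, tb14, tb16]) 0 1760 220 rel45_8 h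
  have h := PR.allR_chain (PR.fixF [tb6, tb4, tb2, tb6, tb8, tb10, tb6, tb14, tb16, tb6, tb4, tb2, tb6, tb8, tb10, tb6, tb14, tb16, tb6, tb4, tb2, tb6, tb8, tb10, tb6, tb14, tb16, tb6, tb4, tb2, tb6, tb8, tb10, tb6, tb14, tb16, tb6, tb4, tb2, tb6, tb8, tb10, tb6, tb14, tb16, tb6, tb4, tb2, tb6, tb8, tb10, tb6, tb14, tb16, tb6, tb4, tb2, tb6, tb8, tb10, tb6, tb14, tb16, tb6, tb4, tb2, tb6, tb8, tb10, tb6, tb14, tb16, tb6, tb4, tb2, tb6, tb8, tb10, tb6, tb14, tb16, tb6, tb4, tb2, tb6, tb8, tb10, tb6, tb14, tb16]) 0 1980 220 rel45_9 h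
  have h := PR.allR_chain (PR.fixF [tb6, tb4, tb2, tb6, tb8, tb10, tb6, tb14, tb16, tb6, tb4, tb2, tb6, tb8, tb10, tb6, tb14, tb16, tb6, tb4, tb2, tb6, tb8, tb10, tb6, tb14, tb16, tb6, tb4, tb2, tb6, tb8, tb10, tb6, tb14, tb16, tb6, tb4, tb2, tb6, tb8, tb10, tb6, tb14, tb16, tb6, tb4, tb2, tb6, tb8, tb10, tb6, tb14, tb16, tb6, tb4, tb2, tb6, tb8, tb10, tb6, tb14, tb16, tb6, tb4, tb2, tb6, tb8, tb10, tb6, tb14, tb16, tb6, tb4, tb2, tb6, tb8, tb10, tb6, tb14, tb16, tb6, tb4, tb2, tb6, tb8, tb10, tb6, tb14, tb16]) 0 2200 220 rel45_10 h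
  have h := PR.allR_chain (PR.fixF [tb6, tb4, tb2, tb6, tb8, tb10, tb6, tb14, tb16, tb6, tb4, tb2, tb6, tb8, tb10, tb6, tb14, tb16, tb6, tb4, tb2, tb6, tb8, tb10, tb6, tb14, tb16, tb6, tb4, tb2, tb6, tb8, tb10, tb6, tb14, tb16, tb6, tb4, tb2, tb6, tb8, tb10, tb6, tb14, tb16, tb6, tb4, tb2, tb6, tb8, tb10, tb6, tb14, tb16, tb6, tb4, tb2, tb6, tb8, tb10, tb6, tb14, tb16, tb6, tb4, tb2, tb6, tb8, tb10, tb6, tb14, tb16, tb6, tb4, tb2, tb6, tb8, tb10, tb6, tb14, tb16, tb6, tb4, tb2, tb6, tb8, tb10, tb6, tb14, tb16]) 0 2420 220 rel45_11 h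
  have h := PR.allR_chain (PR.fixF [tb6, tb4, tb2, tb6, tb8, tb10, tb6, tb14, tb16, tb6, tb4, tb2, tb6, tb8, tb10, tb6, tb14, tb16, tb6, tb4, tb2, tb6, tb8, tb10, tb6, tb14, tb16, tb6, tb4, tb2, tb6, tb8, tb10, tb6, tb14, tb16, tb6, tb4, tb2, tb6, tb8, tb10, tb6, tb14, tb16, tb6, tb4, tb2, tb6, tb8, tb10, tb6, tb14, tb16, tb6, tb4, tb2, tb6, tb8, tb10, tb6, tb14, tb16, tb6, tb4, tb2, tb6, tb8, tb10, tb6, tb14, tb16, tb6, tb4, tb2, tb6, tb8, tb10, tb6, tb14, tb16, tb6, tb4, tb2, tb6, tb8, tb10, tb6, tb14, tb16]) 0 2640 220 rel45_12 h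
  have h := PR.allR_chain (PR.fixF [tb6, tb4, tb2, tb6, tb8, tb10, tb6, tb14, tb16, tb6, tb4, tb2, tb6, tb8, tb10, tb6, tb14, tb16, tb6, tb4, tb2, tb6, tb8, tb10, tb6, tb14, tb16, tb6, tb4, tb2, tb6, tb8, tb10, tb6, tb14, tb16, tb6, tb4, tb2, tb6, tb8, tb10, tb6, tb14, tb16, tb6, tb4, tb2, tb6, tb8, tb10, tb6, tb14, tb16, tb6, tb4, tb2, tb6, tb8, tb10, tb6, tb14, tb16, tb6, tb4, tb2, tb6, tb8, tb10, tb6, tb14, tb16, tb6, tb4, tb2, tb6, tb8, tb10, tb6, tb14, tb16, tb6, tb4, tb2, tb6, tb8, tb10, tb6, tb14, tb16]) 0 2860 220 rel45_13 h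
  have h := PR.allR_chain (PR.fixF [tb6, tb4, tb2, tb6, tb8, tb10, tb6, tb14, tb16, tb6, tb4, tb2, tb6, tb8, tb10, tb6, tb14, tb16, tb6, tb4, tb2, tb6, tb8, tb10, tb6, tb14, tb16, tb6, tb4, tb2, tb6, tb8, tb10, tb6, tb14, tb16, tb6, tb4, tb2, tb6, tb8, tb10, tb6, tb14, tb16, tb6, tb4, tb2, tb6, tb8, tb10, tb6, tb14, tb16, tb6, tb4, tb2, tb6, tb8, tb10, tb6, tb14, tb16, tb6, tb4, tb2, tb6, tb8, tb10, tb6, tb14, tb16, tb6, tb4, tb2, tb6, tb8, tb10, tb6, tb14, tb16, tb6, tb4, tb2, tb6, tb8, tb10, tb6, tb14, tb16]) 0 3080 220 rel45_14 h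
  have h := PR.allR_chain (PR.fixF [tb6, tb4, tb2, tb6, tb8, tb10, tb6, tb14, tb16, tb6, tb4, tb2, tb6, tb8, tb10, tb6, tb14, tb16, tb6, tb4, tb2, tb6, tb8, tb10, tb6, tb14, tb16, tb6, tb4, tb2, tb6, tb8, tb10, tb6, tb14, tb16, tb6, tb4, tb2, tb6, tb8, tb10, tb6, tb14, tb16, tb6, tb4, tb2, tb6, tb8, tb10, tb6, tb14, tb16, tb6, tb4, tb2, tb6, tb8, tb10, tb6, tb14, tb16, tb6, tb4, tb2, tb6, tb8, tb10, tb6, tb14, tb16, tb6, tb4, tb2, tb6, tb8, tb10, tb6, tb14, tb16, tb6, tb4, tb2, tb6, tb8, tb10, tb6, tb14, tb16]) 0 3300 220 rel45_15 h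
  have h := PR.allR_chain (PR.fixF [tb6, tb4, tb2, tb6, tb8, tb10, tb6, tb14, tb16, tb6, tb4, tb2, tb6, tb8, tb10, tb6, tb14, tb16, tb6, tb4, tb2, tb6, tb8, tb10, tb6, tb14, tb16, tb6, tb4, tb2, tb6, tb8, tb10, tb6, tb14, tb16, tb6, tb4, tb2, tb6, tb8, tb10, tb6, tb14, tb16, tb6, tb4, tb2, tb6, tb8, tb10, tb6, tb14, tb16, tb6, tb4, tb2, tb6, tb8, tb10, tb6, tb14, tb16, tb6, tb4, tb2, tb6, tb8, tb10, tb6, tb14, tb16, tb6, tb4, tb2, tb6, tb8, tb10, tb6, tb14, tb16, tb6, tb4, tb2, tb6, tb8, tb10, tb6, tb14, tb16]) 0 3520 220 rel45_16 h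
  have h := PR.allR_chain (PR.fixF [tb6, tb4, tb2, tb6, tb8, tb10, tb6, tb14, tb16, tb6, tb4, tb2, tb6, tb8, tb10, tb6, tb14, tb16, tb6, tb4, tb2, tb6, tb8, tb10, tb6, tb14, tb16, tb6, tb4, tb2, tb6, tb8, tb10, tb6, tb14, tb16, tb6, tb4, tb2, tb6, tb8, tb10, tb6, tb14, tb16, tb6, tb4, tb2, tb6, tb8, tb10, tb6, tb14, tb16, tb6, tb4, tb2, tb6, tb8, tb10, tb6, tb14, tb16, tb6, tb4, tb2, tb6, tb8, tb10, tb6, tb14, tb16, tb6, tb4, tb2, tb6, tb8, tb10, tb6, tb14, tb16, tb6, tb4, tb2, tb6, tb8, tb10, tb6, tb14, tb16]) 0 3740 220 rel45_17 h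
  have h := PR.allR_chain (PR.fixF [tb6, tb4, tb2, tb6, tb8, tb10, tb6, tb14, tb16, tb6, tb4, tb2, tb6, tb8, tb10, tb6, tb14, tb16, tb6, tb4, tb2, tb6, tb8, tb10, tb6, tb14, tb16, tb6, tb4, tb2, tb6, tb8, tb10, tb6, tb14, tb16, tb6, tb4, tb2, tb6, tb8, tb10, tb6, tb14, tb16, tb6, tb4, tb2, tb6, tb8, tb10, tb6, tb14, tb16, tb6, tb4, tb2, tb6, tb8, tb10, tb6, tb14, tb16, tb6, tb4, tb2, tb6, tb8, tb10, tb6, tb14, tb16, tb6, tb4, tb2, tb6, tb8, tb10, tb6, tb14, tb16, tb6, tb4, tb2, tb6, tb8, tb10, tb6, tb14, tb16]) 0 3960 220 rel45_18 h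
  have h := PR.allR_chain (PR.fixF [tb6, tb4, tb2, tb6, tb8, tb10, tb6, tb14, tb16, tb6, tb4, tb2, tb6, tb8, tb10, tb6, tb14, tb16, tb6, tb4, tb2, tb6, tb8, tb10, tb6, tb14, tb16, tb6, tb4, tb2, tb6, tb8, tb10, tb6, tb14, tb16, tb6, tb4, tb2, tb6, tb8, tb10, tb6, tb14, tb16, tb6, tb4, tb2, tb6, tb8, tb10, tb6, tb14, tb16, tb6, tb4, tb2, tb6, tb8, tb10, tb6, tb14, tb16, tb6, tb4, tb2, tb6, tb8, tb10, tb6, tb14, tb16, tb6, tb4, tb2, tb6, tb8, tb10, tb6, tb14, tb16, tb6, tb4, tb2, tb6, tb8, tb10, tb6, tb14, tb16]) 0 4180 220 rel45_19 h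
  have h := PR.allR_chain (PR.fixF [tb6, tb4, tb2, tb6, tb8, tb10, tb6, tb14, tb16, tb6, tb4, tb2, tb6, tb8, tb10, tb6, tb14, tb16, tb6, tb4, tb2, tb6, tb8, tb10, tb6, tb14, tb16, tb6, tb4, tb2, tb6, tb8, tb10, tb6, tb14, tb16, tb6, tb4, tb2, tb6, tb8, tb10, tb6, tb14, tb16, tb6, tb4, tb2, tb6, tb8, tb10, tb6, tb14, tb16, tb6, tb4, tb2, tb6, tb8, tb10, tb6, tb14, tb16, tb6, tb4, tb2, tb6, tb8, tb10, tb6, tb14, tb16, tb6, tb4, tb2, tb6, tb8, tb10, tb6, tb14, tb16, tb6, tb4, tb2, tb6, tb8, tb10, tb6, tb14, tb16]) 0 4400 220 rel45_20 h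
  have h := PR.allR_chain (PR.fixF [tb6, tb4, tb2, tb6, tb8, tb10, tb6, tb14, tb16, tb6, tb4, tb2, tb6, tb8, tb10, tb6, tb14, tb16, tb6, tb4, tb2, tb6, tb8, tb10, tb6, tb14, tb16, tb6, tb4, tb2, tb6, tb8, tb10, tb6, tb14, tb16, tb6, tb4, tb2, tb6, tb8, tb10, tb6, tb14, tb16, tb6, tb4, tb2, tb6, tb8, tb10, tb6, tb14, tb16, tb6, tb4, tb2, tb6, tb8, tb10, tb6, tb14, tb16, tb6, tb4, tb2, tb6, tb8, tb10, tb6, tb14, tb16, tb6, tb4, tb2, tb6, tb8, tb10, tb6, tb14, tb16, tb6, tb4, tb2, tb6, tb8, tb10, tb6, tb14, tb16]) 0 4620 220 rel45_21 h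
  have h := PR.allR_chain (PR.fixF [tb6, tb4, tb2, tb6, tb8, tb10, tb6, tb14, tb16, tb6, tb4, tb2, tb6, tb8, tb10, tb6, tb14, tb16, tb6, tb4, tb2, tb6, tb8, tb10, tb6, tb14, tb16, tb6, tb4, tb2, tb6, tb8, tb10, tb6, tb14, tb16, tb6, tb4, tb2, tb6, tb8, tb10, tb6, tb14, tb16, tb6, tb4, tb2, tb6, tb8, tb10, tb6, tb14, tb16, tb6, tb4, tb2, tb6, tb8, tb10, tb6, tb14, tb16, tb6, tb4, tb2, tb6, tb8, tb10, tb6, tb14, tb16, tb6, tb4, tb2, tb6, tb8, tb10, tb6, tb14, tb16, tb6, tb4, tb2, tb6, tb8, tb10, tb6, tb14, tb16]) 0 4840 220 rel45_22 h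
  have h := PR.allR_chain (PR.fixF [tb6, tb4, tb2, tb6, tb8, tb10, tb6, tb14, tb16, tb6, tb4, tb2, tb6, tb8, tb10, tb6, tb14, tb16, tb6, tb4, tb2, tb6, tb8, tb10, tb6, tb14, tb16, tb6, tb4, tb2, tb6, tb8, tb10, tb6, tb14, tb16, tb6, tb4, tb2, tb6, tb8, tb10, tb6, tb14, tb16, tb6, tb4, tb2, tb6, tb8, tb10, tb6, tb14, tb16, tb6, tb4, tb2, tb6, tb8, tb10, tb6, tb14, tb16, tb6, tb4, tb2, tb6, tb8, tb10, tb6, tb14, tb16, tb6, tb4, tb2, tb6, tb8, tb10, tb6, tb14, tb16, tb6, tb4, tb2, tb6, tb8, tb10, tb6, tb14, tb16]) 0 5060 220 rel45_23 h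
  have h := PR.allR_chain (PR.fixF [tb6, tb4, tb2, tb6, tb8, tb10, tb6, tb14, tb16, tb6, tb4, tb2, tb6, tb8, tb10, tb6, tb14, tb16, tb6, tb4, tb2, tb6, tb8, tb10, tb6, tb14, tb16, tb6, tb4, tb2, tb6, tb8, tb10, tb6, tb14, tb16, tb6, tb4, tb2, tb6, tb8, tb10, tb6, tb14, tb16, tb6, tb4, tb2, tb6, tb8, tb10, tb6, tb14, tb16, tb6, tb4, tb2, tb6, tb8, tb10, tb6, tb14, tb16, tb6, tb4, tb2, tb6, tb8, tb10, tb6, tb14, tb16, tb6, tb4, tb2, tb6, tb8, tb10, tb6, tb14, tb16, tb6, tb4, tb2, tb6, tb8, tb10, tb6, tb14, tb16]) 0 5280 220 rel45_24 h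
  have h := PR.allR_chain (PR.fixF [tb6, tb4, tb2, tb6, tb8, tb10, tb6, tb14, tb16, tb6, tb4, tb2, tb6, tb8, tb10, tb6, tb14, tb16, tb6, tb4, tb2, tb6, tb8, tb10, tb6, tb14, tb16, tb6, tb4, tb2, tb6, tb8, tb10, tb6, tb14, tb16, tb6, tb4, tb2, tb6, tb8, tb10, tb6, tb14, tb16, tb6, tb4, tb2, tb6, tb8, tb10, tb6, tb14, tb16, tb6, tb4, tb2, tb6, tb8, tb10, tb6, tb14, tb16, tb6, tb4, tb2, tb6, tb8, tb10, tb6, tb14, tb16, tb6, tb4, tb2, tb6, tb8, tb10, tb6, tb14, tb16, tb6, tb4, tb2, tb6, tb8, tb10, tb6, tb14, tb16]) 0 5500 220 rel45_25 h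
  have h := PR.allR_chain (PR.fixF [tb6, tb4, tb2, tb6, tb8, tb10, tb6, tb14, tb16, tb6, tb4, tb2, tb6, tb8, tb10, tb6, tb14, tb16, tb6, tb4, tb2, tb6, tb8, tb10, tb6, tb14, tb16, tb6, tb4, tb2, tb6, tb8, tb10, tb6, tb14, tb16, tb6, tb4, tb2, tb6, tb8, tb10, tb6, tb14, tb16, tb6, tb4, tb2, tb6, tb8, tb10, tb6, tb14, tb16, tb6, tb4, tb2, tb6, tb8, tb10, tb6, tb14, tb16, tb6, tb4, tb2, tb6, tb8, tb10, tb6, tb14, tb16, tb6, tb4, tb2, tb6, tb8, tb10, tb6, tb14, tb16, tb6, tb4, tb2, tb6, tb8, tb10, tb6, tb14, tb16]) 0 5720 220 rel45_26 h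
  have h := PR.allR_chain (PR.fixF [tb6, tb4, tb2, tb6, tb8, tb10, tb6, tb14, tb16, tb6, tb4, tb2, tb6, tb8, tb10, tb6, tb14, tb16, tb6, tb4, tb2, tb6, tb8, tb10, tb6, tb14, tb16, tb6, tb4, tb2, tb6, tb8, tb10, tb6, tb14, tb16, tb6, tb4, tb2, tb6, tb8, tb10, tb6, tb14, tb16, tb6, tb4, tb2, tb6, tb8, tb10, tb6, tb14, tb16, tb6, tb4, tb2, tb6, tb8, tb10, tb6, tb14, tb16, tb6, tb4, tb2, tb6, tb8, tb10, tb6, tb14, tb16, tb6, tb4, tb2, tb6, tb8, tb10, tb6, tb14, tb16, tb6, tb4, tb2, tb6, tb8, tb10, tb6, tb14, tb16]) 0 5940 220 rel45_27 h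
  have h := PR.allR_chain (PR.fixF [tb6, tb4, tb2, tb6, tb8, tb10, tb6, tb14, tb16, tb6, tb4, tb2, tb6, tb8, tb10, tb6, tb14, tb16, tb6, tb4, tb2, tb6, tb8, tb10, tb6, tb14, tb16, tb6, tb4, tb2, tb6, tb8, tb10, tb6, tb14, tb16, tb6, tb4, tb2, tb6, tb8, tb10, tb6, tb14, tb16, tb6, tb4, tb2, tb6, tb8, tb10, tb6, tb14, tb16, tb6, tb4, tb2, tb6, tb8, tb10, tb6, tb14, tb16, tb6, tb4, tb2, tb6, tb8, tb10, tb6, tb14, tb16, tb6, tb4, tb2, tb6, tb8, tb10, tb6, tb14, tb16, tb6, tb4, tb2, tb6, tb8, tb10, tb6, tb14, tb16]) 0 6160 220 rel45_28 h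
  have h := PR.allR_chain (PR.fixF [tb6, tb4, tb2, tb6, tb8, tb10, tb6, tb14, tb16, tb6, tb4, tb2, tb6, tb8, tb10, tb6, tb14, tb16, tb6, tb4, tb2, tb6, tb8, tb10, tb6, tb14, tb16, tb6, tb4, tb2, tb6, tb8, tb10, tb6, tb14, tb16, tb6, tb4, tb2, tb6, tb8, tb10, tb6, tb14, tb16, tb6, tb4, tb2, tb6, tb8, tb10, tb6, tb14, tb16, tb6, tb4, tb2, tb6, tb8, tb10, tb6, tb14, tb16, tb6, tb4, tb2, tb6, tb8, tb10, tb6, tb14, tb16, tb6, tb4, tb2, tb6, tb8, tb10, tb6, tb14, tb16, tb6, tb4, tb2, tb6, tb8, tb10, tb6, tb14, tb16]) 0 6380 220 rel45_29 h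
  have h := PR.allR_chain (PR.fixF [tb6, tb4, tb2, tb6, tb8, tb10, tb6, tb14, tb16, tb6, tb4, tb2, tb6, tb8, tb10, tb6, tb14, tb16, tb6, tb4, tb2, tb6, tb8, tb10, tb6, tb14, tb16, tb6, tb4, tb2, tb6, tb8, tb10, tb6, tb14, tb16, tb6, tb4, tb2, tb6, tb8, tb10, tb6, tb14, tb16, tb6, tb4, tb2, tb6, tb8, tb10, tb6, tb14, tb16, tb6, tb4, tb2, tb6, tb8, tb10, tb6, tb14, tb16, tb6, tb4, tb2, tb6, tb8, tb10, tb6, tb14, tb16, tb6, tb4, tb2, tb6, tb8, tb10, tb6, tb14, tb16, tb6, tb4, tb2, tb6, tb8, tb10, tb6, tb14, tb16]) 0 6600 220 rel45_30 h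
  have h := PR.allR_chain (PR.fixF [tb6, tb4, tb2, tb6, tb8, tb10, tb6, tb14, tb16, tb6, tb4, tb2, tb6, tb8, tb10, tb6, tb14, tb16, tb6, tb4, tb2, tb6, tb8, tb10, tb6, tb14, tb16, tb6, tb4, tb2, tb6, tb8, tb10, tb6, tb14, tb16, tb6, tb4, tb2, tb6, tb8, tb10, tb6, tb14, tb16, tb6, tb4, tb2, tb6, tb8, tb10, tb6, tb14, tb16, tb6, tb4, tb2, tb6, tb8, tb10, tb6, tb14, tb16, tb6, tb4, tb2, tb6, tb8, tb10, tb6, tb14, tb16, tb6, tb4, tb2, tb6, tb8, tb10, tb6, tb14, tb16, tb6, tb4, tb2, tb6, tb8, tb10, tb6, tb14, tb16]) 0 6820 220 rel45_31 h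
  have h := PR.allR_chain (PR.fixF [tb6, tb4, tb2, tb6, tb8, tb10, tb6, tb14, tb16, tb6, tb4, tb2, tb6, tb8, tb10, tb6, tb14, tb16, tb6, tb4, tb2, tb6, tb8, tb10, tb6, tb14, tb16, tb6, tb4, tb2, tb6, tb8, tb10, tb6, tb14, tb16, tb6, tb4, tb2, tb6, tb8, tb10, tb6, tb14, tb16, tb6, tb4, tb2, tb6, tb8, tb10, tb6, tb14, tb16, tb6, tb4, tb2, tb6, tb8, tb10, tb6, tb14, tb16, tb6, tb4, tb2, tb6, tb8, tb10, tb6, tb14, tb16, tb6, tb4, tb2, tb6, tb8, tb10, tb6, tb14, tb16, tb6, tb4, tb2, tb6, tb8, tb10, tb6, tb14, tb16]) 0 7040 220 rel45_32 h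
  have h := PR.allR_chain (PR.fixF [tb6, tb4, tb2, tb6, tb8, tb10, tb6, tb14, tb16, tb6, tb4, tb2, tb6, tb8, tb10, tb6, tb14, tb16, tb6, tb4, tb2, tb6, tb8, tb10, tb6, tb14, tb16, tb6, tb4, tb2, tb6, tb8, tb10, tb6, tb14, tb16, tb6, tb4, tb2, tb6, tb8, tb10, tb6, tb14, tb16, tb6, tb4, tb2, tb6, tb8, tb10, tb6, tb14, tb16, tb6, tb4, tb2, tb6, tb8, tb10, tb6, tb14, tb16, tb6, tb4, tb2, tb6, tb8, tb10, tb6, tb14, tb16, tb6, tb4, tb2, tb6, tb8, tb10, tb6, tb14, tb16, tb6, tb4, tb2, tb6, tb8, tb10, tb6, tb14, tb16]) 0 7260 220 rel45_33 h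
  have h := PR.allR_chain (PR.fixF [tb6, tb4, tb2, tb6, tb8, tb10, tb6, tb14, tb16, tb6, tb4, tb2, tb6, tb8, tb10, tb6, tb14, tb16, tb6, tb4, tb2, tb6, tb8, tb10, tb6, tb14, tb16, tb6, tb4, tb2, tb6, tb8, tb10, tb6, tb14, tb16, tb6, tb4, tb2, tb6, tb8, tb10, tb6, tb14, tb16, tb6, tb4, tb2, tb6, tb8, tb10, tb6, tb14, tb16, tb6, tb4, tb2, tb6, tb8, tb10, tb6, tb14, tb16, tb6, tb4, tb2, tb6, tb8, tb10, tb6, tb14, tb16, tb6, tb4, tb2, tb6, tb8, tb10, tb6, tb14, tb16, tb6, tb4, tb2, tb6, tb8, tb10, tb6, tb14, tb16]) 0 7480 220 rel45_34 h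
  have h := PR.allR_chain (PR.fixF [tb6, tb4, tb2, tb6, tb8, tb10, tb6, tb14, tb16, tb6, tb4, tb2, tb6, tb8, tb10, tb6, tb14, tb16, tb6, tb4, tb2, tb6, tb8, tb10, tb6, tb14, tb16, tb6, tb4, tb2, tb6, tb8, tb10, tb6, tb14, tb16, tb6, tb4, tb2, tb6, tb8, tb10, tb6, tb14, tb16, tb6, tb4, tb2, tb6, tb8, tb10, tb6, tb14, tb16, tb6, tb4, tb2, tb6, tb8, tb10, tb6, tb14, tb16, tb6, tb4, tb2, tb6, tb8, tb10, tb6, tb14, tb16, tb6, tb4, tb2, tb6, tb8, tb10, tb6, tb14, tb16, tb6, tb4, tb2, tb6, tb8, tb10, tb6, tb14, tb16]) 0 7700 220 rel45_35 h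
  have h := PR.allR_chain (PR.fixF [tb6, tb4, tb2, tb6, tb8, tb10, tb6, tb14, tb16, tb6, tb4, tb2, tb6, tb8, tb10, tb6, tb14, tb16, tb6, tb4, tb2, tb6, tb8, tb10, tb6, tb14, tb16, tb6, tb4, tb2, tb6, tb8, tb10, tb6, tb14, tb16, tb6, tb4, tb2, tb6, tb8, tb10, tb6, tb14, tb16, tb6, tb4, tb2, tb6, tb8, tb10, tb6, tb14, tb16, tb6, tb4, tb2, tb6, tb8, tb10, tb6, tb14, tb16, tb6, tb4, tb2, tb6, tb8, tb10, tb6, tb14, tb16, tb6, tb4, tb2, tb6, tb8, tb10, tb6, tb14, tb16, tb6, tb4, tb2, tb6, tb8, tb10, tb6, tb14, tb16]) 0 7920 220 rel45_36 h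
  have h := PR.allR_chain (PR.fixF [tb6, tb4, tb2, tb6, tb8, tb10, tb6, tb14, tb16, tb6, tb4, tb2, tb6, tb8, tb10, tb6, tb14, tb16, tb6, tb4, tb2, tb6, tb8, tb10, tb6, tb14, tb16, tb6, tb4, tb2, tb6, tb8, tb10, tb6, tb14, tb16, tb6, tb4, tb2, tb6, tb8, tb10, tb6, tb14, tb16, tb6, tb4, tb2, tb6, tb8, tb10, tb6, tb14, tb16, tb6, tb4, tb2, tb6, tb8, tb10, tb6, tb14, tb16, tb6, tb4, tb2, tb6, tb8, tb10, tb6, tb14, tb16, tb6, tb4, tb2, tb6, tb8, tb10, tb6, tb14, tb16, tb6, tb4, tb2, tb6, tb8, tb10, tb6, tb14, tb16]) 0 8140 220 rel45_37 h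
  have h := PR.allR_chain (PR.fixF [tb6, tb4, tb2, tb6, tb8, tb10, tb6, tb14, tb16, tb6, tb4, tb2, tb6, tb8, tb10, tb6, tb14, tb16, tb6, tb4, tb2, tb6, tb8, tb10, tb6, tb14, tb16, tb6, tb4, tb2, tb6, tb8, tb10, tb6, tb14, tb16, tb6, tb4, tb2, tb6, tb8, tb10, tb6, tb14, tb16, tb6, tb4, tb2, tb6, tb8, tb10, tb6, tb14, tb16, tb6, tb4, tb2, tb6, tb8, tb10, tb6, tb14, tb16, tb6, tb4, tb2, tb6, tb8, tb10, tb6, tb14, tb16, tb6, tb4, tb2, tb6, tb8, tb10, tb6, tb14, tb16, tb6, tb4, tb2, tb6, tb8, tb10, tb6, tb14, tb16]) 0 8360 220 rel45_38 h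
  have h := PR.allR_chain (PR.fixF [tb6, tb4, tb2, tb6, tb8, tb10, tb6, tb14, tb16, tb6, tb4, tb2, tb6, tb8, tb10, tb6, tb14, tb16, tb6, tb4, tb2, tb6, tb8, tb10, tb6, tb14, tb16, tb6, tb4, tb2, tb6, tb8, tb10, tb6, tb14, tb16, tb6, tb4, tb2, tb6, tb8, tb10, tb6, tb14, tb16, tb6, tb4, tb2, tb6, tb8, tb10, tb6, tb14, tb16, tb6, tb4, tb2, tb6, tb8, tb10, tb6, tb14, tb16, tb6, tb4, tb2, tb6, tb8, tb10, tb6, tb14, tb16, tb6, tb4, tb2, tb6, tb8, tb10, tb6, tb14, tb16, tb6, tb4, tb2, tb6, tb8, tb10, tb6, tb14, tb16]) 0 8580 220 rel45_39 h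
  have h := PR.allR_chain (PR.fixF [tb6, tb4, tb2, tb6, tb8, tb10, tb6, tb14, tb16, tb6, tb4, tb2, tb6, tb8, tb10, tb6, tb14, tb16, tb6, tb4, tb2, tb6, tb8, tb10, tb6, tb14, tb16, tb6, tb4, tb2, tb6, tb8, tb10, tb6, tb14, tb16, tb6, tb4, tb2, tb6, tb8, tb10, tb6, tb14, tb16, tb6, tb4, tb2, tb6, tb8, tb10, tb6, tb14, tb16, tb6, tb4, tb2, tb6, tb8, tb10, tb6, tb14, tb16, tb6, tb4, tb2, tb6, tb8, tb10, tb6, tb14, tb16, tb6, tb4, tb2, tb6, tb8, tb10, tb6, tb14, tb16, tb6, tb4, tb2, tb6, tb8, tb10, tb6, tb14, tb16]) 0 8800 220 rel45_40 h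
  have h := PR.allR_chain (PR.fixF [tb6, tb4, tb2, tb6, tb8, tb10, tb6, tb14, tb16, tb6, tb4, tb2, tb6, tb8, tb10, tb6, tb14, tb16, tb6, tb4, tb2, tb6, tb8, tb10, tb6, tb14, tb16, tb6, tb4, tb2, tb6, tb8, tb10, tb6, tb14, tb16, tb6, tb4, tb2, tb6, tb8, tb10, tb6, tb14, tb16, tb6, tb4, tb2, tb6, tb8, tb10, tb6, tb14, tb16, tb6, tb4, tb2, tb6, tb8, tb10, tb6, tb14, tb16, tb6, tb4, tb2, tb6, tb8, tb10, tb6, tb14, tb16, tb6, tb4, tb2, tb6, tb8, tb10, tb6, tb14, tb16, tb6, tb4, tb2, tb6, tb8, tb10, tb6, tb14, tb16]) 0 9020 220 rel45_41 h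
  have h := PR.allR_chain (PR.fixF [tb6, tb4, tb2, tb6, tb8, tb10, tb6, tb14, tb16, tb6, tb4, tb2, tb6, tb8, tb10, tb6, tb14, tb16, tb6, tb4, tb2, tb6, tb8, tb10, tb6, tb14, tb16, tb6, tb4, tb2, tb6, tb8, tb10, tb6, tb14, tb16, tb6, tb4, tb2, tb6, tb8, tb10, tb6, tb14, tb16, tb6, tb4, tb2, tb6, tb8, tb10, tb6, tb14, tb16, tb6, tb4, tb2, tb6, tb8, tb10, tb6, tb14, tb16, tb6, tb4, tb2, tb6, tb8, tb10, tb6, tb14, tb16, tb6, tb4, tb2, tb6, tb8, tb10, tb6, tb14, tb16, tb6, tb4, tb2, tb6, tb8, tb10, tb6, tb14, tb16]) 0 9240 220 rel45_42 h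
  have h := PR.allR_chain (PR.fixF [tb6, tb4, tb2, tb6, tb8, tb10, tb6, tb14, tb16, tb6, tb4, tb2, tb6, tb8, tb10, tb6, tb14, tb16, tb6, tb4, tb2, tb6, tb8, tb10, tb6, tb14, tb16, tb6, tb4, tb2, tb6, tb8, tb10, tb6, tb14, tb16, tb6, tb4, tb2, tb6, tb8, tb10, tb6, tb14, tb16, tb6, tb4, tb2, tb6, tb8, tb10, tb6, tb14, tb16, tb6, tb4, tb2, tb6, tb8, tb10, tb6, tb14, tb16, tb6, tb4, tb2, tb6, tb8, tb10, tb6, tb14, tb16, tb6, tb4, tb2, tb6, tb8, tb10, tb6, tb14, tb16, tb6, tb4, tb2, tb6, tb8, tb10, tb6, tb14, tb16]) 0 9460 220 rel45_43 h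
  have h := PR.allR_chain (PR.fixF [tb6, tb4, tb2, tb6, tb8, tb10, tb6, tb14, tb16, tb6, tb4, tb2, tb6, tb8, tb10, tb6, tb14, tb16, tb6, tb4, tb2, tb6, tb8, tb10, tb6, tb14, tb16, tb6, tb4, tb2, tb6, tb8, tb10, tb6, tb14, tb16, tb6, tb4, tb2, tb6, tb8, tb10, tb6, tb14, tb16, tb6, tb4, tb2, tb6, tb8, tb10, tb6, tb14, tb16, tb6, tb4, tb2, tb6, tb8, tb10, tb6, tb14, tb16, tb6, tb4, tb2, tb6, tb8, tb10, tb6, tb14, tb16, tb6, tb4, tb2, tb6, tb8, tb10, tb6, tb14, tb16, tb6, tb4, tb2, tb6, tb8, tb10, tb6, tb14, tb16]) 0 9680 220 rel45_44 h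
  have h := PR.allR_chain (PR.fixF [tb6, tb4, tb2, tb6, tb8, tb10, tb6, tb14, tb16, tb6, tb4, tb2, tb6, tb8, tb10, tb6, tb14, tb16, tb6, tb4, tb2, tb6, tb8, tb10, tb6, tb14, tb16, tb6, tb4, tb2, tb6, tb8, tb10, tb6, tb14, tb16, tb6, tb4, tb2, tb6, tb8, tb10, tb6, tb14, tb16, tb6, tb4, tb2, tb6, tb8, tb10, tb6, tb14, tb16, tb6, tb4, tb2, tb6, tb8, tb10, tb6, tb14, tb16, tb6, tb4, tb2, tb6, tb8, tb10, tb6, tb14, tb16, tb6, tb4, tb2, tb6, tb8, tb10, tb6, tb14, tb16, tb6, tb4, tb2, tb6, tb8, tb10, tb6, tb14, tb16]) 0 9900 220 rel45_45 h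
  have h := PR.allR_chain (PR.fixF [tb6, tb4, tb2, tb6, tb8, tb10, tb6, tb14, tb16, tb6, tb4, tb2, tb6, tb8, tb10, tb6, tb14, tb16, tb6, tb4, tb2, tb6, tb8, tb10, tb6, tb14, tb16, tb6, tb4, tb2, tb6, tb8, tb10, tb6, tb14, tb16, tb6, tb4, tb2, tb6, tb8, tb10, tb6, tb14, tb16, tb6, tb4, tb2, tb6, tb8, tb10, tb6, tb14, tb16, tb6, tb4, tb2, tb6, tb8, tb10, tb6, tb14, tb16, tb6, tb4, tb2, tb6, tb8, tb10, tb6, tb14, tb16, tb6, tb4, tb2, tb6, tb8, tb10, tb6, tb14, tb16, tb6, tb4, tb2, tb6, tb8, tb10, tb6, tb14, tb16]) 0 10120 220 rel45_46 h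
  have h := PR.allR_chain (PR.fixF [tb6, tb4, tb2, tb6, tb8, tb10, tb6, tb14, tb16, tb6, tb4, tb2, tb6, tb8, tb10, tb6, tb14, tb16, tb6, tb4, tb2, tb6, tb8, tb10, tb6, tb14, tb16, tb6, tb4, tb2, tb6, tb8, tb10, tb6, tb14, tb16, tb6, tb4, tb2, tb6, tb8, tb10, tb6, tb14, tb16, tb6, tb4, tb2, tb6, tb8, tb10, tb6, tb14, tb16, tb6, tb4, tb2, tb6, tb8, tb10, tb6, tb14, tb16, tb6, tb4, tb2, tb6, tb8, tb10, tb6, tb14, tb16, tb6, tb4, tb2, tb6, tb8, tb10, tb6, tb14, tb16, tb6, tb4, tb2, tb6, tb8, tb10, tb6, tb14, tb16]) 0 10340 220 rel45_47 h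
  have h := PR.allR_chain (PR.fixF [tb6, tb4, tb2, tb6, tb8, tb10, tb6, tb14, tb16, tb6, tb4, tb2, tb6, tb8, tb10, tb6, tb14, tb16, tb6, tb4, tb2, tb6, tb8, tb10, tb6, tb14, tb16, tb6, tb4, tb2, tb6, tb8, tb10, tb6, tb14, tb16, tb6, tb4, tb2, tb6, tb8, tb10, tb6, tb14, tb16, tb6, tb4, tb2, tb6, tb8, tb10, tb6, tb14, tb16, tb6, tb4, tb2, tb6, tb8, tb10, tb6, tb14, tb16, tb6, tb4, tb2, tb6, tb8, tb10, tb6, tb14, tb16, tb6, tb4, tb2, tb6, tb8, tb10, tb6, tb14, tb16, tb6, tb4, tb2, tb6, tb8, tb10, tb6, tb14, tb16]) 0 10560 220 rel45_48 h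
  have h := PR.allR_chain (PR.fixF [tb6, tb4, tb2, tb6, tb8, tb10, tb6, tb14, tb16, tb6, tb4, tb2, tb6, tb8, tb10, tb6, tb14, tb16, tb6, tb4, tb2, tb6, tb8, tb10, tb6, tb14, tb16, tb6, tb4, tb2, tb6, tb8, tb10, tb6, tb14, tb16, tb6, tb4, tb2, tb6, tb8, tb10, tb6, tb14, tb16, tb6, tb4, tb2, tb6, tb8, tb10, tb6, tb14, tb16, tb6, tb4, tb2, tb6, tb8, tb10, tb6, tb14, tb16, tb6, tb4, tb2, tb6, tb8, tb10, tb6, tb14, tb16, tb6, tb4, tb2, tb6, tb8, tb10, tb6, tb14, tb16, tb6, tb4, tb2, tb6, tb8, tb10, tb6, tb14, tb16]) 0 10780 220 rel45_49 h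
  have h := PR.allR_chain (PR.fixF [tb6, tb4, tb2, tb6, tb8, tb10, tb6, tb14, tb16, tb6, tb4, tb2, tb6, tb8, tb10, tb6, tb14, tb16, tb6, tb4, tb2, tb6, tb8, tb10, tb6, tb14, tb16, tb6, tb4, tb2, tb6, tb8, tb10, tb6, tb14, tb16, tb6, tb4, tb2, tb6, tb8, tb10, tb6, tb14, tb16, tb6, tb4, tb2, tb6, tb8, tb10, tb6, tb14, tb16, tb6, tb4, tb2, tb6, tb8, tb10, tb6, tb14, tb16, tb6, tb4, tb2, tb6, tb8, tb10, tb6, tb14, tb16, tb6, tb4, tb2, tb6, tb8, tb10, tb6, tb14, tb16, tb6, tb4, tb2, tb6, tb8, tb10, tb6, tb14, tb16]) 0 11000 220 rel45_50 h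
  have h := PR.allR_chain (PR.fixF [tb6, tb4, tb2, tb6, tb8, tb10, tb6, tb14, tb16, tb6, tb4, tb2, tb6, tb8, tb10, tb6, tb14, tb16, tb6, tb4, tb2, tb6, tb8, tb10, tb6, tb14, tb16, tb6, tb4, tb2, tb6, tb8, tb10, tb6, tb14, tb16, tb6, tb4, tb2, tb6, tb8, tb10, tb6, tb14, tb16, tb6, tb4, tb2, tb6, tb8, tb10, tb6, tb14, tb16, tb6, tb4, tb2, tb6, tb8, tb10, tb6, tb14, tb16, tb6, tb4, tb2, tb6, tb8, tb10, tb6, tb14, tb16, tb6, tb4, tb2, tb6, tb8, tb10, tb6, tb14, tb16, tb6, tb4, tb2, tb6, tb8, tb10, tb6, tb14, tb16]) 0 11220 220 rel45_51 h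
  have h := PR.allR_chain (PR.fixF [tb6, tb4, tb2, tb6, tb8, tb10, tb6, tb14, tb16, tb6, tb4, tb2, tb6, tb8, tb10, tb6, tb14, tb16, tb6, tb4, tb2, tb6, tb8, tb10, tb6, tb14, tb16, tb6, tb4, tb2, tb6, tb8, tb10, tb6, tb14, tb16, tb6, tb4, tb2, tb6, tb8, tb10, tb6, tb14, tb16, tb6, tb4, tb2, tb6, tb8, tb10, tb6, tb14, tb16, tb6, tb4, tb2, tb6, tb8, tb10, tb6, tb14, tb16, tb6, tb4, tb2, tb6, tb8, tb10, tb6, tb14, tb16, tb6, tb4, tb2, tb6, tb8, tb10, tb6, tb14, tb16, tb6, tb4, tb2, tb6, tb8, tb10, tb6, tb14, tb16]) 0 11440 220 rel45_52 h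
  have h := PR.allR_chain (PR.fixF [tb6, tb4, tb2, tb6, tb8, tb10, tb6, tb14, tb16, tb6, tb4, tb2, tb6, tb8, tb10, tb6, tb14, tb16, tb6, tb4, tb2, tb6, tb8, tb10, tb6, tb14, tb16, tb6, tb4, tb2, tb6, tb8, tb10, tb6, tb14, tb16, tb6, tb4, tb2, tb6, tb8, tb10, tb6, tb14, tb16, tb6, tb4, tb2, tb6, tb8, tb10, tb6, tb14, tb16, tb6, tb4, tb2, tb6, tb8, tb10, tb6, tb14, tb16, tb6, tb4, tb2, tb6, tb8, tb10, tb6, tb14, tb16, tb6, tb4, tb2, tb6, tb8, tb10, tb6, tb14, tb16, tb6, tb4, tb2, tb6, tb8, tb10, tb6, tb14, tb16]) 0 11660 220 rel45_53 h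
  have h := PR.allR_chain (PR.fixF [tb6, tb4, tb2, tb6, tb8, tb10, tb6, tb14, tb16, tb6, tb4, tb2, tb6, tb8, tb10, tb6, tb14, tb16, tb6, tb4, tb2, tb6, tb8, tb10, tb6, tb14, tb16, tb6, tb4, tb2, tb6, tb8, tb10, tb6, tb14, tb16, tb6, tb4, tb2, tb6, tb8, tb10, tb6, tb14, tb16, tb6, tb4, tb2, tb6, tb8, tb10, tb6, tb14, tb16, tb6, tb4, tb2, tb6, tb8, tb10, tb6, tb14, tb16, tb6, tb4, tb2, tb6, tb8, tb10, tb6, tb14, tb16, tb6, tb4, tb2, tb6, tb8, tb10, tb6, tb14, tb16, tb6, tb4, tb2, tb6, tb8, tb10, tb6, tb14, tb16]) 0 11880 220 rel45_54 h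
  have h := PR.allR_chain (PR.fixF [tb6, tb4, tb2, tb6, tb8, tb10, tb6, tb14, tb16, tb6, tb4, tb2, tb6, tb8, tb10, tb6, tb14, tb16, tb6, tb4, tb2, tb6, tb8, tb10, tb6, tb14, tb16, tb6, tb4, tb2, tb6, tb8, tb10, tb6, tb14, tb16, tb6, tb4, tb2, tb6, tb8, tb10, tb6, tb14, tb16, tb6, tb4, tb2, tb6, tb8, tb10, tb6, tb14, tb16, tb6, tb4, tb2, tb6, tb8, tb10, tb6, tb14, tb16, tb6, tb4, tb2, tb6, tb8, tb10, tb6, tb14, tb16, tb6, tb4, tb2, tb6, tb8, tb10, tb6, tb14, tb16, tb6, tb4, tb2, tb6, tb8, tb10, tb6, tb14, tb16]) 0 12100 220 rel45_55 h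
  have h := PR.allR_chain (PR.fixF [tb6, tb4, tb2, tb6, tb8, tb10, tb6, tb14, tb16, tb6, tb4, tb2, tb6, tb8, tb10, tb6, tb14, tb16, tb6, tb4, tb2, tb6, tb8, tb10, tb6, tb14, tb16, tb6, tb4, tb2, tb6, tb8, tb10, tb6, tb14, tb16, tb6, tb4, tb2, tb6, tb8, tb10, tb6, tb14, tb16, tb6, tb4, tb2, tb6, tb8, tb10, tb6, tb14, tb16, tb6, tb4, tb2, tb6, tb8, tb10, tb6, tb14, tb16, tb6, tb4, tb2, tb6, tb8, tb10, tb6, tb14, tb16, tb6, tb4, tb2, tb6, tb8, tb10, tb6, tb14, tb16, tb6, tb4, tb2, tb6, tb8, tb10, tb6, tb14, tb16]) 0 12320 220 rel45_56 h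
  have h := PR.allR_chain (PR.fixF [tb6, tb4, tb2, tb6, tb8, tb10, tb6, tb14, tb16, tb6, tb4, tb2, tb6, tb8, tb10, tb6, tb14, tb16, tb6, tb4, tb2, tb6, tb8, tb10, tb6, tb14, tb16, tb6, tb4, tb2, tb6, tb8, tb10, tb6, tb14, tb16, tb6, tb4, tb2, tb6, tb8, tb10, tb6, tb14, tb16, tb6, tb4, tb2, tb6, tb8, tb10, tb6, tb14, tb16, tb6, tb4, tb2, tb6, tb8, tb10, tb6, tb14, tb16, tb6, tb4, tb2, tb6, tb8, tb10, tb6, tb14, tb16, tb6, tb4, tb2, tb6, tb8, tb10, tb6, tb14, tb16, tb6, tb4, tb2, tb6, tb8, tb10, tb6, tb14, tb16]) 0 12540 220 rel45_57 h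
  have h := PR.allR_chain (PR.fixF [tb6, tb4, tb2, tb6, tb8, tb10, tb6, tb14, tb16, tb6, tb4, tb2, tb6, tb8, tb10, tb6, tb14, tb16, tb6, tb4, tb2, tb6, tb8, tb10, tb6, tb14, tb16, tb6, tb4, tb2, tb6, tb8, tb10, tb6, tb14, tb16, tb6, tb4, tb2, tb6, tb8, tb10, tb6, tb14, tb16, tb6, tb4, tb2, tb6, tb8, tb10, tb6, tb14, tb16, tb6, tb4, tb2, tb6, tb8, tb10, tb6, tb14, tb16, tb6, tb4, tb2, tb6, tb8, tb10, tb6, tb14, tb16, tb6, tb4, tb2, tb6, tb8, tb10, tb6, tb14, tb16, tb6, tb4, tb2, tb6, tb8, tb10, tb6, tb14, tb16]) 0 12760 220 rel45_58 h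
  have h := PR.allR_chain (PR.fixF [tb6, tb4, tb2, tb6, tb8, tb10, tb6, tb14, tb16, tb6, tb4, tb2, tb6, tb8, tb10, tb6, tb14, tb16, tb6, tb4, tb2, tb6, tb8, tb10, tb6, tb14, tb16, tb6, tb4, tb2, tb6, tb8, tb10, tb6, tb14, tb16, tb6, tb4, tb2, tb6, tb8, tb10, tb6, tb14, tb16, tb6, tb4, tb2, tb6, tb8, tb10, tb6, tb14, tb16, tb6, tb4, tb2, tb6, tb8, tb10, tb6, tb14, tb16, tb6, tb4, tb2, tb6, tb8, tb10, tb6, tb14, tb16, tb6, tb4, tb2, tb6, tb8, tb10, tb6, tb14, tb16, tb6, tb4, tb2, tb6, tb8, tb10, tb6, tb14, tb16]) 0 12980 220 rel45_59 h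
  have h := PR.allR_chain (PR.fixF [tb6, tb4, tb2, tb6, tb8, tb10, tb6, tb14, tb16, tb6, tb4, tb2, tb6, tb8, tb10, tb6, tb14, tb16, tb6, tb4, tb2, tb6, tb8, tb10, tb6, tb14, tb16, tb6, tb4, tb2, tb6, tb8, tb10, tb6, tb14, tb16, tb6, tb4, tb2, tb6, tb8, tb10, tb6, tb14, tb16, tb6, tb4, tb2, tb6, tb8, tb10, tb6, tb14, tb16, tb6, tb4, tb2, tb6, tb8, tb10, tb6, tb14, tb16, tb6, tb4, tb2, tb6, tb8, tb10, tb6, tb14, tb16, tb6, tb4, tb2, tb6, tb8, tb10, tb6, tb14, tb16, tb6, tb4, tb2, tb6, tb8, tb10, tb6, tb14, tb16]) 0 13200 220 rel45_60 h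
  have h := PR.allR_chain (PR.fixF [tb6, tb4, tb2, tb6, tb8, tb10, tb6, tb14, tb16, tb6, tb4, tb2, tb6, tb8, tb10, tb6, tb14, tb16, tb6, tb4, tb2, tb6, tb8, tb10, tb6, tb14, tb16, tb6, tb4, tb2, tb6, tb8, tb10, tb6, tb14, tb16, tb6, tb4, tb2, tb6, tb8, tb10, tb6, tb14, tb16, tb6, tb4, tb2, tb6, tb8, tb10, tb6, tb14, tb16, tb6, tb4, tb2, tb6, tb8, tb10, tb6, tb14, tb16, tb6, tb4, tb2, tb6, tb8, tb10, tb6, tb14, tb16, tb6, tb4, tb2, tb6, tb8, tb10, tb6, tb14, tb16, tb6, tb4, tb2, tb6, tb8, tb10, tb6, tb14, tb16]) 0 13420 220 rel45_61 h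
  have h := PR.allR_chain (PR.fixF [tb6, tb4, tb2, tb6, tb8, tb10, tb6, tb14, tb16, tb6, tb4, tb2, tb6, tb8, tb10, tb6, tb14, tb16, tb6, tb4, tb2, tb6, tb8, tb10, tb6, tb14, tb16, tb6, tb4, tb2, tb6, tb8, tb10, tb6, tb14, tb16, tb6, tb4, tb2, tb6, tb8, tb10, tb6, tb14, tb16, tb6, tb4, tb2, tb6, tb8, tb10, tb6, tb14, tb16, tb6, tb4, tb2, tb6, tb8, tb10, tb6, tb14, tb16, tb6, tb4, tb2, tb6, tb8, tb10, tb6, tb14, tb16, tb6, tb4, tb2, tb6, tb8, tb10, tb6, tb14, tb16, tb6, tb4, tb2, tb6, tb8, tb10, tb6, tb14, tb16]) 0 13640 220 rel45_62 h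
  have h := PR.allR_chain (PR.fixF [tb6, tb4, tb2, tb6, tb8, tb10, tb6, tb14, tb16, tb6, tb4, tb2, tb6, tb8, tb10, tb6, tb14, tb16, tb6, tb4, tb2, tb6, tb8, tb10, tb6, tb14, tb16, tb6, tb4, tb2, tb6, tb8, tb10, tb6, tb14, tb16, tb6, tb4, tb2, tb6, tb8, tb10, tb6, tb14, tb16, tb6, tb4, tb2, tb6, tb8, tb10, tb6, tb14, tb16, tb6, tb4, tb2, tb6, tb8, tb10, tb6, tb14, tb16, tb6, tb4, tb2, tb6, tb8, tb10, tb6, tb14, tb16, tb6, tb4, tb2, tb6, tb8, tb10, tb6, tb14, tb16, tb6, tb4, tb2, tb6, tb8, tb10, tb6, tb14, tb16]) 0 13860 220 rel45_63 h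
  have h := PR.allR_chain (PR.fixF [tb6, tb4, tb2, tb6, tb8, tb10, tb6, tb14, tb16, tb6, tb4, tb2, tb6, tb8, tb10, tb6, tb14, tb16, tb6, tb4, tb2, tb6, tb8, tb10, tb6, tb14, tb16, tb6, tb4, tb2, tb6, tb8, tb10, tb6, tb14, tb16, tb6, tb4, tb2, tb6, tb8, tb10, tb6, tb14, tb16, tb6, tb4, tb2, tb6, tb8, tb10, tb6, tb14, tb16, tb6, tb4, tb2, tb6, tb8, tb10, tb6, tb14, tb16, tb6, tb4, tb2, tb6, tb8, tb10, tb6, tb14, tb16, tb6, tb4, tb2, tb6, tb8, tb10, tb6, tb14, tb16, tb6, tb4, tb2, tb6, tb8, tb10, tb6, tb14, tb16]) 0 14080 220 rel45_64 h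
  have h := PR.allR_chain (PR.fixF [tb6, tb4, tb2, tb6, tb8, tb10, tb6, tb14, tb16, tb6, tb4, tb2, tb6, tb8, tb10, tb6, tb14, tb16, tb6, tb4, tb2, tb6, tb8, tb10, tb6, tb14, tb16, tb6, tb4, tb2, tb6, tb8, tb10, tb6, tb14, tb16, tb6, tb4, tb2, tb6, tb8, tb10, tb6, tb14, tb16, tb6, tb4, tb2, tb6, tb8, tb10, tb6, tb14, tb16, tb6, tb4, tb2, tb6, tb8, tb10, tb6, tb14, tb16, tb6, tb4, tb2, tb6, tb8, tb10, tb6, tb14, tb16, tb6, tb4, tb2, tb6, tb8, tb10, tb6, tb14, tb16, tb6, tb4, tb2, tb6, tb8, tb10, tb6, tb14, tb16]) 0 14300 220 rel45_65 h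
  have h := PR.allR_chain (PR.fixF [tb6, tb4, tb2, tb6, tb8, tb10, tb6, tb14, tb16, tb6, tb4, tb2, tb6, tb8, tb10, tb6, tb14, tb16, tb6, tb4, tb2, tb6, tb8, tb10, tb6, tb14, tb16, tb6, tb4, tb2, tb6, tb8, tb10, tb6, tb14, tb16, tb6, tb4, tb2, tb6, tb8, tb10, tb6, tb14, tb16, tb6, tb4, tb2, tb6, tb8, tb10, tb6, tb14, tb16, tb6, tb4, tb2, tb6, tb8, tb10, tb6, tb14, tb16, tb6, tb4, tb2, tb6, tb8, tb10, tb6, tb14, tb16, tb6, tb4, tb2, tb6, tb8, tb10, tb6, tb14, tb16, tb6, tb4, tb2, tb6, tb8, tb10, tb6, tb14, tb16]) 0 14520 220 rel45_66 h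
  have h := PR.allR_chain (PR.fixF [tb6, tb4, tb2, tb6, tb8, tb10, tb6, tb14, tb16, tb6, tb4, tb2, tb6, tb8, tb10, tb6, tb14, tb16, tb6, tb4, tb2, tb6, tb8, tb10, tb6, tb14, tb16, tb6, tb4, tb2, tb6, tb8, tb10, tb6, tb14, tb16, tb6, tb4, tb2, tb6, tb8, tb10, tb6, tb14, tb16, tb6, tb4, tb2, tb6, tb8, tb10, tb6, tb14, tb16, tb6, tb4, tb2, tb6, tb8, tb10, tb6, tb14, tb16, tb6, tb4, tb2, tb6, tb8, tb10, tb6, tb14, tb16, tb6, tb4, tb2, tb6, tb8, tb10, tb6, tb14, tb16, tb6, tb4, tb2, tb6, tb8, tb10, tb6, tb14, tb16]) 0 14740 220 rel45_67 h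
  have h := PR.allR_chain (PR.fixF [tb6, tb4, tb2, tb6, tb8, tb10, tb6, tb14, tb16, tb6, tb4, tb2, tb6, tb8, tb10, tb6, tb14, tb16, tb6, tb4, tb2, tb6, tb8, tb10, tb6, tb14, tb16, tb6, tb4, tb2, tb6, tb8, tb10, tb6, tb14, tb16, tb6, tb4, tb2, tb6, tb8, tb10, tb6, tb14, tb16, tb6, tb4, tb2, tb6, tb8, tb10, tb6, tb14, tb16, tb6, tb4, tb2, tb6, tb8, tb10, tb6, tb14, tb16, tb6, tb4, tb2, tb6, tb8, tb10, tb6, tb14, tb16, tb6, tb4, tb2, tb6, tb8, tb10, tb6, tb14, tb16, tb6, tb4, tb2, tb6, tb8, tb10, tb6, tb14, tb16]) 0 14960 220 rel45_68 h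
  have h := PR.allR_chain (PR.fixF [tb6, tb4, tb2, tb6, tb8, tb10, tb6, tb14, tb16, tb6, tb4, tb2, tb6, tb8, tb10, tb6, tb14, tb16, tb6, tb4, tb2, tb6, tb8, tb10, tb6, tb14, tb16, tb6, tb4, tb2, tb6, tb8, tb10, tb6, tb14, tb16, tb6, tb4, tb2, tb6, tb8, tb10, tb6, tb14, tb16, tb6, tb4, tb2, tb6, tb8, tb10, tb6, tb14, tb16, tb6, tb4, tb2, tb6, tb8, tb10, tb6, tb14, tb16, tb6, tb4, tb2, tb6, tb8, tb10, tb6, tb14, tb16, tb6, tb4, tb2, tb6, tb8, tb10, tb6, tb14, tb16, tb6, tb4, tb2, tb6, tb8, tb10, tb6, tb14, tb16]) 0 15180 220 rel45_69 h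
  have h := PR.allR_chain (PR.fixF [tb6, tb4, tb2, tb6, tb8, tb10, tb6, tb14, tb16, tb6, tb4, tb2, tb6, tb8, tb10, tb6, tb14, tb16, tb6, tb4, tb2, tb6, tb8, tb10, tb6, tb14, tb16, tb6, tb4, tb2, tb6, tb8, tb10, tb6, tb14, tb16, tb6, tb4, tb2, tb6, tb8, tb10, tb6, tb14, tb16, tb6, tb4, tb2, tb6, tb8, tb10, tb6, tb14, tb16, tb6, tb4, tb2, tb6, tb8, tb10, tb6, tb14, tb16, tb6, tb4, tb2, tb6, tb8, tb10, tb6, tb14, tb16, tb6, tb4, tb2, tb6, tb8, tb10, tb6, tb14, tb16, tb6, tb4, tb2, tb6, tb8, tb10, tb6, tb14, tb16]) 0 15400 220 rel45_70 h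
  have h := PR.allR_chain (PR.fixF [tb6, tb4, tb2, tb6, tb8, tb10, tb6, tb14, tb16, tb6, tb4, tb2, tb6, tb8, tb10, tb6, tb14, tb16, tb6, tb4, tb2, tb6, tb8, tb10, tb6, tb14, tb16, tb6, tb4, tb2, tb6, tb8, tb10, tb6, tb14, tb16, tb6, tb4, tb2, tb6, tb8, tb10, tb6, tb14, tb16, tb6, tb4, tb2, tb6, tb8, tb10, tb6, tb14, tb16, tb6, tb4, tb2, tb6, tb8, tb10, tb6, tb14, tb16, tb6, tb4, tb2, tb6, tb8, tb10, tb6, tb14, tb16, tb6, tb4, tb2, tb6, tb8, tb10, tb6, tb14, tb16, tb6, tb4, tb2, tb6, tb8, tb10, tb6, tb14, tb16]) 0 15620 220 rel45_71 h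
  have h := PR.allR_chain (PR.fixF [tb6, tb4, tb2, tb6, tb8, tb10, tb6, tb14, tb16, tb6, tb4, tb2, tb6, tb8, tb10, tb6, tb14, tb16, tb6, tb4, tb2, tb6, tb8, tb10, tb6, tb14, tb16, tb6, tb4, tb2, tb6, tb8, tb10, tb6, tb14, tb16, tb6, tb4, tb2, tb6, tb8, tb10, tb6, tb14, tb16, tb6, tb4, tb2, tb6, tb8, tb10, tb6, tb14, tb16, tb6, tb4, tb2, tb6, tb8, tb10, tb6, tb14, tb16, tb6, tb4, tb2, tb6, tb8, tb10, tb6, tb14, tb16, tb6, tb4, tb2, tb6, tb8, tb10, tb6, tb14, tb16, tb6, tb4, tb2, tb6, tb8, tb10, tb6, tb14, tb16]) 0 15840 220 rel45_72 h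
  have h := PR.allR_chain (PR.fixF [tb6, tb4, tb2, tb6, tb8, tb10, tb6, tb14, tb16, tb6, tb4, tb2, tb6, tb8, tb10, tb6, tb14, tb16, tb6, tb4, tb2, tb6, tb8, tb10, tb6, tb14, tb16, tb6, tb4, tb2, tb6, tb8, tb10, tb6, tb14, tb16, tb6, tb4, tb2, tb6, tb8, tb10, tb6, tb14, tb16, tb6, tb4, tb2, tb6, tb8, tb10, tb6, tb14, tb16, tb6, tb4, tb2, tb6, tb8, tb10, tb6, tb14, tb16, tb6, tb4, tb2, tb6, tb8, tb10, tb6, tb14, tb16, tb6, tb4, tb2, tb6, tb8, tb10, tb6, tb14, tb16, tb6, tb4, tb2, tb6, tb8, tb10, tb6, tb14, tb16]) 0 16060 220 rel45_73 h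
  have h := PR.allR_chain (PR.fixF [tb6, tb4, tb2, tb6, tb8, tb10, tb6, tb14, tb16, tb6, tb4, tb2, tb6, tb8, tb10, tb6, tb14, tb16, tb6, tb4, tb2, tb6, tb8, tb10, tb6, tb14, tb16, tb6, tb4, tb2, tb6, tb8, tb10, tb6, tb14, tb16, tb6, tb4, tb2, tb6, tb8, tb10, tb6, tb14, tb16, tb6, tb4, tb2, tb6, tb8, tb10, tb6, tb14, tb16, tb6, tb4, tb2, tb6, tb8, tb10, tb6, tb14, tb16, tb6, tb4, tb2, tb6, tb8, tb10, tb6, tb14, tb16, tb6, tb4, tb2, tb6, tb8, tb10, tb6, tb14, tb16, tb6, tb4, tb2, tb6, tb8, tb10, tb6, tb14, tb16]) 0 16280 220 rel45_74 h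
  have h := PR.allR_chain (PR.fixF [tb6, tb4, tb2, tb6, tb8, tb10, tb6, tb14, tb16, tb6, tb4, tb2, tb6, tb8, tb10, tb6, tb14, tb16, tb6, tb4, tb2, tb6, tb8, tb10, tb6, tb14, tb16, tb6, tb4, tb2, tb6, tb8, tb10, tb6, tb14, tb16, tb6, tb4, tb2, tb6, tb8, tb10, tb6, tb14, tb16, tb6, tb4, tb2, tb6, tb8, tb10, tb6, tb14, tb16, tb6, tb4, tb2, tb6, tb8, tb10, tb6, tb14, tb16, tb6, tb4, tb2, tb6, tb8, tb10, tb6, tb14, tb16, tb6, tb4, tb2, tb6, tb8, tb10, tb6, tb14, tb16, tb6, tb4, tb2, tb6, tb8, tb10, tb6, tb14, tb16]) 0 16500 220 rel45_75 h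
  have h := PR.allR_chain (PR.fixF [tb6, tb4, tb2, tb6, tb8, tb10, tb6, tb14, tb16, tb6, tb4, tb2, tb6, tb8, tb10, tb6, tb14, tb16, tb6, tb4, tb2, tb6, tb8, tb10, tb6, tb14, tb16, tb6, tb4, tb2, tb6, tb8, tb10, tb6, tb14, tb16, tb6, tb4, tb2, tb6, tb8, tb10, tb6, tb14, tb16, tb6, tb4, tb2, tb6, tb8, tb10, tb6, tb14, tb16, tb6, tb4, tb2, tb6, tb8, tb10, tb6, tb14, tb16, tb6, tb4, tb2, tb6, tb8, tb10, tb6, tb14, tb16, tb6, tb4, tb2, tb6, tb8, tb10, tb6, tb14, tb16, tb6, tb4, tb2, tb6, tb8, tb10, tb6, tb14, tb16]) 0 16720 220 rel45_76 h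
  have h := PR.allR_chain (PR.fixF [tb6, tb4, tb2, tb6, tb8, tb10, tb6, tb14, tb16, tb6, tb4, tb2, tb6, tb8, tb10, tb6, tb14, tb16, tb6, tb4, tb2, tb6, tb8, tb10, tb6, tb14, tb16, tb6, tb4, tb2, tb6, tb8, tb10, tb6, tb14, tb16, tb6, tb4, tb2, tb6, tb8, tb10, tb6, tb14, tb16, tb6, tb4, tb2, tb6, tb8, tb10, tb6, tb14, tb16, tb6, tb4, tb2, tb6, tb8, tb10, tb6, tb14, tb16, tb6, tb4, tb2, tb6, tb8, tb10, tb6, tb14, tb16, tb6, tb4, tb2, tb6, tb8, tb10, tb6, tb14, tb16, tb6, tb4, tb2, tb6, tb8, tb10, tb6, tb14, tb16]) 0 16940 220 rel45_77 h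
  have h := PR.allR_chain (PR.fixF [tb6, tb4, tb2, tb6, tb8, tb10, tb6, tb14, tb16, tb6, tb4, tb2, tb6, tb8, tb10, tb6, tb14, tb16, tb6, tb4, tb2, tb6, tb8, tb10, tb6, tb14, tb16, tb6, tb4, tb2, tb6, tb8, tb10, tb6, tb14, tb16, tb6, tb4, tb2, tb6, tb8, tb10, tb6, tb14, tb16, tb6, tb4, tb2, tb6, tb8, tb10, tb6, tb14, tb16, tb6, tb4, tb2, tb6, tb8, tb10, tb6, tb14, tb16, tb6, tb4, tb2, tb6, tb8, tb10, tb6, tb14, tb16, tb6, tb4, tb2, tb6, tb8, tb10, tb6, tb14, tb16, tb6, tb4, tb2, tb6, tb8, tb10, tb6, tb14, tb16]) 0 17160 220 rel45_78 h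
  have h := PR.allR_chain (PR.fixF [tb6, tb4, tb2, tb6, tb8, tb10, tb6, tb14, tb16, tb6, tb4, tb2, tb6, tb8, tb10, tb6, tb14, tb16, tb6, tb4, tb2, tb6, tb8, tb10, tb6, tb14, tb16, tb6, tb4, tb2, tb6, tb8, tb10, tb6, tb14, tb16, tb6, tb4, tb2, tb6, tb8, tb10, tb6, tb14, tb16, tb6, tb4, tb2, tb6, tb8, tb10, tb6, tb14, tb16, tb6, tb4, tb2, tb6, tb8, tb10, tb6, tb14, tb16, tb6, tb4, tb2, tb6, tb8, tb10, tb6, tb14, tb16, tb6, tb4, tb2, tb6, tb8, tb10, tb6, tb14, tb16, tb6, tb4, tb2, tb6, tb8, tb10, tb6, tb14, tb16]) 0 17380 220 rel45_79 h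
  have h := PR.allR_chain (PR.fixF [tb6, tb4, tb2, tb6, tb8, tb10, tb6, tb14, tb16, tb6, tb4, tb2, tb6, tb8, tb10, tb6, tb14, tb16, tb6, tb4, tb2, tb6, tb8, tb10, tb6, tb14, tb16, tb6, tb4, tb2, tb6, tb8, tb10, tb6, tb14, tb16, tb6, tb4, tb2, tb6, tb8, tb10, tb6, tb14, tb16, tb6, tb4, tb2, tb6, tb8, tb10, tb6, tb14, tb16, tb6, tb4, tb2, tb6, tb8, tb10, tb6, tb14, tb16, tb6, tb4, tb2, tb6, tb8, tb10, tb6, tb14, tb16, tb6, tb4, tb2, tb6, tb8, tb10, tb6, tb14, tb16, tb6, tb4, tb2, tb6, tb8, tb10, tb6, tb14, tb16]) 0 17600 220 rel45_80 h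
  have h := PR.allR_chain (PR.fixF [tb6, tb4, tb2, tb6, tb8, tb10, tb6, tb14, tb16, tb6, tb4, tb2, tb6, tb8, tb10, tb6, tb14, tb16, tb6, tb4, tb2, tb6, tb8, tb10, tb6, tb14, tb16, tb6, tb4, tb2, tb6, tb8, tb10, tb6, tb14, tb16, tb6, tb4, tb2, tb6, tb8, tb10, tb6, tb14, tb16, tb6, tb4, tb2, tb6, tb8, tb10, tb6, tb14, tb16, tb6, tb4, tb2, tb6, tb8, tb10, tb6, tb14, tb16, tb6, tb4, tb2, tb6, tb8, tb10, tb6, tb14, tb16, tb6, tb4, tb2, tb6, tb8, tb10, tb6, tb14, tb16, tb6, tb4, tb2, tb6, tb8, tb10, tb6, tb14, tb16]) 0 17820 220 rel45_81 h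
  have h := PR.allR_chain (PR.fixF [tb6, tb4, tb2, tb6, tb8, tb10, tb6, tb14, tb16, tb6, tb4, tb2, tb6, tb8, tb10, tb6, tb14, tb16, tb6, tb4, tb2, tb6, tb8, tb10, tb6, tb14, tb16, tb6, tb4, tb2, tb6, tb8, tb10, tb6, tb14, tb16, tb6, tb4, tb2, tb6, tb8, tb10, tb6, tb14, tb16, tb6, tb4, tb2, tb6, tb8, tb10, tb6, tb14, tb16, tb6, tb4, tb2, tb6, tb8, tb10, tb6, tb14, tb16, tb6, tb4, tb2, tb6, tb8, tb10, tb6, tb14, tb16, tb6, tb4, tb2, tb6, tb8, tb10, tb6, tb14, tb16, tb6, tb4, tb2, tb6, tb8, tb10, tb6, tb14, tb16]) 0 18040 220 rel45_82 h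
  have h := PR.allR_chain (PR.fixF [tb6, tb4, tb2, tb6, tb8, tb10, tb6, tb14, tb16, tb6, tb4, tb2, tb6, tb8, tb10, tb6, tb14, tb16, tb6, tb4, tb2, tb6, tb8, tb10, tb6, tb14, tb16, tb6, tb4, tb2, tb6, tb8, tb10, tb6, tb14, tb16, tb6, tb4, tb2, tb6, tb8, tb10, tb6, tb14, tb16, tb6, tb4, tb2, tb6, tb8, tb10, tb6, tb14, tb16, tb6, tb4, tb2, tb6, tb8, tb10, tb6, tb14, tb16, tb6, tb4, tb2, tb6, tb8, tb10, tb6, tb14, tb16, tb6, tb4, tb2, tb6, tb8, tb10, tb6, tb14, tb16, tb6, tb4, tb2, tb6, tb8, tb10, tb6, tb14, tb16]) 0 18260 220 rel45_83 h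
  have h := PR.allR_chain (PR.fixF [tb6, tb4, tb2, tb6, tb8, tb10, tb6, tb14, tb16, tb6, tb4, tb2, tb6, tb8, tb10, tb6, tb14, tb16, tb6, tb4, tb2, tb6, tb8, tb10, tb6, tb14, tb16, tb6, tb4, tb2, tb6, tb8, tb10, tb6, tb14, tb16, tb6, tb4, tb2, tb6, tb8, tb10, tb6, tb14, tb16, tb6, tb4, tb2, tb6, tb8, tb10, tb6, tb14, tb16, tb6, tb4, tb2, tb6, tb8, tb10, tb6, tb14, tb16, tb6, tb4, tb2, tb6, tb8, tb10, tb6, tb14, tb16, tb6, tb4, tb2, tb6, tb8, tb10, tb6, tb14, tb16, tb6, tb4, tb2, tb6, tb8, tb10, tb6, tb14, tb16]) 0 18480 220 rel45_84 h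
  have h := PR.allR_chain (PR.fixF [tb6, tb4, tb2, tb6, tb8, tb10, tb6, tb14, tb16, tb6, tb4, tb2, tb6, tb8, tb10, tb6, tb14, tb16, tb6, tb4, tb2, tb6, tb8, tb10, tb6, tb14, tb16, tb6, tb4, tb2, tb6, tb8, tb10, tb6, tb14, tb16, tb6, tb4, tb2, tb6, tb8, tb10, tb6, tb14, tb16, tb6, tb4, tb2, tb6, tb8, tb10, tb6, tb14, tb16, tb6, tb4, tb2, tb6, tb8, tb10, tb6, tb14, tb16, tb6, tb4, tb2, tb6, tb8, tb10, tb6, tb14, tb16, tb6, tb4, tb2, tb6, tb8, tb10, tb6, tb14, tb16, tb6, tb4, tb2, tb6, tb8, tb10, tb6, tb14, tb16]) 0 18700 220 rel45_85 h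
  have h := PR.allR_chain (PR.fixF [tb6, tb4, tb2, tb6, tb8, tb10, tb6, tb14, tb16, tb6, tb4, tb2, tb6, tb8, tb10, tb6, tb14, tb16, tb6, tb4, tb2, tb6, tb8, tb10, tb6, tb14, tb16, tb6, tb4, tb2, tb6, tb8, tb10, tb6, tb14, tb16, tb6, tb4, tb2, tb6, tb8, tb10, tb6, tb14, tb16, tb6, tb4, tb2, tb6, tb8, tb10, tb6, tb14, tb16, tb6, tb4, tb2, tb6, tb8, tb10, tb6, tb14, tb16, tb6, tb4, tb2, tb6, tb8, tb10, tb6, tb14, tb16, tb6, tb4, tb2, tb6, tb8, tb10, tb6, tb14, tb16, tb6, tb4, tb2, tb6, tb8, tb10, tb6, tb14, tb16]) 0 18920 220 rel45_86 h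
  have h := PR.allR_chain (PR.fixF [tb6, tb4, tb2, tb6, tb8, tb10, tb6, tb14, tb16, tb6, tb4, tb2, tb6, tb8, tb10, tb6, tb14, tb16, tb6, tb4, tb2, tb6, tb8, tb10, tb6, tb14, tb16, tb6, tb4, tb2, tb6, tb8, tb10, tb6, tb14, tb16, tb6, tb4, tb2, tb6, tb8, tb10, tb6, tb14, tb16, tb6, tb4, tb2, tb6, tb8, tb10, tb6, tb14, tb16, tb6, tb4, tb2, tb6, tb8, tb10, tb6, tb14, tb16, tb6, tb4, tb2, tb6, tb8, tb10, tb6, tb14, tb16, tb6, tb4, tb2, tb6, tb8, tb10, tb6, tb14, tb16, tb6, tb4, tb2, tb6, tb8, tb10, tb6, tb14, tb16]) 0 19140 220 rel45_87 h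
  have h := PR.allR_chain (PR.fixF [tb6, tb4, tb2, tb6, tb8, tb10, tb6, tb14, tb16, tb6, tb4, tb2, tb6, tb8, tb10, tb6, tb14, tb16, tb6, tb4, tb2, tb6, tb8, tb10, tb6, tb14, tb16, tb6, tb4, tb2, tb6, tb8, tb10, tb6, tb14, tb16, tb6, tb4, tb2, tb6, tb8, tb10, tb6, tb14, tb16, tb6, tb4, tb2, tb6, tb8, tb10, tb6, tb14, tb16, tb6, tb4, tb2, tb6, tb8, tb10, tb6, tb14, tb16, tb6, tb4, tb2, tb6, tb8, tb10, tb6, tb14, tb16, tb6, tb4, tb2, tb6, tb8, tb10, tb6, tb14, tb16, tb6, tb4, tb2, tb6, tb8, tb10, tb6, tb14, tb16]) 0 19360 220 rel45_88 h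
  have h := PR.allR_chain (PR.fixF [tb6, tb4, tb2, tb6, tb8, tb10, tb6, tb14, tb16, tb6, tb4, tb2, tb6, tb8, tb10, tb6, tb14, tb16, tb6, tb4, tb2, tb6, tb8, tb10, tb6, tb14, tb16, tb6, tb4, tb2, tb6, tb8, tb10, tb6, tb14, tb16, tb6, tb4, tb2, tb6, tb8, tb10, tb6, tb14, tb16, tb6, tb4, tb2, tb6, tb8, tb10, tb6, tb14, tb16, tb6, tb4, tb2, tb6, tb8, tb10, tb6, tb14, tb16, tb6, tb4, tb2, tb6, tb8, tb10, tb6, tb14, tb16, tb6, tb4, tb2, tb6, tb8, tb10, tb6, tb14, tb16, tb6, tb4, tb2, tb6, tb8, tb10, tb6, tb14, tb16]) 0 19580 220 rel45_89 h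
  have h := PR.allR_chain (PR.fixF [tb6, tb4, tb2, tb6, tb8, tb10, tb6, tb14, tb16, tb6, tb4, tb2, tb6, tb8, tb10, tb6, tb14, tb16, tb6, tb4, tb2, tb6, tb8, tb10, tb6, tb14, tb16, tb6, tb4, tb2, tb6, tb8, tb10, tb6, tb14, tb16, tb6, tb4, tb2, tb6, tb8, tb10, tb6, tb14, tb16, tb6, tb4, tb2, tb6, tb8, tb10, tb6, tb14, tb16, tb6, tb4, tb2, tb6, tb8, tb10, tb6, tb14, tb16, tb6, tb4, tb2, tb6, tb8, tb10, tb6, tb14, tb16, tb6, tb4, tb2, tb6, tb8, tb10, tb6, tb14, tb16, tb6, tb4, tb2, tb6, tb8, tb10, tb6, tb14, tb16]) 0 19800 220 rel45_90 h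
  have h := PR.allR_chain (PR.fixF [tb6, tb4, tb2, tb6, tb8, tb10, tb6, tb14, tb16, tb6, tb4, tb2, tb6, tb8, tb10, tb6, tb14, tb16, tb6, tb4, tb2, tb6, tb8, tb10, tb6, tb14, tb16, tb6, tb4, tb2, tb6, tb8, tb10, tb6, tb14, tb16, tb6, tb4, tb2, tb6, tb8, tb10, tb6, tb14, tb16, tb6, tb4, tb2, tb6, tb8, tb10, tb6, tb14, tb16, tb6, tb4, tb2, tb6, tb8, tb10, tb6, tb14, tb16, tb6, tb4, tb2, tb6, tb8, tb10, tb6, tb14, tb16, tb6, tb4, tb2, tb6, tb8, tb10, tb6, tb14, tb16, tb6, tb4, tb2, tb6, tb8, tb10, tb6, tb14, tb16]) 0 20020 220 rel45_91 h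
  have h := PR.allR_chain (PR.fixF [tb6, tb4, tb2, tb6, tb8, tb10, tb6, tb14, tb16, tb6, tb4, tb2, tb6, tb8, tb10, tb6, tb14, tb16, tb6, tb4, tb2, tb6, tb8, tb10, tb6, tb14, tb16, tb6, tb4, tb2, tb6, tb8, tb10, tb6, tb14, tb16, tb6, tb4, tb2, tb6, tb8, tb10, tb6, tb14, tb16, tb6, tb4, tb2, tb6, tb8, tb10, tb6, tb14, tb16, tb6, tb4, tb2, tb6, tb8, tb10, tb6, tb14, tb16, tb6, tb4, tb2, tb6, tb8, tb10, tb6, tb14, tb16, tb6, tb4, tb2, tb6, tb8, tb10, tb6, tb14, tb16, tb6, tb4, tb2, tb6, tb8, tb10, tb6, tb14, tb16]) 0 20240 220 rel45_92 h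
  have h := PR.allR_chain (PR.fixF [tb6, tb4, tb2, tb6, tb8, tb10, tb6, tb14, tb16, tb6, tb4, tb2, tb6, tb8, tb10, tb6, tb14, tb16, tb6, tb4, tb2, tb6, tb8, tb10, tb6, tb14, tb16, tb6, tb4, tb2, tb6, tb8, tb10, tb6, tb14, tb16, tb6, tb4, tb2, tb6, tb8, tb10, tb6, tb14, tb16, tb6, tb4, tb2, tb6, tb8, tb10, tb6, tb14, tb16, tb6, tb4, tb2, tb6, tb8, tb10, tb6, tb14, tb16, tb6, tb4, tb2, tb6, tb8, tb10, tb6, tb14, tb16, tb6, tb4, tb2, tb6, tb8, tb10, tb6, tb14, tb16, tb6, tb4, tb2, tb6, tb8, tb10, tb6, tb14, tb16]) 0 20460 220 rel45_93 h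
  have h := PR.allR_chain (PR.fixF [tb6, tb4, tb2, tb6, tb8, tb10, tb6, tb14, tb16, tb6, tb4, tb2, tb6, tb8, tb10, tb6, tb14, tb16, tb6, tb4, tb2, tb6, tb8, tb10, tb6, tb14, tb16, tb6, tb4, tb2, tb6, tb8, tb10, tb6, tb14, tb16, tb6, tb4, tb2, tb6, tb8, tb10, tb6, tb14, tb16, tb6, tb4, tb2, tb6, tb8, tb10, tb6, tb14, tb16, tb6, tb4, tb2, tb6, tb8, tb10, tb6, tb14, tb16, tb6, tb4, tb2, tb6, tb8, tb10, tb6, tb14, tb16, tb6, tb4, tb2, tb6, tb8, tb10, tb6, tb14, tb16, tb6, tb4, tb2, tb6, tb8, tb10, tb6, tb14, tb16]) 0 20680 220 rel45_94 h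
  have h := PR.allR_chain (PR.fixF [tb6, tb4, tb2, tb6, tb8, tb10, tb6, tb14, tb16, tb6, tb4, tb2, tb6, tb8, tb10, tb6, tb14, tb16, tb6, tb4, tb2, tb6, tb8, tb10, tb6, tb14, tb16, tb6, tb4, tb2, tb6, tb8, tb10, tb6, tb14, tb16, tb6, tb4, tb2, tb6, tb8, tb10, tb6, tb14, tb16, tb6, tb4, tb2, tb6, tb8, tb10, tb6, tb14, tb16, tb6, tb4, tb2, tb6, tb8, tb10, tb6, tb14, tb16, tb6, tb4, tb2, tb6, tb8, tb10, tb6, tb14, tb16, tb6, tb4, tb2, tb6, tb8, tb10, tb6, tb14, tb16, tb6, tb4, tb2, tb6, tb8, tb10, tb6, tb14, tb16]) 0 20900 220 rel45_95 h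
  have h := PR.allR_chain (PR.fixF [tb6, tb4, tb2, tb6, tb8, tb10, tb6, tb14, tb16, tb6, tb4, tb2, tb6, tb8, tb10, tb6, tb14, tb16, tb6, tb4, tb2, tb6, tb8, tb10, tb6, tb14, tb16, tb6, tb4, tb2, tb6, tb8, tb10, tb6, tb14, tb16, tb6, tb4, tb2, tb6, tb8, tb10, tb6, tb14, tb16, tb6, tb4, tb2, tb6, tb8, tb10, tb6, tb14, tb16, tb6, tb4, tb2, tb6, tb8, tb10, tb6, tb14, tb16, tb6, tb4, tb2, tb6, tb8, tb10, tb6, tb14, tb16, tb6, tb4, tb2, tb6, tb8, tb10, tb6, tb14, tb16, tb6, tb4, tb2, tb6, tb8, tb10, tb6, tb14, tb16]) 0 21120 220 rel45_96 h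
  have h := PR.allR_chain (PR.fixF [tb6, tb4, tb2, tb6, tb8, tb10, tb6, tb14, tb16, tb6, tb4, tb2, tb6, tb8, tb10, tb6, tb14, tb16, tb6, tb4, tb2, tb6, tb8, tb10, tb6, tb14, tb16, tb6, tb4, tb2, tb6, tb8, tb10, tb6, tb14, tb16, tb6, tb4, tb2, tb6, tb8, tb10, tb6, tb14, tb16, tb6, tb4, tb2, tb6, tb8, tb10, tb6, tb14, tb16, tb6, tb4, tb2, tb6, tb8, tb10, tb6, tb14, tb16, tb6, tb4, tb2, tb6, tb8, tb10, tb6, tb14, tb16, tb6, tb4, tb2, tb6, tb8, tb10, tb6, tb14, tb16, tb6, tb4, tb2, tb6, tb8, tb10, tb6, tb14, tb16]) 0 21340 220 rel45_97 h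
  have h := PR.allR_chain (PR.fixF [tb6, tb4, tb2, tb6, tb8, tb10, tb6, tb14, tb16, tb6, tb4, tb2, tb6, tb8, tb10, tb6, tb14, tb16, tb6, tb4, tb2, tb6, tb8, tb10, tb6, tb14, tb16, tb6, tb4, tb2, tb6, tb8, tb10, tb6, tb14, tb16, tb6, tb4, tb2, tb6, tb8, tb10, tb6, tb14, tb16, tb6, tb4, tb2, tb6, tb8, tb10, tb6, tb14, tb16, tb6, tb4, tb2, tb6, tb8, tb10, tb6, tb14, tb16, tb6, tb4, tb2, tb6, tb8, tb10, tb6, tb14, tb16, tb6, tb4, tb2, tb6, tb8, tb10, tb6, tb14, tb16, tb6, tb4, tb2, tb6, tb8, tb10, tb6, tb14, tb16]) 0 21560 220 rel45_98 h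
  have h := PR.allR_chain (PR.fixF [tb6, tb4, tb2, tb6, tb8, tb10, tb6, tb14, tb16, tb6, tb4, tb2, tb6, tb8, tb10, tb6, tb14, tb16, tb6, tb4, tb2, tb6, tb8, tb10, tb6, tb14, tb16, tb6, tb4, tb2, tb6, tb8, tb10, tb6, tb14, tb16, tb6, tb4, tb2, tb6, tb8, tb10, tb6, tb14, tb16, tb6, tb4, tb2, tb6, tb8, tb10, tb6, tb14, tb16, tb6, tb4, tb2, tb6, tb8, tb10, tb6, tb14, tb16, tb6, tb4, tb2, tb6, tb8, tb10, tb6, tb14, tb16, tb6, tb4, tb2, tb6, tb8, tb10, tb6, tb14, tb16, tb6, tb4, tb2, tb6, tb8, tb10, tb6, tb14, tb16]) 0 21780 220 rel45_99 h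
  have h := PR.allR_chain (PR.fixF [tb6, tb4, tb2, tb6, tb8, tb10, tb6, tb14, tb16, tb6, tb4, tb2, tb6, tb8, tb10, tb6, tb14, tb16, tb6, tb4, tb2, tb6, tb8, tb10, tb6, tb14, tb16, tb6, tb4, tb2, tb6, tb8, tb10, tb6, tb14, tb16, tb6, tb4, tb2, tb6, tb8, tb10, tb6, tb14, tb16, tb6, tb4, tb2, tb6, tb8, tb10, tb6, tb14, tb16, tb6, tb4, tb2, tb6, tb8, tb10, tb6, tb14, tb16, tb6, tb4, tb2, tb6, tb8, tb10, tb6, tb14, tb16, tb6, tb4, tb2, tb6, tb8, tb10, tb6, tb14, tb16, tb6, tb4, tb2, tb6, tb8, tb10, tb6, tb14, tb16]) 0 22000 220 rel45_100 h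
  have h := PR.allR_chain (PR.fixF [tb6, tb4, tb2, tb6, tb8, tb10, tb6, tb14, tb16, tb6, tb4, tb2, tb6, tb8, tb10, tb6, tb14, tb16, tb6, tb4, tb2, tb6, tb8, tb10, tb6, tb14, tb16, tb6, tb4, tb2, tb6, tb8, tb10, tb6, tb14, tb16, tb6, tb4, tb2, tb6, tb8, tb10, tb6, tb14, tb16, tb6, tb4, tb2, tb6, tb8, tb10, tb6, tb14, tb16, tb6, tb4, tb2, tb6, tb8, tb10, tb6, tb14, tb16, tb6, tb4, tb2, tb6, tb8, tb10, tb6, tb14, tb16, tb6, tb4, tb2, tb6, tb8, tb10, tb6, tb14, tb16, tb6, tb4, tb2, tb6, tb8, tb10, tb6, tb14, tb16]) 0 22220 220 rel45_101 h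
  have h := PR.allR_chain (PR.fixF [tb6, tb4, tb2, tb6, tb8, tb10, tb6, tb14, tb16, tb6, tb4, tb2, tb6, tb8, tb10, tb6, tb14, tb16, tb6, tb4, tb2, tb6, tb8, tb10, tb6, tb14, tb16, tb6, tb4, tb2, tb6, tb8, tb10, tb6, tb14, tb16, tb6, tb4, tb2, tb6, tb8, tb10, tb6, tb14, tb16, tb6, tb4, tb2, tb6, tb8, tb10, tb6, tb14, tb16, tb6, tb4, tb2, tb6, tb8, tb10, tb6, tb14, tb16, tb6, tb4, tb2, tb6, tb8, tb10, tb6, tb14, tb16, tb6, tb4, tb2, tb6, tb8, tb10, tb6, tb14, tb16, tb6, tb4, tb2, tb6, tb8, tb10, tb6, tb14, tb16]) 0 22440 220 rel45_102 h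
  have h := PR.allR_chain (PR.fixF [tb6, tb4, tb2, tb6, tb8, tb10, tb6, tb14, tb16, tb6, tb4, tb2, tb6, tb8, tb10, tb6, tb14, tb16, tb6, tb4, tb2, tb6, tb8, tb10, tb6, tb14, tb16, tb6, tb4, tb2, tb6, tb8, tb10, tb6, tb14, tb16, tb6, tb4, tb2, tb6, tb8, tb10, tb6, tb14, tb16, tb6, tb4, tb2, tb6, tb8, tb10, tb6, tb14, tb16, tb6, tb4, tb2, tb6, tb8, tb10, tb6, tb14, tb16, tb6, tb4, tb2, tb6, tb8, tb10, tb6, tb14, tb16, tb6, tb4, tb2, tb6, tb8, tb10, tb6, tb14, tb16, tb6, tb4, tb2, tb6, tb8, tb10, tb6, tb14, tb16]) 0 22660 220 rel45_103 h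
  have h := PR.allR_chain (PR.fixF [tb6, tb4, tb2, tb6, tb8, tb10, tb6, tb14, tb16, tb6, tb4, tb2, tb6, tb8, tb10, tb6, tb14, tb16, tb6, tb4, tb2, tb6, tb8, tb10, tb6, tb14, tb16, tb6, tb4, tb2, tb6, tb8, tb10, tb6, tb14, tb16, tb6, tb4, tb2, tb6, tb8, tb10, tb6, tb14, tb16, tb6, tb4, tb2, tb6, tb8, tb10, tb6, tb14, tb16, tb6, tb4, tb2, tb6, tb8, tb10, tb6, tb14, tb16, tb6, tb4, tb2, tb6, tb8, tb10, tb6, tb14, tb16, tb6, tb4, tb2, tb6, tb8, tb10, tb6, tb14, tb16, tb6, tb4, tb2, tb6, tb8, tb10, tb6, tb14, tb16]) 0 22880 220 rel45_104 h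
  have h := PR.allR_chain (PR.fixF [tb6, tb4, tb2, tb6, tb8, tb10, tb6, tb14, tb16, tb6, tb4, tb2, tb6, tb8, tb10, tb6, tb14, tb16, tb6, tb4, tb2, tb6, tb8, tb10, tb6, tb14, tb16, tb6, tb4, tb2, tb6, tb8, tb10, tb6, tb14, tb16, tb6, tb4, tb2, tb6, tb8, tb10, tb6, tb14, tb16, tb6, tb4, tb2, tb6, tb8, tb10, tb6, tb14, tb16, tb6, tb4, tb2, tb6, tb8, tb10, tb6, tb14, tb16, tb6, tb4, tb2, tb6, tb8, tb10, tb6, tb14, tb16, tb6, tb4, tb2, tb6, tb8, tb10, tb6, tb14, tb16, tb6, tb4, tb2, tb6, tb8, tb10, tb6, tb14, tb16]) 0 23100 220 rel45_105 h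
  have h := PR.allR_chain (PR.fixF [tb6, tb4, tb2, tb6, tb8, tb10, tb6, tb14, tb16, tb6, tb4, tb2, tb6, tb8, tb10, tb6, tb14, tb16, tb6, tb4, tb2, tb6, tb8, tb10, tb6, tb14, tb16, tb6, tb4, tb2, tb6, tb8, tb10, tb6, tb14, tb16, tb6, tb4, tb2, tb6, tb8, tb10, tb6, tb14, tb16, tb6, tb4, tb2, tb6, tb8, tb10, tb6, tb14, tb16, tb6, tb4, tb2, tb6, tb8, tb10, tb6, tb14, tb16, tb6, tb4, tb2, tb6, tb8, tb10, tb6, tb14, tb16, tb6, tb4, tb2, tb6, tb8, tb10, tb6, tb14, tb16, tb6, tb4, tb2, tb6, tb8, tb10, tb6, tb14, tb16]) 0 23320 220 rel45_106 h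
  have h := PR.allR_chain (PR.fixF [tb6, tb4, tb2, tb6, tb8, tb10, tb6, tb14, tb16, tb6, tb4, tb2, tb6, tb8, tb10, tb6, tb14, tb16, tb6, tb4, tb2, tb6, tb8, tb10, tb6, tb14, tb16, tb6, tb4, tb2, tb6, tb8, tb10, tb6, tb14, tb16, tb6, tb4, tb2, tb6, tb8, tb10, tb6, tb14, tb16, tb6, tb4, tb2, tb6, tb8, tb10, tb6, tb14, tb16, tb6, tb4, tb2, tb6, tb8, tb10, tb6, tb14, tb16, tb6, tb4, tb2, tb6, tb8, tb10, tb6, tb14, tb16, tb6, tb4, tb2, tb6, tb8, tb10, tb6, tb14, tb16, tb6, tb4, tb2, tb6, tb8, tb10, tb6, tb14, tb16]) 0 23540 220 rel45_107 h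
  have h := PR.allR_chain (PR.fixF [tb6, tb4, tb2, tb6, tb8, tb10, tb6, tb14, tb16, tb6, tb4, tb2, tb6, tb8, tb10, tb6, tb14, tb16, tb6, tb4, tb2, tb6, tb8, tb10, tb6, tb14, tb16, tb6, tb4, tb2, tb6, tb8, tb10, tb6, tb14, tb16, tb6, tb4, tb2, tb6, tb8, tb10, tb6, tb14, tb16, tb6, tb4, tb2, tb6, tb8, tb10, tb6, tb14, tb16, tb6, tb4, tb2, tb6, tb8, tb10, tb6, tb14, tb16, tb6, tb4, tb2, tb6, tb8, tb10, tb6, tb14, tb16, tb6, tb4, tb2, tb6, tb8, tb10, tb6, tb14, tb16, tb6, tb4, tb2, tb6, tb8, tb10, tb6, tb14, tb16]) 0 23760 220 rel45_108 h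
  have h := PR.allR_chain (PR.fixF [tb6, tb4, tb2, tb6, tb8, tb10, tb6, tb14, tb16, tb6, tb4, tb2, tb6, tb8, tb10, tb6, tb14, tb16, tb6, tb4, tb2, tb6, tb8, tb10, tb6, tb14, tb16, tb6, tb4, tb2, tb6, tb8, tb10, tb6, tb14, tb16, tb6, tb4, tb2, tb6, tb8, tb10, tb6, tb14, tb16, tb6, tb4, tb2, tb6, tb8, tb10, tb6, tb14, tb16, tb6, tb4, tb2, tb6, tb8, tb10, tb6, tb14, tb16, tb6, tb4, tb2, tb6, tb8, tb10, tb6, tb14, tb16, tb6, tb4, tb2, tb6, tb8, tb10, tb6, tb14, tb16, tb6, tb4, tb2, tb6, tb8, tb10, tb6, tb14, tb16]) 0 23980 220 rel45_109 h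
  have h := PR.allR_chain (PR.fixF [tb6, tb4, tb2, tb6, tb8, tb10, tb6, tb14, tb16, tb6, tb4, tb2, tb6, tb8, tb10, tb6, tb14, tb16, tb6, tb4, tb2, tb6, tb8, tb10, tb6, tb14, tb16, tb6, tb4, tb2, tb6, tb8, tb10, tb6, tb14, tb16, tb6, tb4, tb2, tb6, tb8, tb10, tb6, tb14, tb16, tb6, tb4, tb2, tb6, tb8, tb10, tb6, tb14, tb16, tb6, tb4, tb2, tb6, tb8, tb10, tb6, tb14, tb16, tb6, tb4, tb2, tb6, tb8, tb10, tb6, tb14, tb16, tb6, tb4, tb2, tb6, tb8, tb10, tb6, tb14, tb16, tb6, tb4, tb2, tb6, tb8, tb10, tb6, tb14, tb16]) 0 24200 220 rel45_110 h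
  have h := PR.allR_chain (PR.fixF [tb6, tb4, tb2, tb6, tb8, tb10, tb6, tb14, tb16, tb6, tb4, tb2, tb6, tb8, tb10, tb6, tb14, tb16, tb6, tb4, tb2, tb6, tb8, tb10, tb6, tb14, tb16, tb6, tb4, tb2, tb6, tb8, tb10, tb6, tb14, tb16, tb6, tb4, tb2, tb6, tb8, tb10, tb6, tb14, tb16, tb6, tb4, tb2, tb6, tb8, tb10, tb6, tb14, tb16, tb6, tb4, tb2, tb6, tb8, tb10, tb6, tb14, tb16, tb6, tb4, tb2, tb6, tb8, tb10, tb6, tb14, tb16, tb6, tb4, tb2, tb6, tb8, tb10, tb6, tb14, tb16, tb6, tb4, tb2, tb6, tb8, tb10, tb6, tb14, tb16]) 0 24420 220 rel45_111 h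
  have h := PR.allR_chain (PR.fixF [tb6, tb4, tb2, tb6, tb8, tb10, tb6, tb14, tb16, tb6, tb4, tb2, tb6, tb8, tb10, tb6, tb14, tb16, tb6, tb4, tb2, tb6, tb8, tb10, tb6, tb14, tb16, tb6, tb4, tb2, tb6, tb8, tb10, tb6, tb14, tb16, tb6, tb4, tb2, tb6, tb8, tb10, tb6, tb14, tb16, tb6, tb4, tb2, tb6, tb8, tb10, tb6, tb14, tb16, tb6, tb4, tb2, tb6, tb8, tb10, tb6, tb14, tb16, tb6, tb4, tb2, tb6, tb8, tb10, tb6, tb14, tb16, tb6, tb4, tb2, tb6, tb8, tb10, tb6, tb14, tb16, tb6, tb4, tb2, tb6, tb8, tb10, tb6, tb14, tb16]) 0 24640 220 rel45_112 h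
  have h := PR.allR_chain (PR.fixF [tb6, tb4, tb2, tb6, tb8, tb10, tb6, tb14, tb16, tb6, tb4, tb2, tb6, tb8, tb10, tb6, tb14, tb16, tb6, tb4, tb2, tb6, tb8, tb10, tb6, tb14, tb16, tb6, tb4, tb2, tb6, tb8, tb10, tb6, tb14, tb16, tb6, tb4, tb2, tb6, tb8, tb10, tb6, tb14, tb16, tb6, tb4, tb2, tb6, tb8, tb10, tb6, tb14, tb16, tb6, tb4, tb2, tb6, tb8, tb10, tb6, tb14, tb16, tb6, tb4, tb2, tb6, tb8, tb10, tb6, tb14, tb16, tb6, tb4, tb2, tb6, tb8, tb10, tb6, tb14, tb16, tb6, tb4, tb2, tb6, tb8, tb10, tb6, tb14, tb16]) 0 24860 220 rel45_113 h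
  have h := PR.allR_chain (PR.fixF [tb6, tb4, tb2, tb6, tb8, tb10, tb6, tb14, tb16, tb6, tb4, tb2, tb6, tb8, tb10, tb6, tb14, tb16, tb6, tb4, tb2, tb6, tb8, tb10, tb6, tb14, tb16, tb6, tb4, tb2, tb6, tb8, tb10, tb6, tb14, tb16, tb6, tb4, tb2, tb6, tb8, tb10, tb6, tb14, tb16, tb6, tb4, tb2, tb6, tb8, tb10, tb6, tb14, tb16, tb6, tb4, tb2, tb6, tb8, tb10, tb6, tb14, tb16, tb6, tb4, tb2, tb6, tb8, tb10, tb6, tb14, tb16, tb6, tb4, tb2, tb6, tb8, tb10, tb6, tb14, tb16, tb6, tb4, tb2, tb6, tb8, tb10, tb6, tb14, tb16]) 0 25080 220 rel45_114 h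
  have h := PR.allR_chain (PR.fixF [tb6, tb4, tb2, tb6, tb8, tb10, tb6, tb14, tb16, tb6, tb4, tb2, tb6, tb8, tb10, tb6, tb14, tb16, tb6, tb4, tb2, tb6, tb8, tb10, tb6, tb14, tb16, tb6, tb4, tb2, tb6, tb8, tb10, tb6, tb14, tb16, tb6, tb4, tb2, tb6, tb8, tb10, tb6, tb14, tb16, tb6, tb4, tb2, tb6, tb8, tb10, tb6, tb14, tb16, tb6, tb4, tb2, tb6, tb8, tb10, tb6, tb14, tb16, tb6, tb4, tb2, tb6, tb8, tb10, tb6, tb14, tb16, tb6, tb4, tb2, tb6, tb8, tb10, tb6, tb14, tb16, tb6, tb4, tb2, tb6, tb8, tb10, tb6, tb14, tb16]) 0 25300 220 rel45_115 h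
  have h := PR.allR_chain (PR.fixF [tb6, tb4, tb2, tb6, tb8, tb10, tb6, tb14, tb16, tb6, tb4, tb2, tb6, tb8, tb10, tb6, tb14, tb16, tb6, tb4, tb2, tb6, tb8, tb10, tb6, tb14, tb16, tb6, tb4, tb2, tb6, tb8, tb10, tb6, tb14, tb16, tb6, tb4, tb2, tb6, tb8, tb10, tb6, tb14, tb16, tb6, tb4, tb2, tb6, tb8, tb10, tb6, tb14, tb16, tb6, tb4, tb2, tb6, tb8, tb10, tb6, tb14, tb16, tb6, tb4, tb2, tb6, tb8, tb10, tb6, tb14, tb16, tb6, tb4, tb2, tb6, tb8, tb10, tb6, tb14, tb16, tb6, tb4, tb2, tb6, tb8, tb10, tb6, tb14, tb16]) 0 25520 220 rel45_116 h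
  have h := PR.allR_chain (PR.fixF [tb6, tb4, tb2, tb6, tb8, tb10, tb6, tb14, tb16, tb6, tb4, tb2, tb6, tb8, tb10, tb6, tb14, tb16, tb6, tb4, tb2, tb6, tb8, tb10, tb6, tb14, tb16, tb6, tb4, tb2, tb6, tb8, tb10, tb6, tb14, tb16, tb6, tb4, tb2, tb6, tb8, tb10, tb6, tb14, tb16, tb6, tb4, tb2, tb6, tb8, tb10, tb6, tb14, tb16, tb6, tb4, tb2, tb6, tb8, tb10, tb6, tb14, tb16, tb6, tb4, tb2, tb6, tb8, tb10, tb6, tb14, tb16, tb6, tb4, tb2, tb6, tb8, tb10, tb6, tb14, tb16, tb6, tb4, tb2, tb6, tb8, tb10, tb6, tb14, tb16]) 0 25740 220 rel45_117 h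
  have h := PR.allR_chain (PR.fixF [tb6, tb4, tb2, tb6, tb8, tb10, tb6, tb14, tb16, tb6, tb4, tb2, tb6, tb8, tb10, tb6, tb14, tb16, tb6, tb4, tb2, tb6, tb8, tb10, tb6, tb14, tb16, tb6, tb4, tb2, tb6, tb8, tb10, tb6, tb14, tb16, tb6, tb4, tb2, tb6, tb8, tb10, tb6, tb14, tb16, tb6, tb4, tb2, tb6, tb8, tb10, tb6, tb14, tb16, tb6, tb4, tb2, tb6, tb8, tb10, tb6, tb14, tb16, tb6, tb4, tb2, tb6, tb8, tb10, tb6, tb14, tb16, tb6, tb4, tb2, tb6, tb8, tb10, tb6, tb14, tb16, tb6, tb4, tb2, tb6, tb8, tb10, tb6, tb14, tb16]) 0 25960 220 rel45_118 h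
  have h := PR.allR_chain (PR.fixF [tb6, tb4, tb2, tb6, tb8, tb10, tb6, tb14, tb16, tb6, tb4, tb2, tb6, tb8, tb10, tb6, tb14, tb16, tb6, tb4, tb2, tb6, tb8, tb10, tb6, tb14, tb16, tb6, tb4, tb2, tb6, tb8, tb10, tb6, tb14, tb16, tb6, tb4, tb2, tb6, tb8, tb10, tb6, tb14, tb16, tb6, tb4, tb2, tb6, tb8, tb10, tb6, tb14, tb16, tb6, tb4, tb2, tb6, tb8, tb10, tb6, tb14, tb16, tb6, tb4, tb2, tb6, tb8, tb10, tb6, tb14, tb16, tb6, tb4, tb2, tb6, tb8, tb10, tb6, tb14, tb16, tb6, tb4, tb2, tb6, tb8, tb10, tb6, tb14, tb16]) 0 26180 220 rel45_119 h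
  have h := PR.allR_chain (PR.fixF [tb6, tb4, tb2, tb6, tb8, tb10, tb6, tb14, tb16, tb6, tb4, tb2, tb6, tb8, tb10, tb6, tb14, tb16, tb6, tb4, tb2, tb6, tb8, tb10, tb6, tb14, tb16, tb6, tb4, tb2, tb6, tb8, tb10, tb6, tb14, tb16, tb6, tb4, tb2, tb6, tb8, tb10, tb6, tb14, tb16, tb6, tb4, tb2, tb6, tb8, tb10, tb6, tb14, tb16, tb6, tb4, tb2, tb6, tb8, tb10, tb6, tb14, tb16, tb6, tb4, tb2, tb6, tb8, tb10, tb6, tb14, tb16, tb6, tb4, tb2, tb6, tb8, tb10, tb6, tb14, tb16, tb6, tb4, tb2, tb6, tb8, tb10, tb6, tb14, tb16]) 0 26400 220 rel45_120 h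
  have h := PR.allR_chain (PR.fixF [tb6, tb4, tb2, tb6, tb8, tb10, tb6, tb14, tb16, tb6, tb4, tb2, tb6, tb8, tb10, tb6, tb14, tb16, tb6, tb4, tb2, tb6, tb8, tb10, tb6, tb14, tb16, tb6, tb4, tb2, tb6, tb8, tb10, tb6, tb14, tb16, tb6, tb4, tb2, tb6, tb8, tb10, tb6, tb14, tb16, tb6, tb4, tb2, tb6, tb8, tb10, tb6, tb14, tb16, tb6, tb4, tb2, tb6, tb8, tb10, tb6, tb14, tb16, tb6, tb4, tb2, tb6, tb8, tb10, tb6, tb14, tb16, tb6, tb4, tb2, tb6, tb8, tb10, tb6, tb14, tb16, tb6, tb4, tb2, tb6, tb8, tb10, tb6, tb14, tb16]) 0 26620 220 rel45_121 h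
  have h := PR.allR_chain (PR.fixF [tb6, tb4, tb2, tb6, tb8, tb10, tb6, tb14, tb16, tb6, tb4, tb2, tb6, tb8, tb10, tb6, tb14, tb16, tb6, tb4, tb2, tb6, tb8, tb10, tb6, tb14, tb16, tb6, tb4, tb2, tb6, tb8, tb10, tb6, tb14, tb16, tb6, tb4, tb2, tb6, tb8, tb10, tb6, tb14, tb16, tb6, tb4, tb2, tb6, tb8, tb10, tb6, tb14, tb16, tb6, tb4, tb2, tb6, tb8, tb10, tb6, tb14, tb16, tb6, tb4, tb2, tb6, tb8, tb10, tb6, tb14, tb16, tb6, tb4, tb2, tb6, tb8, tb10, tb6, tb14, tb16, tb6, tb4, tb2, tb6, tb8, tb10, tb6, tb14, tb16]) 0 26840 220 rel45_122 h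
  have h := PR.allR_chain (PR.fixF [tb6, tb4, tb2, tb6, tb8, tb10, tb6, tb14, tb16, tb6, tb4, tb2, tb6, tb8, tb10, tb6, tb14, tb16, tb6, tb4, tb2, tb6, tb8, tb10, tb6, tb14, tb16, tb6, tb4, tb2, tb6, tb8, tb10, tb6, tb14, tb16, tb6, tb4, tb2, tb6, tb8, tb10, tb6, tb14, tb16, tb6, tb4, tb2, tb6, tb8, tb10, tb6, tb14, tb16, tb6, tb4, tb2, tb6, tb8, tb10, tb6, tb14, tb16, tb6, tb4, tb2, tb6, tb8, tb10, tb6, tb14, tb16, tb6, tb4, tb2, tb6, tb8, tb10, tb6, tb14, tb16, tb6, tb4, tb2, tb6, tb8, tb10, tb6, tb14, tb16]) 0 27060 220 rel45_123 h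
  have h := PR.allR_chain (PR.fixF [tb6, tb4, tb2, tb6, tb8, tb10, tb6, tb14, tb16, tb6, tb4, tb2, tb6, tb8, tb10, tb6, tb14, tb16, tb6, tb4, tb2, tb6, tb8, tb10, tb6, tb14, tb16, tb6, tb4, tb2, tb6, tb8, tb10, tb6, tb14, tb16, tb6, tb4, tb2, tb6, tb8, tb10, tb6, tb14, tb16, tb6, tb4, tb2, tb6, tb8, tb10, tb6, tb14, tb16, tb6, tb4, tb2, tb6, tb8, tb10, tb6, tb14, tb16, tb6, tb4, tb2, tb6, tb8, tb10, tb6, tb14, tb16, tb6, tb4, tb2, tb6, tb8, tb10, tb6, tb14, tb16, tb6, tb4, tb2, tb6, tb8, tb10, tb6, tb14, tb16]) 0 27280 220 rel45_124 h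
  have h := PR.allR_chain (PR.fixF [tb6, tb4, tb2, tb6, tb8, tb10, tb6, tb14, tb16, tb6, tb4, tb2, tb6, tb8, tb10, tb6, tb14, tb16, tb6, tb4, tb2, tb6, tb8, tb10, tb6, tb14, tb16, tb6, tb4, tb2, tb6, tb8, tb10, tb6, tb14, tb16, tb6, tb4, tb2, tb6, tb8, tb10, tb6, tb14, tb16, tb6, tb4, tb2, tb6, tb8, tb10, tb6, tb14, tb16, tb6, tb4, tb2, tb6, tb8, tb10, tb6, tb14, tb16, tb6, tb4, tb2, tb6, tb8, tb10, tb6, tb14, tb16, tb6, tb4, tb2, tb6, tb8, tb10, tb6, tb14, tb16, tb6, tb4, tb2, tb6, tb8, tb10, tb6, tb14, tb16]) 0 27500 220 rel45_125 h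
  have h := PR.allR_chain (PR.fixF [tb6, tb4, tb2, tb6, tb8, tb10, tb6, tb14, tb16, tb6, tb4, tb2, tb6, tb8, tb10, tb6, tb14, tb16, tb6, tb4, tb2, tb6, tb8, tb10, tb6, tb14, tb16, tb6, tb4, tb2, tb6, tb8, tb10, tb6, tb14, tb16, tb6, tb4, tb2, tb6, tb8, tb10, tb6, tb14, tb16, tb6, tb4, tb2, tb6, tb8, tb10, tb6, tb14, tb16, tb6, tb4, tb2, tb6, tb8, tb10, tb6, tb14, tb16, tb6, tb4, tb2, tb6, tb8, tb10, tb6, tb14, tb16, tb6, tb4, tb2, tb6, tb8, tb10, tb6, tb14, tb16, tb6, tb4, tb2, tb6, tb8, tb10, tb6, tb14, tb16]) 0 27720 220 rel45_126 h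
  have h := PR.allR_chain (PR.fixF [tb6, tb4, tb2, tb6, tb8, tb10, tb6, tb14, tb16, tb6, tb4, tb2, tb6, tb8, tb10, tb6, tb14, tb16, tb6, tb4, tb2, tb6, tb8, tb10, tb6, tb14, tb16, tb6, tb4, tb2, tb6, tb8, tb10, tb6, tb14, tb16, tb6, tb4, tb2, tb6, tb8, tb10, tb6, tb14, tb16, tb6, tb4, tb2, tb6, tb8, tb10, tb6, tb14, tb16, tb6, tb4, tb2, tb6, tb8, tb10, tb6, tb14, tb16, tb6, tb4, tb2, tb6, tb8, tb10, tb6, tb14, tb16, tb6, tb4, tb2, tb6, tb8, tb10, tb6, tb14, tb16, tb6, tb4, tb2, tb6, tb8, tb10, tb6, tb14, tb16]) 0 27940 220 rel45_127 h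
  have h := PR.allR_chain (PR.fixF [tb6, tb4, tb2, tb6, tb8, tb10, tb6, tb14, tb16, tb6, tb4, tb2, tb6, tb8, tb10, tb6, tb14, tb16, tb6, tb4, tb2, tb6, tb8, tb10, tb6, tb14, tb16, tb6, tb4, tb2, tb6, tb8, tb10, tb6, tb14, tb16, tb6, tb4, tb2, tb6, tb8, tb10, tb6, tb14, tb16, tb6, tb4, tb2, tb6, tb8, tb10, tb6, tb14, tb16, tb6, tb4, tb2, tb6, tb8, tb10, tb6, tb14, tb16, tb6, tb4, tb2, tb6, tb8, tb10, tb6, tb14, tb16, tb6, tb4, tb2, tb6, tb8, tb10, tb6, tb14, tb16, tb6, tb4, tb2, tb6, tb8, tb10, tb6, tb14, tb16]) 0 28160 220 rel45_128 h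
  have h := PR.allR_chain (PR.fixF [tb6, tb4, tb2, tb6, tb8, tb10, tb6, tb14, tb16, tb6, tb4, tb2, tb6, tb8, tb10, tb6, tb14, tb16, tb6, tb4, tb2, tb6, tb8, tb10, tb6, tb14, tb16, tb6, tb4, tb2, tb6, tb8, tb10, tb6, tb14, tb16, tb6, tb4, tb2, tb6, tb8, tb10, tb6, tb14, tb16, tb6, tb4, tb2, tb6, tb8, tb10, tb6, tb14, tb16, tb6, tb4, tb2, tb6, tb8, tb10, tb6, tb14, tb16, tb6, tb4, tb2, tb6, tb8, tb10, tb6, tb14, tb16, tb6, tb4, tb2, tb6, tb8, tb10, tb6, tb14, tb16, tb6, tb4, tb2, tb6, tb8, tb10, tb6, tb14, tb16]) 0 28380 220 rel45_129 h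
  have h := PR.allR_chain (PR.fixF [tb6, tb4, tb2, tb6, tb8, tb10, tb6, tb14, tb16, tb6, tb4, tb2, tb6, tb8, tb10, tb6, tb14, tb16, tb6, tb4, tb2, tb6, tb8, tb10, tb6, tb14, tb16, tb6, tb4, tb2, tb6, tb8, tb10, tb6, tb14, tb16, tb6, tb4, tb2, tb6, tb8, tb10, tb6, tb14, tb16, tb6, tb4, tb2, tb6, tb8, tb10, tb6, tb14, tb16, tb6, tb4, tb2, tb6, tb8, tb10, tb6, tb14, tb16, tb6, tb4, tb2, tb6, tb8, tb10, tb6, tb14, tb16, tb6, tb4, tb2, tb6, tb8, tb10, tb6, tb14, tb16, tb6, tb4, tb2, tb6, tb8, tb10, tb6, tb14, tb16]) 0 28600 220 rel45_130 h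
  have h := PR.allR_chain (PR.fixF [tb6, tb4, tb2, tb6, tb8, tb10, tb6, tb14, tb16, tb6, tb4, tb2, tb6, tb8, tb10, tb6, tb14, tb16, tb6, tb4, tb2, tb6, tb8, tb10, tb6, tb14, tb16, tb6, tb4, tb2, tb6, tb8, tb10, tb6, tb14, tb16, tb6, tb4, tb2, tb6, tb8, tb10, tb6, tb14, tb16, tb6, tb4, tb2, tb6, tb8, tb10, tb6, tb14, tb16, tb6, tb4, tb2, tb6, tb8, tb10, tb6, tb14, tb16, tb6, tb4, tb2, tb6, tb8, tb10, tb6, tb14, tb16, tb6, tb4, tb2, tb6, tb8, tb10, tb6, tb14, tb16, tb6, tb4, tb2, tb6, tb8, tb10, tb6, tb14, tb16]) 0 28820 220 rel45_131 h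
  have h := PR.allR_chain (PR.fixF [tb6, tb4, tb2, tb6, tb8, tb10, tb6, tb14, tb16, tb6, tb4, tb2, tb6, tb8, tb10, tb6, tb14, tb16, tb6, tb4, tb2, tb6, tb8, tb10, tb6, tb14, tb16, tb6, tb4, tb2, tb6, tb8, tb10, tb6, tb14, tb16, tb6, tb4, tb2, tb6, tb8, tb10, tb6, tb14, tb16, tb6, tb4, tb2, tb6, tb8, tb10, tb6, tb14, tb16, tb6, tb4, tb2, tb6, tb8, tb10, tb6, tb14, tb16, tb6, tb4, tb2, tb6, tb8, tb10, tb6, tb14, tb16, tb6, tb4, tb2, tb6, tb8, tb10, tb6, tb14, tb16, tb6, tb4, tb2, tb6, tb8, tb10, tb6, tb14, tb16]) 0 29040 220 rel45_132 h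
  have h := PR.allR_chain (PR.fixF [tb6, tb4, tb2, tb6, tb8, tb10, tb6, tb14, tb16, tb6, tb4, tb2, tb6, tb8, tb10, tb6, tb14, tb16, tb6, tb4, tb2, tb6, tb8, tb10, tb6, tb14, tb16, tb6, tb4, tb2, tb6, tb8, tb10, tb6, tb14, tb16, tb6, tb4, tb2, tb6, tb8, tb10, tb6, tb14, tb16, tb6, tb4, tb2, tb6, tb8, tb10, tb6, tb14, tb16, tb6, tb4, tb2, tb6, tb8, tb10, tb6, tb14, tb16, tb6, tb4, tb2, tb6, tb8, tb10, tb6, tb14, tb16, tb6, tb4, tb2, tb6, tb8, tb10, tb6, tb14, tb16, tb6, tb4, tb2, tb6, tb8, tb10, tb6, tb14, tb16]) 0 29260 220 rel45_133 h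
  have h := PR.allR_chain (PR.fixF [tb6, tb4, tb2, tb6, tb8, tb10, tb6, tb14, tb16, tb6, tb4, tb2, tb6, tb8, tb10, tb6, tb14, tb16, tb6, tb4, tb2, tb6, tb8, tb10, tb6, tb14, tb16, tb6, tb4, tb2, tb6, tb8, tb10, tb6, tb14, tb16, tb6, tb4, tb2, tb6, tb8, tb10, tb6, tb14, tb16, tb6, tb4, tb2, tb6, tb8, tb10, tb6, tb14, tb16, tb6, tb4, tb2, tb6, tb8, tb10, tb6, tb14, tb16, tb6, tb4, tb2, tb6, tb8, tb10, tb6, tb14, tb16, tb6, tb4, tb2, tb6, tb8, tb10, tb6, tb14, tb16, tb6, tb4, tb2, tb6, tb8, tb10, tb6, tb14, tb16]) 0 29480 220 rel45_134 h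
  have h := PR.allR_chain (PR.fixF [tb6, tb4, tb2, tb6, tb8, tb10, tb6, tb14, tb16, tb6, tb4, tb2, tb6, tb8, tb10, tb6, tb14, tb16, tb6, tb4, tb2, tb6, tb8, tb10, tb6, tb14, tb16, tb6, tb4, tb2, tb6, tb8, tb10, tb6, tb14, tb16, tb6, tb4, tb2, tb6, tb8, tb10, tb6, tb14, tb16, tb6, tb4, tb2, tb6, tb8, tb10, tb6, tb14, tb16, tb6, tb4, tb2, tb6, tb8, tb10, tb6, tb14, tb16, tb6, tb4, tb2, tb6, tb8, tb10, tb6, tb14, tb16, tb6, tb4, tb2, tb6, tb8, tb10, tb6, tb14, tb16, tb6, tb4, tb2, tb6, tb8, tb10, tb6, tb14, tb16]) 0 29700 220 rel45_135 h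
  have h := PR.allR_chain (PR.fixF [tb6, tb4, tb2, tb6, tb8, tb10, tb6, tb14, tb16, tb6, tb4, tb2, tb6, tb8, tb10, tb6, tb14, tb16, tb6, tb4, tb2, tb6, tb8, tb10, tb6, tb14, tb16, tb6, tb4, tb2, tb6, tb8, tb10, tb6, tb14, tb16, tb6, tb4, tb2, tb6, tb8, tb10, tb6, tb14, tb16, tb6, tb4, tb2, tb6, tb8, tb10, tb6, tb14, tb16, tb6, tb4, tb2, tb6, tb8, tb10, tb6, tb14, tb16, tb6, tb4, tb2, tb6, tb8, tb10, tb6, tb14, tb16, tb6, tb4, tb2, tb6, tb8, tb10, tb6, tb14, tb16, tb6, tb4, tb2, tb6, tb8, tb10, tb6, tb14, tb16]) 0 29920 220 rel45_136 h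
  have h := PR.allR_chain (PR.fixF [tb6, tb4, tb2, tb6, tb8, tb10, tb6, tb14, tb16, tb6, tb4, tb2, tb6, tb8, tb10, tb6, tb14, tb16, tb6, tb4, tb2, tb6, tb8, tb10, tb6, tb14, tb16, tb6, tb4, tb2, tb6, tb8, tb10, tb6, tb14, tb16, tb6, tb4, tb2, tb6, tb8, tb10, tb6, tb14, tb16, tb6, tb4, tb2, tb6, tb8, tb10, tb6, tb14, tb16, tb6, tb4, tb2, tb6, tb8, tb10, tb6, tb14, tb16, tb6, tb4, tb2, tb6, tb8, tb10, tb6, tb14, tb16, tb6, tb4, tb2, tb6, tb8, tb10, tb6, tb14, tb16, tb6, tb4, tb2, tb6, tb8, tb10, tb6, tb14, tb16]) 0 30140 220 rel45_137 h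
  have h := PR.allR_chain (PR.fixF [tb6, tb4, tb2, tb6, tb8, tb10, tb6, tb14, tb16, tb6, tb4, tb2, tb6, tb8, tb10, tb6, tb14, tb16, tb6, tb4, tb2, tb6, tb8, tb10, tb6, tb14, tb16, tb6, tb4, tb2, tb6, tb8, tb10, tb6, tb14, tb16, tb6, tb4, tb2, tb6, tb8, tb10, tb6, tb14, tb16, tb6, tb4, tb2, tb6, tb8, tb10, tb6, tb14, tb16, tb6, tb4, tb2, tb6, tb8, tb10, tb6, tb14, tb16, tb6, tb4, tb2, tb6, tb8, tb10, tb6, tb14, tb16, tb6, tb4, tb2, tb6, tb8, tb10, tb6, tb14, tb16, tb6, tb4, tb2, tb6, tb8, tb10, tb6, tb14, tb16]) 0 30360 220 rel45_138 h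
  have h := PR.allR_chain (PR.fixF [tb6, tb4, tb2, tb6, tb8, tb10, tb6, tb14, tb16, tb6, tb4, tb2, tb6, tb8, tb10, tb6, tb14, tb16, tb6, tb4, tb2, tb6, tb8, tb10, tb6, tb14, tb16, tb6, tb4, tb2, tb6, tb8, tb10, tb6, tb14, tb16, tb6, tb4, tb2, tb6, tb8, tb10, tb6, tb14, tb16, tb6, tb4, tb2, tb6, tb8, tb10, tb6, tb14, tb16, tb6, tb4, tb2, tb6, tb8, tb10, tb6, tb14, tb16, tb6, tb4, tb2, tb6, tb8, tb10, tb6, tb14, tb16, tb6, tb4, tb2, tb6, tb8, tb10, tb6, tb14, tb16, tb6, tb4, tb2, tb6, tb8, tb10, tb6, tb14, tb16]) 0 30580 220 rel45_139 h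
  have h := PR.allR_chain (PR.fixF [tb6, tb4, tb2, tb6, tb8, tb10, tb6, tb14, tb16, tb6, tb4, tb2, tb6, tb8, tb10, tb6, tb14, tb16, tb6, tb4, tb2, tb6, tb8, tb10, tb6, tb14, tb16, tb6, tb4, tb2, tb6, tb8, tb10, tb6, tb14, tb16, tb6, tb4, tb2, tb6, tb8, tb10, tb6, tb14, tb16, tb6, tb4, tb2, tb6, tb8, tb10, tb6, tb14, tb16, tb6, tb4, tb2, tb6, tb8, tb10, tb6, tb14, tb16, tb6, tb4, tb2, tb6, tb8, tb10, tb6, tb14, tb16, tb6, tb4, tb2, tb6, tb8, tb10, tb6, tb14, tb16, tb6, tb4, tb2, tb6, tb8, tb10, tb6, tb14, tb16]) 0 30800 220 rel45_140 h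
  have h := PR.allR_chain (PR.fixF [tb6, tb4, tb2, tb6, tb8, tb10, tb6, tb14, tb16, tb6, tb4, tb2, tb6, tb8, tb10, tb6, tb14, tb16, tb6, tb4, tb2, tb6, tb8, tb10, tb6, tb14, tb16, tb6, tb4, tb2, tb6, tb8, tb10, tb6, tb14, tb16, tb6, tb4, tb2, tb6, tb8, tb10, tb6, tb14, tb16, tb6, tb4, tb2, tb6, tb8, tb10, tb6, tb14, tb16, tb6, tb4, tb2, tb6, tb8, tb10, tb6, tb14, tb16, tb6, tb4, tb2, tb6, tb8, tb10, tb6, tb14, tb16, tb6, tb4, tb2, tb6, tb8, tb10, tb6, tb14, tb16, tb6, tb4, tb2, tb6, tb8, tb10, tb6, tb14, tb16]) 0 31020 220 rel45_141 h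
  have h := PR.allR_chain (PR.fixF [tb6, tb4, tb2, tb6, tb8, tb10, tb6, tb14, tb16, tb6, tb4, tb2, tb6, tb8, tb10, tb6, tb14, tb16, tb6, tb4, tb2, tb6, tb8, tb10, tb6, tb14, tb16, tb6, tb4, tb2, tb6, tb8, tb10, tb6, tb14, tb16, tb6, tb4, tb2, tb6, tb8, tb10, tb6, tb14, tb16, tb6, tb4, tb2, tb6, tb8, tb10, tb6, tb14, tb16, tb6, tb4, tb2, tb6, tb8, tb10, tb6, tb14, tb16, tb6, tb4, tb2, tb6, tb8, tb10, tb6, tb14, tb16, tb6, tb4, tb2, tb6, tb8, tb10, tb6, tb14, tb16, tb6, tb4, tb2, tb6, tb8, tb10, tb6, tb14, tb16]) 0 31240 220 rel45_142 h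
  have h := PR.allR_chain (PR.fixF [tb6, tb4, tb2, tb6, tb8, tb10, tb6, tb14, tb16, tb6, tb4, tb2, tb6, tb8, tb10, tb6, tb14, tb16, tb6, tb4, tb2, tb6, tb8, tb10, tb6, tb14, tb16, tb6, tb4, tb2, tb6, tb8, tb10, tb6, tb14, tb16, tb6, tb4, tb2, tb6, tb8, tb10, tb6, tb14, tb16, tb6, tb4, tb2, tb6, tb8, tb10, tb6, tb14, tb16, tb6, tb4, tb2, tb6, tb8, tb10, tb6, tb14, tb16, tb6, tb4, tb2, tb6, tb8, tb10, tb6, tb14, tb16, tb6, tb4, tb2, tb6, tb8, tb10, tb6, tb14, tb16, tb6, tb4, tb2, tb6, tb8, tb10, tb6, tb14, tb16]) 0 31460 211 rel45_143 h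
  exact h

theorem rel46 : ∀ u, 0 ≤ u → u < 31671 → PR.fixF [tb0, tb2, tb4, tb6, tb8, tb10, tb14, tb0, tb2, tb4, tb6, tb8, tb10, tb14, tb0, tb2, tb4, tb6, tb8, tb10, tb14, tb0, tb2, tb4, tb6, tb8, tb10, tb14, tb0, tb2, tb4, tb6, tb8, tb10, tb14, tb0, tb2, tb4, tb6, tb8, tb10, tb14, tb0, tb2, tb4, tb6, tb8, tb10, tb14, tb0, tb2, tb4, tb6, tb8, tb10, tb14, tb0, tb2, tb4, tb6, tb8, tb10, tb14] u = true := by
  have h : ∀ u, 0 ≤ u → u < 0 → PR.fixF [tb0, tb2, tb4, tb6, tb8, tb10, tb14, tb0, tb2, tb4, tb6, tb8, tb10, tb14, tb0, tb2, tb4, tb6, tb8, tb10, tb14, tb0, tb2, tb4, tb6, tb8, tb10, tb14, tb0, tb2, tb4, tb6, tb8, tb10, tb14, tb0, tb2, tb4, tb6, tb8, tb10, tb14, tb0, tb2, tb4, tb6, tb8, tb10, tb14, tb0, tb2, tb4, tb6, tb8, tb10, tb14, tb0, tb2, tb4, tb6, tb8, tb10, tb14] u = true := fun u h1 h2 => absurd h2 (by omega)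
  have h := PR.allR_chain (PR.fixF [tb0, tb2, tb4, tb6, tb8, tb10, tb14, tb0, tb2, tb4, tb6, tb8, tb10, tb14, tb0, tb2, tb4, tb6, tb8, tb10, tb14, tb0, tb2, tb4, tb6, tb8, tb10, tb14, tb0, tb2, tb4, tb6, tb8, tb10, tb14, tb0, tb2, tb4, tb6, tb8, tb10, tb14, tb0, tb2, tb4, tb6, tb8, tb10, tb14, tb0, tb2, tb4, tb6, tb8, tb10, tb14, tb0, tb2, tb4, tb6, tb8, tb10, tb14]) 0 0 314 rel46_0 h
  have h := PR.allR_chain (PR.fixF [tb0, tb2, tb4, tb6, tb8, tb10, tb14, tb0, tb2, tb4, tb6, tb8, tb10, tb14, tb0, tb2, tb4, tb6, tb8, tb10, tb14, tb0, tb2, tb4, tb6, tb8, tb10, tb14, tb0, tb2, tb4, tb6, tb8, tb10, tb14, tb0, tb2, tb4, tb6, tb8, tb10, tb14, tb0, tb2, tb4, tb6, tb8, tb10, tb14, tb0, tb2, tb4, tb6, tb8, tb10, tb14, tb0, tb2, tb4, tb6, tb8, tb10, tb14]) 0 314 314 rel46_1 h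
  have h := PR.allR_chain (PR.fixF [tb0, tb2, tb4, tb6, tb8, tb10, tb14, tb0, tb2, tb4, tb6, tb8, tb10, tb14, tb0, tb2, tb4, tb6, tb8, tb10, tb14, tb0, tb2, tb4, tb6, tb8, tb10, tb14, tb0, tb2, tb4, tb6, tb8, tb10, tb14, tb0, tb2, tb4, tb6, tb8, tb10, tb14, tb0, tb2, tb4, tb6, tb8, tb10, tb14, tb0, tb2, tb4, tb6, tb8, tb10, tb14, tb0, tb2, tb4, tb6, tb8, tb10, tb14]) 0 628 314 rel46_2 h
  have h := PR.allR_chain (PR.fixF [tb0, tb2, tb4, tb6, tb8, tb10, tb14, tb0, tb2, tb4, tb6, tb8, tb10, tb14, tb0, tb2, tb4, tb6, tb8, tb10, tb14, tb0, tb2, tb4, tb6, tb8, tb10, tb14, tb0, tb2, tb4, tb6, tb8, tb10, tb14, tb0, tb2, tb4, tb6, tb8, tb10, tb14, tb0, tb2, tb4, tb6, tb8, tb10, tb14, tb0, tb2, tb4, tb6, tb8, tb10, tb14, tb0, tb2, tb4, tb6, tb8, tb10, tb14]) 0 942 314 rel46_3 h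
  have h := PR.allR_chain (PR.fixF [tb0, tb2, tb4, tb6, tb8, tb10, tb14, tb0, tb2, tb4, tb6, tb8, tb10, tb14, tb0, tb2, tb4, tb6, tb8, tb10, tb14, tb0, tb2, tb4, tb6, tb8, tb10, tb14, tb0, tb2, tb4, tb6, tb8, tb10, tb14, tb0, tb2, tb4, tb6, tb8, tb10, tb14, tb0, tb2, tb4, tb6, tb8, tb10, tb14, tb0, tb2, tb4, tb6, tb8, tb10, tb14, tb0, tb2, tb4, tb6, tb8, tb10, tb14]) 0 1256 314 rel46_4 h
  have h := PR.allR_chain (PR.fixF [tb0, tb2, tb4, tb6, tb8, tb10, tb14, tb0, tb2, tb4, tb6, tb8, tb10, tb14, tb0, tb2, tb4, tb6, tb8, tb10, tb14, tb0, tb2, tb4, tb6, tb8, tb10, tb14, tb0, tb2, tb4, tb6, tb8, tb10, tb14, tb0, tb2, tb4, tb6, tb8, tb10, tb14, tb0, tb2, tb4, tb6, tb8, tb10, tb14, tb0, tb2, tb4, tb6, tb8, tb10, tb14, tb0, tb2, tb4, tb6, tb8, tb10, tb14]) 0 1570 314 rel46_5 h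
  have h := PR.allR_chain (PR.fixF [tb0, tb2, tb4, tb6, tb8, tb10, tb14, tb0, tb2, tb4, tb6, tb8, tb10, tb14, tb0, tb2, tb4, tb6, tb8, tb10, tb14, tb0, tb2, tb4, tb6, tb8, tb10, tb14, tb0, tb2, tb4, tb6, tb8, tb10, tb14, tb0, tb2, tb4, tb6, tb8, tb10, tb14, tb0, tb2, tb4, tb6, tb8, tb10, tb14, tb0, tb2, tb4, tb6, tb8, tb10, tb14, tb0, tb2, tb4, tb6, tb8, tb10, tb14]) 0 1884 314 rel46_6 h
  have h := PR.allR_chain (PR.fixF [tb0, tb2, tb4, tb6, tb8, tb10, tb14, tb0, tb2, tb4, tb6, tb8, tb10, tb14, tb0, tb2, tb4, tb6, tb8, tb10, tb14, tb0, tb2, tb4, tb6, tb8, tb10, tb14, tb0, tb2, tb4, tb6, tb8, tb10, tb14, tb0, tb2, tb4, tb6, tb8, tb10, tb14, tb0, tb2, tb4, tb6, tb8, tb10, tb14, tb0, tb2, tb4, tb6, tb8, tb10, tb14, tb0, tb2, tb4, tb6, tb8, tb10, tb14]) 0 2198 314 rel46_7 h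
  have h := PR.allR_chain (PR.fixF [tb0, tb2, tb4, tb6, tb8, tb10, tb14, tb0, tb2, tb4, tb6, tb8, tb10, tb14, tb0, tb2, tb4, tb6, tb8, tb10, tb14, tb0, tb2, tb4, tb6, tb8, tb10, tb14, tb0, tb2, tb4, tb6, tb8, tb10, tb14, tb0, tb2, tb4, tb6, tb8, tb10, tb14, tb0, tb2, tb4, tb6, tb8, tb10, tb14, tb0, tb2, tb4, tb6, tb8, tb10, tb14, tb0, tb2, tb4, tb6, tb8, tb10, tb14]) 0 2512 314 rel46_8 h
  have h := PR.allR_chain (PR.fixF [tb0, tb2, tb4, tb6, tb8, tb10, tb14, tb0, tb2, tb4, tb6, tb8, tb10, tb14, tb0, tb2, tb4, tb6, tb8, tb10, tb14, tb0, tb2, tb4, tb6, tb8, tb10, tb14, tb0, tb2, tb4, tb6, tb8, tb10, tb14, tb0, tb2, tb4, tb6, tb8, tb10, tb14, tb0, tb2, tb4, tb6, tb8, tb10, tb14, tb0, tb2, tb4, tb6, tb8, tb10, tb14, tb0, tb2, tb4, tb6, tb8, tb10, tb14]) 0 2826 314 rel46_9 h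
  have h := PR.allR_chain (PR.fixF [tb0, tb2, tb4, tb6, tb8, tb10, tb14, tb0, tb2, tb4, tb6, tb8, tb10, tb14, tb0, tb2, tb4, tb6, tb8, tb10, tb14, tb0, tb2, tb4, tb6, tb8, tb10, tb14, tb0, tb2, tb4, tb6, tb8, tb10, tb14, tb0, tb2, tb4, tb6, tb8, tb10, tb14, tb0, tb2, tb4, tb6, tb8, tb10, tb14, tb0, tb2, tb4, tb6, tb8, tb10, tb14, tb0, tb2, tb4, tb6, tb8, tb10, tb14]) 0 3140 314 rel46_10 h
  have h := PR.allR_chain (PR.fixF [tb0, tb2, tb4, tb6, tb8, tb10, tb14, tb0, tb2, tb4, tb6, tb8, tb10, tb14, tb0, tb2, tb4, tb6, tb8, tb10, tb14, tb0, tb2, tb4, tb6, tb8, tb10, tb14, tb0, tb2, tb4, tb6, tb8, tb10, tb14, tb0, tb2, tb4, tb6, tb8, tb10, tb14, tb0, tb2, tb4, tb6, tb8, tb10, tb14, tb0, tb2, tb4, tb6, tb8, tb10, tb14, tb0, tb2, tb4, tb6, tb8, tb10, tb14]) 0 3454 314 rel46_11 h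
  have h := PR.allR_chain (PR.fixF [tb0, tb2, tb4, tb6, tb8, tb10, tb14, tb0, tb2, tb4, tb6, tb8, tb10, tb14, tb0, tb2, tb4, tb6, tb8, tb10, tb14, tb0, tb2, tb4, tb6, tb8, tb10, tb14, tb0, tb2, tb4, tb6, tb8, tb10, tb14, tb0, tb2, tb4, tb6, tb8, tb10, tb14, tb0, tb2, tb4, tb6, tb8, tb10, tb14, tb0, tb2, tb4, tb6, tb8, tb10, tb14, tb0, tb2, tb4, tb6, tb8, tb10, tb14]) 0 3768 314 rel46_12 h
  have h := PR.allR_chain (PR.fixF [tb0, tb2, tb4, tb6, tb8, tb10, tb14, tb0, tb2, tb4, tb6, tb8, tb10, tb14, tb0, tb2, tb4, tb6, tb8, tb10, tb14, tb0, tb2, tb4, tb6, tb8, tb10, tb14, tb0, tb2, tb4, tb6, tb8, tb10, tb14, tb0, tb2, tb4, tb6, tb8, tb10, tb14, tb0, tb2, tb4, tb6, tb8, tb10, tb14, tb0, tb2, tb4, tb6, tb8, tb10, tb14, tb0, tb2, tb4, tb6, tb8, tb10, tb14]) 0 4082 314 rel46_13 h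
  have h := PR.allR_chain (PR.fixF [tb0, tb2, tb4, tb6, tb8, tb10, tb14, tb0, tb2, tb4, tb6, tb8, tb10, tb14, tb0, tb2, tb4, tb6, tb8, tb10, tb14, tb0, tb2, tb4, tb6, tb8, tb10, tb14, tb0, tb2, tb4, tb6, tb8, tb10, tb14, tb0, tb2, tb4, tb6, tb8, tb10, tb14, tb0, tb2, tb4, tb6, tb8, tb10, tb14, tb0, tb2, tb4, tb6, tb8, tb10, tb14, tb0, tb2, tb4, tb6, tb8, tb10, tb14]) 0 4396 314 rel46_14 h
  have h := PR.allR_chain (PR.fixF [tb0, tb2, tb4, tb6, tb8, tb10, tb14, tb0, tb2, tb4, tb6, tb8, tb10, tb14, tb0, tb2, tb4, tb6, tb8, tb10, tb14, tb0, tb2, tb4, tb6, tb8, tb10, tb14, tb0, tb2, tb4, tb6, tb8, tb10, tb14, tb0, tb2, tb4, tb6, tb8, tb10, tb14, tb0, tb2, tb4, tb6, tb8, tb10, tb14, tb0, tb2, tb4, tb6, tb8, tb10, tb14, tb0, tb2, tb4, tb6, tb8, tb10, tb14]) 0 4710 314 rel46_15 h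
  have h := PR.allR_chain (PR.fixF [tb0, tb2, tb4, tb6, tb8, tb10, tb14, tb0, tb2, tb4, tb6, tb8, tb10, tb14, tb0, tb2, tb4, tb6, tb8, tb10, tb14, tb0, tb2, tb4, tb6, tb8, tb10, tb14, tb0, tb2, tb4, tb6, tb8, tb10, tb14, tb0, tb2, tb4, tb6, tb8, tb10, tb14, tb0, tb2, tb4, tb6, tb8, tb10, tb14, tb0, tb2, tb4, tb6, tb8, tb10, tb14, tb0, tb2, tb4, tb6, tb8, tb10, tb14]) 0 5024 314 rel46_16 h
  have h := PR.allR_chain (PR.fixF [tb0, tb2, tb4, tb6, tb8, tb10, tb14, tb0, tb2, tb4, tb6, tb8, tb10, tb14, tb0, tb2, tb4, tb6, tb8, tb10, tb14, tb0, tb2, tb4, tb6, tb8, tb10, tb14, tb0, tb2, tb4, tb6, tb8, tb10, tb14, tb0, tb2, tb4, tb6, tb8, tb10, tb14, tb0, tb2, tb4, tb6, tb8, tb10, tb14, tb0, tb2, tb4, tb6, tb8, tb10, tb14, tb0, tb2, tb4, tb6, tb8, tb10, tb14]) 0 5338 314 rel46_17 h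
  have h := PR.allR_chain (PR.fixF [tb0, tb2, tb4, tb6, tb8, tb10, tb14, tb0, tb2, tb4, tb6, tb8, tb10, tb14, tb0, tb2, tb4, tb6, tb8, tb10, tb14, tb0, tb2, tb4, tb6, tb8, tb10, tb14, tb0, tb2, tb4, tb6, tb8, tb10, tb14, tb0, tb2, tb4, tb6, tb8, tb10, tb14, tb0, tb2, tb4, tb6, tb8, tb10, tb14, tb0, tb2, tb4, tb6, tb8, tb10, tb14, tb0, tb2, tb4, tb6, tb8, tb10, tb14]) 0 5652 314 rel46_18 h
  have h := PR.allR_chain (PR.fixF [tb0, tb2, tb4, tb6, tb8, tb10, tb14, tb0, tb2, tb4, tb6, tb8, tb10, tb14, tb0, tb2, tb4, tb6, tb8, tb10, tb14, tb0, tb2, tb4, tb6, tb8, tb10, tb14, tb0, tb2, tb4, tb6, tb8, tb10, tb14, tb0, tb2, tb4, tb6, tb8, tb10, tb14, tb0, tb2, tb4, tb6, tb8, tb10, tb14, tb0, tb2, tb4, tb6, tb8, tb10, tb14, tb0, tb2, tb4, tb6, tb8, tb10, tb14]) 0 5966 314 rel46_19 h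
  have h := PR.allR_chain (PR.fixF [tb0, tb2, tb4, tb6, tb8, tb10, tb14, tb0, tb2, tb4, tb6, tb8, tb10, tb14, tb0, tb2, tb4, tb6, tb8, tb10, tb14, tb0, tb2, tb4, tb6, tb8, tb10, tb14, tb0, tb2, tb4, tb6, tb8, tb10, tb14, tb0, tb2, tb4, tb6, tb8, tb10, tb14, tb0, tb2, tb4, tb6, tb8, tb10, tb14, tb0, tb2, tb4, tb6, tb8, tb10, tb14, tb0, tb2, tb4, tb6, tb8, tb10, tb14]) 0 6280 314 rel46_20 h
  have h := PR.allR_chain (PR.fixF [tb0, tb2, tb4, tb6, tb8, tb10, tb14, tb0, tb2, tb4, tb6, tb8, tb10, tb14, tb0, tb2, tb4, tb6, tb8, tb10, tb14, tb0, tb2, tb4, tb6, tb8, tb10, tb14, tb0, tb2, tb4, tb6, tb8, tb10, tb14, tb0, tb2, tb4, tb6, tb8, tb10, tb14, tb0, tb2, tb4, tb6, tb8, tb10, tb14, tb0, tb2, tb4, tb6, tb8, tb10, tb14, tb0, tb2, tb4, tb6, tb8, tb10, tb14]) 0 6594 314 rel46_21 h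
  have h := PR.allR_chain (PR.fixF [tb0, tb2, tb4, tb6, tb8, tb10, tb14, tb0, tb2, tb4, tb6, tb8, tb10, tb14, tb0, tb2, tb4, tb6, tb8, tb10, tb14, tb0, tb2, tb4, tb6, tb8, tb10, tb14, tb0, tb2, tb4, tb6, tb8, tb10, tb14, tb0, tb2, tb4, tb6, tb8, tb10, tb14, tb0, tb2, tb4, tb6, tb8, tb10, tb14, tb0, tb2, tb4, tb6, tb8, tb10, tb14, tb0, tb2, tb4, tb6, tb8, tb10, tb14]) 0 6908 314 rel46_22 h
  have h := PR.allR_chain (PR.fixF [tb0, tb2, tb4, tb6, tb8, tb10, tb14, tb0, tb2, tb4, tb6, tb8, tb10, tb14, tb0, tb2, tb4, tb6, tb8, tb10, tb14, tb0, tb2, tb4, tb6, tb8, tb10, tb14, tb0, tb2, tb4, tb6, tb8, tb10, tb14, tb0, tb2, tb4, tb6, tb8, tb10, tb14, tb0, tb2, tb4, tb6, tb8, tb10, tb14, tb0, tb2, tb4, tb6, tb8, tb10, tb14, tb0, tb2, tb4, tb6, tb8, tb10, tb14]) 0 7222 314 rel46_23 h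
  have h := PR.allR_chain (PR.fixF [tb0, tb2, tb4, tb6, tb8, tb10, tb14, tb0, tb2, tb4, tb6, tb8, tb10, tb14, tb0, tb2, tb4, tb6, tb8, tb10, tb14, tb0, tb2, tb4, tb6, tb8, tb10, tb14, tb0, tb2, tb4, tb6, tb8, tb10, tb14, tb0, tb2, tb4, tb6, tb8, tb10, tb14, tb0, tb2, tb4, tb6, tb8, tb10, tb14, tb0, tb2, tb4, tb6, tb8, tb10, tb14, tb0, tb2, tb4, tb6, tb8, tb10, tb14]) 0 7536 314 rel46_24 h
  have h := PR.allR_chain (PR.fixF [tb0, tb2, tb4, tb6, tb8, tb10, tb14, tb0, tb2, tb4, tb6, tb8, tb10, tb14, tb0, tb2, tb4, tb6, tb8, tb10, tb14, tb0, tb2, tb4, tb6, tb8, tb10, tb14, tb0, tb2, tb4, tb6, tb8, tb10, tb14, tb0, tb2, tb4, tb6, tb8, tb10, tb14, tb0, tb2, tb4, tb6, tb8, tb10, tb14, tb0, tb2, tb4, tb6, tb8, tb10, tb14, tb0, tb2, tb4, tb6, tb8, tb10, tb14]) 0 7850 314 rel46_25 h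
  have h := PR.allR_chain (PR.fixF [tb0, tb2, tb4, tb6, tb8, tb10, tb14, tb0, tb2, tb4, tb6, tb8, tb10, tb14, tb0, tb2, tb4, tb6, tb8, tb10, tb14, tb0, tb2, tb4, tb6, tb8, tb10, tb14, tb0, tb2, tb4, tb6, tb8, tb10, tb14, tb0, tb2, tb4, tb6, tb8, tb10, tb14, tb0, tb2, tb4, tb6, tb8, tb10, tb14, tb0, tb2, tb4, tb6, tb8, tb10, tb14, tb0, tb2, tb4, tb6, tb8, tb10, tb14]) 0 8164 314 rel46_26 h
  have h := PR.allR_chain (PR.fixF [tb0, tb2, tb4, tb6, tb8, tb10, tb14, tb0, tb2, tb4, tb6, tb8, tb10, tb14, tb0, tb2, tb4, tb6, tb8, tb10, tb14, tb0, tb2, tb4, tb6, tb8, tb10, tb14, tb0, tb2, tb4, tb6, tb8, tb10, tb14, tb0, tb2, tb4, tb6, tb8, tb10, tb14, tb0, tb2, tb4, tb6, tb8, tb10, tb14, tb0, tb2, tb4, tb6, tb8, tb10, tb14, tb0, tb2, tb4, tb6, tb8, tb10, tb14]) 0 8478 314 rel46_27 h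
  have h := PR.allR_chain (PR.fixF [tb0, tb2, tb4, tb6, tb8, tb10, tb14, tb0, tb2, tb4, tb6, tb8, tb10, tb14, tb0, tb2, tb4, tb6, tb8, tb10, tb14, tb0, tb2, tb4, tb6, tb8, tb10, tb14, tb0, tb2, tb4, tb6, tb8, tb10, tb14, tb0, tb2, tb4, tb6, tb8, tb10, tb14, tb0, tb2, tb4, tb6, tb8, tb10, tb14, tb0, tb2, tb4, tb6, tb8, tb10, tb14, tb0, tb2, tb4, tb6, tb8, tb10, tb14]) 0 8792 314 rel46_28 h
  have h := PR.allR_chain (PR.fixF [tb0, tb2, tb4, tb6, tb8, tb10, tb14, tb0, tb2, tb4, tb6, tb8, tb10, tb14, tb0, tb2, tb4, tb6, tb8, tb10, tb14, tb0, tb2, tb4, tb6, tb8, tb10, tb14, tb0, tb2, tb4, tb6, tb8, tb10, tb14, tb0, tb2, tb4, tb6, tb8, tb10, tb14, tb0, tb2, tb4, tb6, tb8, tb10, tb14, tb0, tb2, tb4, tb6, tb8, tb10, tb14, tb0, tb2, tb4, tb6, tb8, tb10, tb14]) 0 9106 314 rel46_29 h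
  have h := PR.allR_chain (PR.fixF [tb0, tb2, tb4, tb6, tb8, tb10, tb14, tb0, tb2, tb4, tb6, tb8, tb10, tb14, tb0, tb2, tb4, tb6, tb8, tb10, tb14, tb0, tb2, tb4, tb6, tb8, tb10, tb14, tb0, tb2, tb4, tb6, tb8, tb10, tb14, tb0, tb2, tb4, tb6, tb8, tb10, tb14, tb0, tb2, tb4, tb6, tb8, tb10, tb14, tb0, tb2, tb4, tb6, tb8, tb10, tb14, tb0, tb2, tb4, tb6, tb8, tb10, tb14]) 0 9420 314 rel46_30 h
  have h := PR.allR_chain (PR.fixF [tb0, tb2, tb4, tb6, tb8, tb10, tb14, tb0, tb2, tb4, tb6, tb8, tb10, tb14, tb0, tb2, tb4, tb6, tb8, tb10, tb14, tb0, tb2, tb4, tb6, tb8, tb10, tb14, tb0, tb2, tb4, tb6, tb8, tb10, tb14, tb0, tb2, tb4, tb6, tb8, tb10, tb14, tb0, tb2, tb4, tb6, tb8, tb10, tb14, tb0, tb2, tb4, tb6, tb8, tb10, tb14, tb0, tb2, tb4, tb6, tb8, tb10, tb14]) 0 9734 314 rel46_31 h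
  have h := PR.allR_chain (PR.fixF [tb0, tb2, tb4, tb6, tb8, tb10, tb14, tb0, tb2, tb4, tb6, tb8, tb10, tb14, tb0, tb2, tb4, tb6, tb8, tb10, tb14, tb0, tb2, tb4, tb6, tb8, tb10, tb14, tb0, tb2, tb4, tb6, tb8, tb10, tb14, tb0, tb2, tb4, tb6, tb8, tb10, tb14, tb0, tb2, tb4, tb6, tb8, tb10, tb14, tb0, tb2, tb4, tb6, tb8, tb10, tb14, tb0, tb2, tb4, tb6, tb8, tb10, tb14]) 0 10048 314 rel46_32 h
  have h := PR.allR_chain (PR.fixF [tb0, tb2, tb4, tb6, tb8, tb10, tb14, tb0, tb2, tb4, tb6, tb8, tb10, tb14, tb0, tb2, tb4, tb6, tb8, tb10, tb14, tb0, tb2, tb4, tb6, tb8, tb10, tb14, tb0, tb2, tb4, tb6, tb8, tb10, tb14, tb0, tb2, tb4, tb6, tb8, tb10, tb14, tb0, tb2, tb4, tb6, tb8, tb10, tb14, tb0, tb2, tb4, tb6, tb8, tb10, tb14, tb0, tb2, tb4, tb6, tb8, tb10, tb14]) 0 10362 314 rel46_33 h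
  have h := PR.allR_chain (PR.fixF [tb0, tb2, tb4, tb6, tb8, tb10, tb14, tb0, tb2, tb4, tb6, tb8, tb10, tb14, tb0, tb2, tb4, tb6, tb8, tb10, tb14, tb0, tb2, tb4, tb6, tb8, tb10, tb14, tb0, tb2, tb4, tb6, tb8, tb10, tb14, tb0, tb2, tb4, tb6, tb8, tb10, tb14, tb0, tb2, tb4, tb6, tb8, tb10, tb14, tb0, tb2, tb4, tb6, tb8, tb10, tb14, tb0, tb2, tb4, tb6, tb8, tb10, tb14]) 0 10676 314 rel46_34 h
  have h := PR.allR_chain (PR.fixF [tb0, tb2, tb4, tb6, tb8, tb10, tb14, tb0, tb2, tb4, tb6, tb8, tb10, tb14, tb0, tb2, tb4, tb6, tb8, tb10, tb14, tb0, tb2, tb4, tb6, tb8, tb10, tb14, tb0, tb2, tb4, tb6, tb8, tb10, tb14, tb0, tb2, tb4, tb6, tb8, tb10, tb14, tb0, tb2, tb4, tb6, tb8, tb10, tb14, tb0, tb2, tb4, tb6, tb8, tb10, tb14, tb0, tb2, tb4, tb6, tb8, tb10, tb14]) 0 10990 314 rel46_35 h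
  have h := PR.allR_chain (PR.fixF [tb0, tb2, tb4, tb6, tb8, tb10, tb14, tb0, tb2, tb4, tb6, tb8, tb10, tb14, tb0, tb2, tb4, tb6, tb8, tb10, tb14, tb0, tb2, tb4, tb6, tb8, tb10, tb14, tb0, tb2, tb4, tb6, tb8, tb10, tb14, tb0, tb2, tb4, tb6, tb8, tb10, tb14, tb0, tb2, tb4, tb6, tb8, tb10, tb14, tb0, tb2, tb4, tb6, tb8, tb10, tb14, tb0, tb2, tb4, tb6, tb8, tb10, tb14]) 0 11304 314 rel46_36 h
  have h := PR.allR_chain (PR.fixF [tb0, tb2, tb4, tb6, tb8, tb10, tb14, tb0, tb2, tb4, tb6, tb8, tb10, tb14, tb0, tb2, tb4, tb6, tb8, tb10, tb14, tb0, tb2, tb4, tb6, tb8, tb10, tb14, tb0, tb2, tb4, tb6, tb8, tb10, tb14, tb0, tb2, tb4, tb6, tb8, tb10, tb14, tb0, tb2, tb4, tb6, tb8, tb10, tb14, tb0, tb2, tb4, tb6, tb8, tb10, tb14, tb0, tb2, tb4, tb6, tb8, tb10, tb14]) 0 11618 314 rel46_37 h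
  have h := PR.allR_chain (PR.fixF [tb0, tb2, tb4, tb6, tb8, tb10, tb14, tb0, tb2, tb4, tb6, tb8, tb10, tb14, tb0, tb2, tb4, tb6, tb8, tb10, tb14, tb0, tb2, tb4, tb6, tb8, tb10, tb14, tb0, tb2, tb4, tb6, tb8, tb10, tb14, tb0, tb2, tb4, tb6, tb8, tb10, tb14, tb0, tb2, tb4, tb6, tb8, tb10, tb14, tb0, tb2, tb4, tb6, tb8, tb10, tb14, tb0, tb2, tb4, tb6, tb8, tb10, tb14]) 0 11932 314 rel46_38 h
  have h := PR.allR_chain (PR.fixF [tb0, tb2, tb4, tb6, tb8, tb10, tb14, tb0, tb2, tb4, tb6, tb8, tb10, tb14, tb0, tb2, tb4, tb6, tb8, tb10, tb14, tb0, tb2, tb4, tb6, tb8, tb10, tb14, tb0, tb2, tb4, tb6, tb8, tb10, tb14, tb0, tb2, tb4, tb6, tb8, tb10, tb14, tb0, tb2, tb4, tb6, tb8, tb10, tb14, tb0, tb2, tb4, tb6, tb8, tb10, tb14, tb0, tb2, tb4, tb6, tb8, tb10, tb14]) 0 12246 314 rel46_39 h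
  have h := PR.allR_chain (PR.fixF [tb0, tb2, tb4, tb6, tb8, tb10, tb14, tb0, tb2, tb4, tb6, tb8, tb10, tb14, tb0, tb2, tb4, tb6, tb8, tb10, tb14, tb0, tb2, tb4, tb6, tb8, tb10, tb14, tb0, tb2, tb4, tb6, tb8, tb10, tb14, tb0, tb2, tb4, tb6, tb8, tb10, tb14, tb0, tb2, tb4, tb6, tb8, tb10, tb14, tb0, tb2, tb4, tb6, tb8, tb10, tb14, tb0, tb2, tb4, tb6, tb8, tb10, tb14]) 0 12560 314 rel46_40 h
  have h := PR.allR_chain (PR.fixF [tb0, tb2, tb4, tb6, tb8, tb10, tb14, tb0, tb2, tb4, tb6, tb8, tb10, tb14, tb0, tb2, tb4, tb6, tb8, tb10, tb14, tb0, tb2, tb4, tb6, tb8, tb10, tb14, tb0, tb2, tb4, tb6, tb8, tb10, tb14, tb0, tb2, tb4, tb6, tb8, tb10, tb14, tb0, tb2, tb4, tb6, tb8, tb10, tb14, tb0, tb2, tb4, tb6, tb8, tb10, tb14, tb0, tb2, tb4, tb6, tb8, tb10, tb14]) 0 12874 314 rel46_41 h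
  have h := PR.allR_chain (PR.fixF [tb0, tb2, tb4, tb6, tb8, tb10, tb14, tb0, tb2, tb4, tb6, tb8, tb10, tb14, tb0, tb2, tb4, tb6, tb8, tb10, tb14, tb0, tb2, tb4, tb6, tb8, tb10, tb14, tb0, tb2, tb4, tb6, tb8, tb10, tb14, tb0, tb2, tb4, tb6, tb8, tb10, tb14, tb0, tb2, tb4, tb6, tb8, tb10, tb14, tb0, tb2, tb4, tb6, tb8, tb10, tb14, tb0, tb2, tb4, tb6, tb8, tb10, tb14]) 0 13188 314 rel46_42 h
  have h := PR.allR_chain (PR.fixF [tb0, tb2, tb4, tb6, tb8, tb10, tb14, tb0, tb2, tb4, tb6, tb8, tb10, tb14, tb0, tb2, tb4, tb6, tb8, tb10, tb14, tb0, tb2, tb4, tb6, tb8, tb10, tb14, tb0, tb2, tb4, tb6, tb8, tb10, tb14, tb0, tb2, tb4, tb6, tb8, tb10, tb14, tb0, tb2, tb4, tb6, tb8, tb10, tb14, tb0, tb2, tb4, tb6, tb8, tb10, tb14, tb0, tb2, tb4, tb6, tb8, tb10, tb14]) 0 13502 314 rel46_43 h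
  have h := PR.allR_chain (PR.fixF [tb0, tb2, tb4, tb6, tb8, tb10, tb14, tb0, tb2, tb4, tb6, tb8, tb10, tb14, tb0, tb2, tb4, tb6, tb8, tb10, tb14, tb0, tb2, tb4, tb6, tb8, tb10, tb14, tb0, tb2, tb4, tb6, tb8, tb10, tb14, tb0, tb2, tb4, tb6, tb8, tb10, tb14, tb0, tb2, tb4, tb6, tb8, tb10, tb14, tb0, tb2, tb4, tb6, tb8, tb10, tb14, tb0, tb2, tb4, tb6, tb8, tb10, tb14]) 0 13816 314 rel46_44 h
  have h := PR.allR_chain (PR.fixF [tb0, tb2, tb4, tb6, tb8, tb10, tb14, tb0, tb2, tb4, tb6, tb8, tb10, tb14, tb0, tb2, tb4, tb6, tb8, tb10, tb14, tb0, tb2, tb4, tb6, tb8, tb10, tb14, tb0, tb2, tb4, tb6, tb8, tb10, tb14, tb0, tb2, tb4, tb6, tb8, tb10, tb14, tb0, tb2, tb4, tb6, tb8, tb10, tb14, tb0, tb2, tb4, tb6, tb8, tb10, tb14, tb0, tb2, tb4, tb6, tb8, tb10, tb14]) 0 14130 314 rel46_45 h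
  have h := PR.allR_chain (PR.fixF [tb0, tb2, tb4, tb6, tb8, tb10, tb14, tb0, tb2, tb4, tb6, tb8, tb10, tb14, tb0, tb2, tb4, tb6, tb8, tb10, tb14, tb0, tb2, tb4, tb6, tb8, tb10, tb14, tb0, tb2, tb4, tb6, tb8, tb10, tb14, tb0, tb2, tb4, tb6, tb8, tb10, tb14, tb0, tb2, tb4, tb6, tb8, tb10, tb14, tb0, tb2, tb4, tb6, tb8, tb10, tb14, tb0, tb2, tb4, tb6, tb8, tb10, tb14]) 0 14444 314 rel46_46 h
  have h := PR.allR_chain (PR.fixF [tb0, tb2, tb4, tb6, tb8, tb10, tb14, tb0, tb2, tb4, tb6, tb8, tb10, tb14, tb0, tb2, tb4, tb6, tb8, tb10, tb14, tb0, tb2, tb4, tb6, tb8, tb10, tb14, tb0, tb2, tb4, tb6, tb8, tb10, tb14, tb0, tb2, tb4, tb6, tb8, tb10, tb14, tb0, tb2, tb4, tb6, tb8, tb10, tb14, tb0, tb2, tb4, tb6, tb8, tb10, tb14, tb0, tb2, tb4, tb6, tb8, tb10, tb14]) 0 14758 314 rel46_47 h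
  have h := PR.allR_chain (PR.fixF [tb0, tb2, tb4, tb6, tb8, tb10, tb14, tb0, tb2, tb4, tb6, tb8, tb10, tb14, tb0, tb2, tb4, tb6, tb8, tb10, tb14, tb0, tb2, tb4, tb6, tb8, tb10, tb14, tb0, tb2, tb4, tb6, tb8, tb10, tb14, tb0, tb2, tb4, tb6, tb8, tb10, tb14, tb0, tb2, tb4, tb6, tb8, tb10, tb14, tb0, tb2, tb4, tb6, tb8, tb10, tb14, tb0, tb2, tb4, tb6, tb8, tb10, tb14]) 0 15072 314 rel46_48 h
  have h := PR.allR_chain (PR.fixF [tb0, tb2, tb4, tb6, tb8, tb10, tb14, tb0, tb2, tb4, tb6, tb8, tb10, tb14, tb0, tb2, tb4, tb6, tb8, tb10, tb14, tb0, tb2, tb4, tb6, tb8, tb10, tb14, tb0, tb2, tb4, tb6, tb8, tb10, tb14, tb0, tb2, tb4, tb6, tb8, tb10, tb14, tb0, tb2, tb4, tb6, tb8, tb10, tb14, tb0, tb2, tb4, tb6, tb8, tb10, tb14, tb0, tb2, tb4, tb6, tb8, tb10, tb14]) 0 15386 314 rel46_49 h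
  have h := PR.allR_chain (PR.fixF [tb0, tb2, tb4, tb6, tb8, tb10, tb14, tb0, tb2, tb4, tb6, tb8, tb10, tb14, tb0, tb2, tb4, tb6, tb8, tb10, tb14, tb0, tb2, tb4, tb6, tb8, tb10, tb14, tb0, tb2, tb4, tb6, tb8, tb10, tb14, tb0, tb2, tb4, tb6, tb8, tb10, tb14, tb0, tb2, tb4, tb6, tb8, tb10, tb14, tb0, tb2, tb4, tb6, tb8, tb10, tb14, tb0, tb2, tb4, tb6, tb8, tb10, tb14]) 0 15700 314 rel46_50 h
  have h := PR.allR_chain (PR.fixF [tb0, tb2, tb4, tb6, tb8, tb10, tb14, tb0, tb2, tb4, tb6, tb8, tb10, tb14, tb0, tb2, tb4, tb6, tb8, tb10, tb14, tb0, tb2, tb4, tb6, tb8, tb10, tb14, tb0, tb2, tb4, tb6, tb8, tb10, tb14, tb0, tb2, tb4, tb6, tb8, tb10, tb14, tb0, tb2, tb4, tb6, tb8, tb10, tb14, tb0, tb2, tb4, tb6, tb8, tb10, tb14, tb0, tb2, tb4, tb6, tb8, tb10, tb14]) 0 16014 314 rel46_51 h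
  have h := PR.allR_chain (PR.fixF [tb0, tb2, tb4, tb6, tb8, tb10, tb14, tb0, tb2, tb4, tb6, tb8, tb10, tb14, tb0, tb2, tb4, tb6, tb8, tb10, tb14, tb0, tb2, tb4, tb6, tb8, tb10, tb14, tb0, tb2, tb4, tb6, tb8, tb10, tb14, tb0, tb2, tb4, tb6, tb8, tb10, tb14, tb0, tb2, tb4, tb6, tb8, tb10, tb14, tb0, tb2, tb4, tb6, tb8, tb10, tb14, tb0, tb2, tb4, tb6, tb8, tb10, tb14]) 0 16328 314 rel46_52 h
  have h := PR.allR_chain (PR.fixF [tb0, tb2, tb4, tb6, tb8, tb10, tb14, tb0, tb2, tb4, tb6, tb8, tb10, tb14, tb0, tb2, tb4, tb6, tb8, tb10, tb14, tb0, tb2, tb4, tb6, tb8, tb10, tb14, tb0, tb2, tb4, tb6, tb8, tb10, tb14, tb0, tb2, tb4, tb6, tb8, tb10, tb14, tb0, tb2, tb4, tb6, tb8, tb10, tb14, tb0, tb2, tb4, tb6, tb8, tb10, tb14, tb0, tb2, tb4, tb6, tb8, tb10, tb14]) 0 16642 314 rel46_53 h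
  have h := PR.allR_chain (PR.fixF [tb0, tb2, tb4, tb6, tb8, tb10, tb14, tb0, tb2, tb4, tb6, tb8, tb10, tb14, tb0, tb2, tb4, tb6, tb8, tb10, tb14, tb0, tb2, tb4, tb6, tb8, tb10, tb14, tb0, tb2, tb4, tb6, tb8, tb10, tb14, tb0, tb2, tb4, tb6, tb8, tb10, tb14, tb0, tb2, tb4, tb6, tb8, tb10, tb14, tb0, tb2, tb4, tb6, tb8, tb10, tb14, tb0, tb2, tb4, tb6, tb8, tb10, tb14]) 0 16956 314 rel46_54 h
  have h := PR.allR_chain (PR.fixF [tb0, tb2, tb4, tb6, tb8, tb10, tb14, tb0, tb2, tb4, tb6, tb8, tb10, tb14, tb0, tb2, tb4, tb6, tb8, tb10, tb14, tb0, tb2, tb4, tb6, tb8, tb10, tb14, tb0, tb2, tb4, tb6, tb8, tb10, tb14, tb0, tb2, tb4, tb6, tb8, tb10, tb14, tb0, tb2, tb4, tb6, tb8, tb10, tb14, tb0, tb2, tb4, tb6, tb8, tb10, tb14, tb0, tb2, tb4, tb6, tb8, tb10, tb14]) 0 17270 314 rel46_55 h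
  have h := PR.allR_chain (PR.fixF [tb0, tb2, tb4, tb6, tb8, tb10, tb14, tb0, tb2, tb4, tb6, tb8, tb10, tb14, tb0, tb2, tb4, tb6, tb8, tb10, tb14, tb0, tb2, tb4, tb6, tb8, tb10, tb14, tb0, tb2, tb4, tb6, tb8, tb10, tb14, tb0, tb2, tb4, tb6, tb8, tb10, tb14, tb0, tb2, tb4, tb6, tb8, tb10, tb14, tb0, tb2, tb4, tb6, tb8, tb10, tb14, tb0, tb2, tb4, tb6, tb8, tb10, tb14]) 0 17584 314 rel46_56 h
  have h := PR.allR_chain (PR.fixF [tb0, tb2, tb4, tb6, tb8, tb10, tb14, tb0, tb2, tb4, tb6, tb8, tb10, tb14, tb0, tb2, tb4, tb6, tb8, tb10, tb14, tb0, tb2, tb4, tb6, tb8, tb10, tb14, tb0, tb2, tb4, tb6, tb8, tb10, tb14, tb0, tb2, tb4, tb6, tb8, tb10, tb14, tb0, tb2, tb4, tb6, tb8, tb10, tb14, tb0, tb2, tb4, tb6, tb8, tb10, tb14, tb0, tb2, tb4, tb6, tb8, tb10, tb14]) 0 17898 314 rel46_57 h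
  have h := PR.allR_chain (PR.fixF [tb0, tb2, tb4, tb6, tb8, tb10, tb14, tb0, tb2, tb4, tb6, tb8, tb10, tb14, tb0, tb2, tb4, tb6, tb8, tb10, tb14, tb0, tb2, tb4, tb6, tb8, tb10, tb14, tb0, tb2, tb4, tb6, tb8, tb10, tb14, tb0, tb2, tb4, tb6, tb8, tb10, tb14, tb0, tb2, tb4, tb6, tb8, tb10, tb14, tb0, tb2, tb4, tb6, tb8, tb10, tb14, tb0, tb2, tb4, tb6, tb8, tb10, tb14]) 0 18212 314 rel46_58 h
  have h := PR.allR_chain (PR.fixF [tb0, tb2, tb4, tb6, tb8, tb10, tb14, tb0, tb2, tb4, tb6, tb8, tb10, tb14, tb0, tb2, tb4, tb6, tb8, tb10, tb14, tb0, tb2, tb4, tb6, tb8, tb10, tb14, tb0, tb2, tb4, tb6, tb8, tb10, tb14, tb0, tb2, tb4, tb6, tb8, tb10, tb14, tb0, tb2, tb4, tb6, tb8, tb10, tb14, tb0, tb2, tb4, tb6, tb8, tb10, tb14, tb0, tb2, tb4, tb6, tb8, tb10, tb14]) 0 18526 314 rel46_59 h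
  have h := PR.allR_chain (PR.fixF [tb0, tb2, tb4, tb6, tb8, tb10, tb14, tb0, tb2, tb4, tb6, tb8, tb10, tb14, tb0, tb2, tb4, tb6, tb8, tb10, tb14, tb0, tb2, tb4, tb6, tb8, tb10, tb14, tb0, tb2, tb4, tb6, tb8, tb10, tb14, tb0, tb2, tb4, tb6, tb8, tb10, tb14, tb0, tb2, tb4, tb6, tb8, tb10, tb14, tb0, tb2, tb4, tb6, tb8, tb10, tb14, tb0, tb2, tb4, tb6, tb8, tb10, tb14]) 0 18840 314 rel46_60 h
  have h := PR.allR_chain (PR.fixF [tb0, tb2, tb4, tb6, tb8, tb10, tb14, tb0, tb2, tb4, tb6, tb8, tb10, tb14, tb0, tb2, tb4, tb6, tb8, tb10, tb14, tb0, tb2, tb4, tb6, tb8, tb10, tb14, tb0, tb2, tb4, tb6, tb8, tb10, tb14, tb0, tb2, tb4, tb6, tb8, tb10, tb14, tb0, tb2, tb4, tb6, tb8, tb10, tb14, tb0, tb2, tb4, tb6, tb8, tb10, tb14, tb0, tb2, tb4, tb6, tb8, tb10, tb14]) 0 19154 314 rel46_61 h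
  have h := PR.allR_chain (PR.fixF [tb0, tb2, tb4, tb6, tb8, tb10, tb14, tb0, tb2, tb4, tb6, tb8, tb10, tb14, tb0, tb2, tb4, tb6, tb8, tb10, tb14, tb0, tb2, tb4, tb6, tb8, tb10, tb14, tb0, tb2, tb4, tb6, tb8, tb10, tb14, tb0, tb2, tb4, tb6, tb8, tb10, tb14, tb0, tb2, tb4, tb6, tb8, tb10, tb14, tb0, tb2, tb4, tb6, tb8, tb10, tb14, tb0, tb2, tb4, tb6, tb8, tb10, tb14]) 0 19468 314 rel46_62 h
  have h := PR.allR_chain (PR.fixF [tb0, tb2, tb4, tb6, tb8, tb10, tb14, tb0, tb2, tb4, tb6, tb8, tb10, tb14, tb0, tb2, tb4, tb6, tb8, tb10, tb14, tb0, tb2, tb4, tb6, tb8, tb10, tb14, tb0, tb2, tb4, tb6, tb8, tb10, tb14, tb0, tb2, tb4, tb6, tb8, tb10, tb14, tb0, tb2, tb4, tb6, tb8, tb10, tb14, tb0, tb2, tb4, tb6, tb8, tb10, tb14, tb0, tb2, tb4, tb6, tb8, tb10, tb14]) 0 19782 314 rel46_63 h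
  have h := PR.allR_chain (PR.fixF [tb0, tb2, tb4, tb6, tb8, tb10, tb14, tb0, tb2, tb4, tb6, tb8, tb10, tb14, tb0, tb2, tb4, tb6, tb8, tb10, tb14, tb0, tb2, tb4, tb6, tb8, tb10, tb14, tb0, tb2, tb4, tb6, tb8, tb10, tb14, tb0, tb2, tb4, tb6, tb8, tb10, tb14, tb0, tb2, tb4, tb6, tb8, tb10, tb14, tb0, tb2, tb4, tb6, tb8, tb10, tb14, tb0, tb2, tb4, tb6, tb8, tb10, tb14]) 0 20096 314 rel46_64 h
  have h := PR.allR_chain (PR.fixF [tb0, tb2, tb4, tb6, tb8, tb10, tb14, tb0, tb2, tb4, tb6, tb8, tb10, tb14, tb0, tb2, tb4, tb6, tb8, tb10, tb14, tb0, tb2, tb4, tb6, tb8, tb10, tb14, tb0, tb2, tb4, tb6, tb8, tb10, tb14, tb0, tb2, tb4, tb6, tb8, tb10, tb14, tb0, tb2, tb4, tb6, tb8, tb10, tb14, tb0, tb2, tb4, tb6, tb8, tb10, tb14, tb0, tb2, tb4, tb6, tb8, tb10, tb14]) 0 20410 314 rel46_65 h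
  have h := PR.allR_chain (PR.fixF [tb0, tb2, tb4, tb6, tb8, tb10, tb14, tb0, tb2, tb4, tb6, tb8, tb10, tb14, tb0, tb2, tb4, tb6, tb8, tb10, tb14, tb0, tb2, tb4, tb6, tb8, tb10, tb14, tb0, tb2, tb4, tb6, tb8, tb10, tb14, tb0, tb2, tb4, tb6, tb8, tb10, tb14, tb0, tb2, tb4, tb6, tb8, tb10, tb14, tb0, tb2, tb4, tb6, tb8, tb10, tb14, tb0, tb2, tb4, tb6, tb8, tb10, tb14]) 0 20724 314 rel46_66 h
  have h := PR.allR_chain (PR.fixF [tb0, tb2, tb4, tb6, tb8, tb10, tb14, tb0, tb2, tb4, tb6, tb8, tb10, tb14, tb0, tb2, tb4, tb6, tb8, tb10, tb14, tb0, tb2, tb4, tb6, tb8, tb10, tb14, tb0, tb2, tb4, tb6, tb8, tb10, tb14, tb0, tb2, tb4, tb6, tb8, tb10, tb14, tb0, tb2, tb4, tb6, tb8, tb10, tb14, tb0, tb2, tb4, tb6, tb8, tb10, tb14, tb0, tb2, tb4, tb6, tb8, tb10, tb14]) 0 21038 314 rel46_67 h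
  have h := PR.allR_chain (PR.fixF [tb0, tb2, tb4, tb6, tb8, tb10, tb14, tb0, tb2, tb4, tb6, tb8, tb10, tb14, tb0, tb2, tb4, tb6, tb8, tb10, tb14, tb0, tb2, tb4, tb6, tb8, tb10, tb14, tb0, tb2, tb4, tb6, tb8, tb10, tb14, tb0, tb2, tb4, tb6, tb8, tb10, tb14, tb0, tb2, tb4, tb6, tb8, tb10, tb14, tb0, tb2, tb4, tb6, tb8, tb10, tb14, tb0, tb2, tb4, tb6, tb8, tb10, tb14]) 0 21352 314 rel46_68 h
  have h := PR.allR_chain (PR.fixF [tb0, tb2, tb4, tb6, tb8, tb10, tb14, tb0, tb2, tb4, tb6, tb8, tb10, tb14, tb0, tb2, tb4, tb6, tb8, tb10, tb14, tb0, tb2, tb4, tb6, tb8, tb10, tb14, tb0, tb2, tb4, tb6, tb8, tb10, tb14, tb0, tb2, tb4, tb6, tb8, tb10, tb14, tb0, tb2, tb4, tb6, tb8, tb10, tb14, tb0, tb2, tb4, tb6, tb8, tb10, tb14, tb0, tb2, tb4, tb6, tb8, tb10, tb14]) 0 21666 314 rel46_69 h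
  have h := PR.allR_chain (PR.fixF [tb0, tb2, tb4, tb6, tb8, tb10, tb14, tb0, tb2, tb4, tb6, tb8, tb10, tb14, tb0, tb2, tb4, tb6, tb8, tb10, tb14, tb0, tb2, tb4, tb6, tb8, tb10, tb14, tb0, tb2, tb4, tb6, tb8, tb10, tb14, tb0, tb2, tb4, tb6, tb8, tb10, tb14, tb0, tb2, tb4, tb6, tb8, tb10, tb14, tb0, tb2, tb4, tb6, tb8, tb10, tb14, tb0, tb2, tb4, tb6, tb8, tb10, tb14]) 0 21980 314 rel46_70 h
  have h := PR.allR_chain (PR.fixF [tb0, tb2, tb4, tb6, tb8, tb10, tb14, tb0, tb2, tb4, tb6, tb8, tb10, tb14, tb0, tb2, tb4, tb6, tb8, tb10, tb14, tb0, tb2, tb4, tb6, tb8, tb10, tb14, tb0, tb2, tb4, tb6, tb8, tb10, tb14, tb0, tb2, tb4, tb6, tb8, tb10, tb14, tb0, tb2, tb4, tb6, tb8, tb10, tb14, tb0, tb2, tb4, tb6, tb8, tb10, tb14, tb0, tb2, tb4, tb6, tb8, tb10, tb14]) 0 22294 314 rel46_71 h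
  have h := PR.allR_chain (PR.fixF [tb0, tb2, tb4, tb6, tb8, tb10, tb14, tb0, tb2, tb4, tb6, tb8, tb10, tb14, tb0, tb2, tb4, tb6, tb8, tb10, tb14, tb0, tb2, tb4, tb6, tb8, tb10, tb14, tb0, tb2, tb4, tb6, tb8, tb10, tb14, tb0, tb2, tb4, tb6, tb8, tb10, tb14, tb0, tb2, tb4, tb6, tb8, tb10, tb14, tb0, tb2, tb4, tb6, tb8, tb10, tb14, tb0, tb2, tb4, tb6, tb8, tb10, tb14]) 0 22608 314 rel46_72 h
  have h := PR.allR_chain (PR.fixF [tb0, tb2, tb4, tb6, tb8, tb10, tb14, tb0, tb2, tb4, tb6, tb8, tb10, tb14, tb0, tb2, tb4, tb6, tb8, tb10, tb14, tb0, tb2, tb4, tb6, tb8, tb10, tb14, tb0, tb2, tb4, tb6, tb8, tb10, tb14, tb0, tb2, tb4, tb6, tb8, tb10, tb14, tb0, tb2, tb4, tb6, tb8, tb10, tb14, tb0, tb2, tb4, tb6, tb8, tb10, tb14, tb0, tb2, tb4, tb6, tb8, tb10, tb14]) 0 22922 314 rel46_73 h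
  have h := PR.allR_chain (PR.fixF [tb0, tb2, tb4, tb6, tb8, tb10, tb14, tb0, tb2, tb4, tb6, tb8, tb10, tb14, tb0, tb2, tb4, tb6, tb8, tb10, tb14, tb0, tb2, tb4, tb6, tb8, tb10, tb14, tb0, tb2, tb4, tb6, tb8, tb10, tb14, tb0, tb2, tb4, tb6, tb8, tb10, tb14, tb0, tb2, tb4, tb6, tb8, tb10, tb14, tb0, tb2, tb4, tb6, tb8, tb10, tb14, tb0, tb2, tb4, tb6, tb8, tb10, tb14]) 0 23236 314 rel46_74 h
  have h := PR.allR_chain (PR.fixF [tb0, tb2, tb4, tb6, tb8, tb10, tb14, tb0, tb2, tb4, tb6, tb8, tb10, tb14, tb0, tb2, tb4, tb6, tb8, tb10, tb14, tb0, tb2, tb4, tb6, tb8, tb10, tb14, tb0, tb2, tb4, tb6, tb8, tb10, tb14, tb0, tb2, tb4, tb6, tb8, tb10, tb14, tb0, tb2, tb4, tb6, tb8, tb10, tb14, tb0, tb2, tb4, tb6, tb8, tb10, tb14, tb0, tb2, tb4, tb6, tb8, tb10, tb14]) 0 23550 314 rel46_75 h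
  have h := PR.allR_chain (PR.fixF [tb0, tb2, tb4, tb6, tb8, tb10, tb14, tb0, tb2, tb4, tb6, tb8, tb10, tb14, tb0, tb2, tb4, tb6, tb8, tb10, tb14, tb0, tb2, tb4, tb6, tb8, tb10, tb14, tb0, tb2, tb4, tb6, tb8, tb10, tb14, tb0, tb2, tb4, tb6, tb8, tb10, tb14, tb0, tb2, tb4, tb6, tb8, tb10, tb14, tb0, tb2, tb4, tb6, tb8, tb10, tb14, tb0, tb2, tb4, tb6, tb8, tb10, tb14]) 0 23864 314 rel46_76 h
  have h := PR.allR_chain (PR.fixF [tb0, tb2, tb4, tb6, tb8, tb10, tb14, tb0, tb2, tb4, tb6, tb8, tb10, tb14, tb0, tb2, tb4, tb6, tb8, tb10, tb14, tb0, tb2, tb4, tb6, tb8, tb10, tb14, tb0, tb2, tb4, tb6, tb8, tb10, tb14, tb0, tb2, tb4, tb6, tb8, tb10, tb14, tb0, tb2, tb4, tb6, tb8, tb10, tb14, tb0, tb2, tb4, tb6, tb8, tb10, tb14, tb0, tb2, tb4, tb6, tb8, tb10, tb14]) 0 24178 314 rel46_77 h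
  have h := PR.allR_chain (PR.fixF [tb0, tb2, tb4, tb6, tb8, tb10, tb14, tb0, tb2, tb4, tb6, tb8, tb10, tb14, tb0, tb2, tb4, tb6, tb8, tb10, tb14, tb0, tb2, tb4, tb6, tb8, tb10, tb14, tb0, tb2, tb4, tb6, tb8, tb10, tb14, tb0, tb2, tb4, tb6, tb8, tb10, tb14, tb0, tb2, tb4, tb6, tb8, tb10, tb14, tb0, tb2, tb4, tb6, tb8, tb10, tb14, tb0, tb2, tb4, tb6, tb8, tb10, tb14]) 0 24492 314 rel46_78 h
  have h := PR.allR_chain (PR.fixF [tb0, tb2, tb4, tb6, tb8, tb10, tb14, tb0, tb2, tb4, tb6, tb8, tb10, tb14, tb0, tb2, tb4, tb6, tb8, tb10, tb14, tb0, tb2, tb4, tb6, tb8, tb10, tb14, tb0, tb2, tb4, tb6, tb8, tb10, tb14, tb0, tb2, tb4, tb6, tb8, tb10, tb14, tb0, tb2, tb4, tb6, tb8, tb10, tb14, tb0, tb2, tb4, tb6, tb8, tb10, tb14, tb0, tb2, tb4, tb6, tb8, tb10, tb14]) 0 24806 314 rel46_79 h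
  have h := PR.allR_chain (PR.fixF [tb0, tb2, tb4, tb6, tb8, tb10, tb14, tb0, tb2, tb4, tb6, tb8, tb10, tb14, tb0, tb2, tb4, tb6, tb8, tb10, tb14, tb0, tb2, tb4, tb6, tb8, tb10, tb14, tb0, tb2, tb4, tb6, tb8, tb10, tb14, tb0, tb2, tb4, tb6, tb8, tb10, tb14, tb0, tb2, tb4, tb6, tb8, tb10, tb14, tb0, tb2, tb4, tb6, tb8, tb10, tb14, tb0, tb2, tb4, tb6, tb8, tb10, tb14]) 0 25120 314 rel46_80 h
  have h := PR.allR_chain (PR.fixF [tb0, tb2, tb4, tb6, tb8, tb10, tb14, tb0, tb2, tb4, tb6, tb8, tb10, tb14, tb0, tb2, tb4, tb6, tb8, tb10, tb14, tb0, tb2, tb4, tb6, tb8, tb10, tb14, tb0, tb2, tb4, tb6, tb8, tb10, tb14, tb0, tb2, tb4, tb6, tb8, tb10, tb14, tb0, tb2, tb4, tb6, tb8, tb10, tb14, tb0, tb2, tb4, tb6, tb8, tb10, tb14, tb0, tb2, tb4, tb6, tb8, tb10, tb14]) 0 25434 314 rel46_81 h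
  have h := PR.allR_chain (PR.fixF [tb0, tb2, tb4, tb6, tb8, tb10, tb14, tb0, tb2, tb4, tb6, tb8, tb10, tb14, tb0, tb2, tb4, tb6, tb8, tb10, tb14, tb0, tb2, tb4, tb6, tb8, tb10, tb14, tb0, tb2, tb4, tb6, tb8, tb10, tb14, tb0, tb2, tb4, tb6, tb8, tb10, tb14, tb0, tb2, tb4, tb6, tb8, tb10, tb14, tb0, tb2, tb4, tb6, tb8, tb10, tb14, tb0, tb2, tb4, tb6, tb8, tb10, tb14]) 0 25748 314 rel46_82 h
  have h := PR.allR_chain (PR.fixF [tb0, tb2, tb4, tb6, tb8, tb10, tb14, tb0, tb2, tb4, tb6, tb8, tb10, tb14, tb0, tb2, tb4, tb6, tb8, tb10, tb14, tb0, tb2, tb4, tb6, tb8, tb10, tb14, tb0, tb2, tb4, tb6, tb8, tb10, tb14, tb0, tb2, tb4, tb6, tb8, tb10, tb14, tb0, tb2, tb4, tb6, tb8, tb10, tb14, tb0, tb2, tb4, tb6, tb8, tb10, tb14, tb0, tb2, tb4, tb6, tb8, tb10, tb14]) 0 26062 314 rel46_83 h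
  have h := PR.allR_chain (PR.fixF [tb0, tb2, tb4, tb6, tb8, tb10, tb14, tb0, tb2, tb4, tb6, tb8, tb10, tb14, tb0, tb2, tb4, tb6, tb8, tb10, tb14, tb0, tb2, tb4, tb6, tb8, tb10, tb14, tb0, tb2, tb4, tb6, tb8, tb10, tb14, tb0, tb2, tb4, tb6, tb8, tb10, tb14, tb0, tb2, tb4, tb6, tb8, tb10, tb14, tb0, tb2, tb4, tb6, tb8, tb10, tb14, tb0, tb2, tb4, tb6, tb8, tb10, tb14]) 0 26376 314 rel46_84 h
  have h := PR.allR_chain (PR.fixF [tb0, tb2, tb4, tb6, tb8, tb10, tb14, tb0, tb2, tb4, tb6, tb8, tb10, tb14, tb0, tb2, tb4, tb6, tb8, tb10, tb14, tb0, tb2, tb4, tb6, tb8, tb10, tb14, tb0, tb2, tb4, tb6, tb8, tb10, tb14, tb0, tb2, tb4, tb6, tb8, tb10, tb14, tb0, tb2, tb4, tb6, tb8, tb10, tb14, tb0, tb2, tb4, tb6, tb8, tb10, tb14, tb0, tb2, tb4, tb6, tb8, tb10, tb14]) 0 26690 314 rel46_85 h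
  have h := PR.allR_chain (PR.fixF [tb0, tb2, tb4, tb6, tb8, tb10, tb14, tb0, tb2, tb4, tb6, tb8, tb10, tb14, tb0, tb2, tb4, tb6, tb8, tb10, tb14, tb0, tb2, tb4, tb6, tb8, tb10, tb14, tb0, tb2, tb4, tb6, tb8, tb10, tb14, tb0, tb2, tb4, tb6, tb8, tb10, tb14, tb0, tb2, tb4, tb6, tb8, tb10, tb14, tb0, tb2, tb4, tb6, tb8, tb10, tb14, tb0, tb2, tb4, tb6, tb8, tb10, tb14]) 0 27004 314 rel46_86 h
  have h := PR.allR_chain (PR.fixF [tb0, tb2, tb4, tb6, tb8, tb10, tb14, tb0, tb2, tb4, tb6, tb8, tb10, tb14, tb0, tb2, tb4, tb6, tb8, tb10, tb14, tb0, tb2, tb4, tb6, tb8, tb10, tb14, tb0, tb2, tb4, tb6, tb8, tb10, tb14, tb0, tb2, tb4, tb6, tb8, tb10, tb14, tb0, tb2, tb4, tb6, tb8, tb10, tb14, tb0, tb2, tb4, tb6, tb8, tb10, tb14, tb0, tb2, tb4, tb6, tb8, tb10, tb14]) 0 27318 314 rel46_87 h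
  have h := PR.allR_chain (PR.fixF [tb0, tb2, tb4, tb6, tb8, tb10, tb14, tb0, tb2, tb4, tb6, tb8, tb10, tb14, tb0, tb2, tb4, tb6, tb8, tb10, tb14, tb0, tb2, tb4, tb6, tb8, tb10, tb14, tb0, tb2, tb4, tb6, tb8, tb10, tb14, tb0, tb2, tb4, tb6, tb8, tb10, tb14, tb0, tb2, tb4, tb6, tb8, tb10, tb14, tb0, tb2, tb4, tb6, tb8, tb10, tb14, tb0, tb2, tb4, tb6, tb8, tb10, tb14]) 0 27632 314 rel46_88 h
  have h := PR.allR_chain (PR.fixF [tb0, tb2, tb4, tb6, tb8, tb10, tb14, tb0, tb2, tb4, tb6, tb8, tb10, tb14, tb0, tb2, tb4, tb6, tb8, tb10, tb14, tb0, tb2, tb4, tb6, tb8, tb10, tb14, tb0, tb2, tb4, tb6, tb8, tb10, tb14, tb0, tb2, tb4, tb6, tb8, tb10, tb14, tb0, tb2, tb4, tb6, tb8, tb10, tb14, tb0, tb2, tb4, tb6, tb8, tb10, tb14, tb0, tb2, tb4, tb6, tb8, tb10, tb14]) 0 27946 314 rel46_89 h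
  have h := PR.allR_chain (PR.fixF [tb0, tb2, tb4, tb6, tb8, tb10, tb14, tb0, tb2, tb4, tb6, tb8, tb10, tb14, tb0, tb2, tb4, tb6, tb8, tb10, tb14, tb0, tb2, tb4, tb6, tb8, tb10, tb14, tb0, tb2, tb4, tb6, tb8, tb10, tb14, tb0, tb2, tb4, tb6, tb8, tb10, tb14, tb0, tb2, tb4, tb6, tb8, tb10, tb14, tb0, tb2, tb4, tb6, tb8, tb10, tb14, tb0, tb2, tb4, tb6, tb8, tb10, tb14]) 0 28260 314 rel46_90 h
  have h := PR.allR_chain (PR.fixF [tb0, tb2, tb4, tb6, tb8, tb10, tb14, tb0, tb2, tb4, tb6, tb8, tb10, tb14, tb0, tb2, tb4, tb6, tb8, tb10, tb14, tb0, tb2, tb4, tb6, tb8, tb10, tb14, tb0, tb2, tb4, tb6, tb8, tb10, tb14, tb0, tb2, tb4, tb6, tb8, tb10, tb14, tb0, tb2, tb4, tb6, tb8, tb10, tb14, tb0, tb2, tb4, tb6, tb8, tb10, tb14, tb0, tb2, tb4, tb6, tb8, tb10, tb14]) 0 28574 314 rel46_91 h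
  have h := PR.allR_chain (PR.fixF [tb0, tb2, tb4, tb6, tb8, tb10, tb14, tb0, tb2, tb4, tb6, tb8, tb10, tb14, tb0, tb2, tb4, tb6, tb8, tb10, tb14, tb0, tb2, tb4, tb6, tb8, tb10, tb14, tb0, tb2, tb4, tb6, tb8, tb10, tb14, tb0, tb2, tb4, tb6, tb8, tb10, tb14, tb0, tb2, tb4, tb6, tb8, tb10, tb14, tb0, tb2, tb4, tb6, tb8, tb10, tb14, tb0, tb2, tb4, tb6, tb8, tb10, tb14]) 0 28888 314 rel46_92 h
  have h := PR.allR_chain (PR.fixF [tb0, tb2, tb4, tb6, tb8, tb10, tb14, tb0, tb2, tb4, tb6, tb8, tb10, tb14, tb0, tb2, tb4, tb6, tb8, tb10, tb14, tb0, tb2, tb4, tb6, tb8, tb10, tb14, tb0, tb2, tb4, tb6, tb8, tb10, tb14, tb0, tb2, tb4, tb6, tb8, tb10, tb14, tb0, tb2, tb4, tb6, tb8, tb10, tb14, tb0, tb2, tb4, tb6, tb8, tb10, tb14, tb0, tb2, tb4, tb6, tb8, tb10, tb14]) 0 29202 314 rel46_93 h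
  have h := PR.allR_chain (PR.fixF [tb0, tb2, tb4, tb6, tb8, tb10, tb14, tb0, tb2, tb4, tb6, tb8, tb10, tb14, tb0, tb2, tb4, tb6, tb8, tb10, tb14, tb0, tb2, tb4, tb6, tb8, tb10, tb14, tb0, tb2, tb4, tb6, tb8, tb10, tb14, tb0, tb2, tb4, tb6, tb8, tb10, tb14, tb0, tb2, tb4, tb6, tb8, tb10, tb14, tb0, tb2, tb4, tb6, tb8, tb10, tb14, tb0, tb2, tb4, tb6, tb8, tb10, tb14]) 0 29516 314 rel46_94 h
  have h := PR.allR_chain (PR.fixF [tb0, tb2, tb4, tb6, tb8, tb10, tb14, tb0, tb2, tb4, tb6, tb8, tb10, tb14, tb0, tb2, tb4, tb6, tb8, tb10, tb14, tb0, tb2, tb4, tb6, tb8, tb10, tb14, tb0, tb2, tb4, tb6, tb8, tb10, tb14, tb0, tb2, tb4, tb6, tb8, tb10, tb14, tb0, tb2, tb4, tb6, tb8, tb10, tb14, tb0, tb2, tb4, tb6, tb8, tb10, tb14, tb0, tb2, tb4, tb6, tb8, tb10, tb14]) 0 29830 314 rel46_95 h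
  have h := PR.allR_chain (PR.fixF [tb0, tb2, tb4, tb6, tb8, tb10, tb14, tb0, tb2, tb4, tb6, tb8, tb10, tb14, tb0, tb2, tb4, tb6, tb8, tb10, tb14, tb0, tb2, tb4, tb6, tb8, tb10, tb14, tb0, tb2, tb4, tb6, tb8, tb10, tb14, tb0, tb2, tb4, tb6, tb8, tb10, tb14, tb0, tb2, tb4, tb6, tb8, tb10, tb14, tb0, tb2, tb4, tb6, tb8, tb10, tb14, tb0, tb2, tb4, tb6, tb8, tb10, tb14]) 0 30144 314 rel46_96 h
  have h := PR.allR_chain (PR.fixF [tb0, tb2, tb4, tb6, tb8, tb10, tb14, tb0, tb2, tb4, tb6, tb8, tb10, tb14, tb0, tb2, tb4, tb6, tb8, tb10, tb14, tb0, tb2, tb4, tb6, tb8, tb10, tb14, tb0, tb2, tb4, tb6, tb8, tb10, tb14, tb0, tb2, tb4, tb6, tb8, tb10, tb14, tb0, tb2, tb4, tb6, tb8, tb10, tb14, tb0, tb2, tb4, tb6, tb8, tb10, tb14, tb0, tb2, tb4, tb6, tb8, tb10, tb14]) 0 30458 314 rel46_97 h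
  have h := PR.allR_chain (PR.fixF [tb0, tb2, tb4, tb6, tb8, tb10, tb14, tb0, tb2, tb4, tb6, tb8, tb10, tb14, tb0, tb2, tb4, tb6, tb8, tb10, tb14, tb0, tb2, tb4, tb6, tb8, tb10, tb14, tb0, tb2, tb4, tb6, tb8, tb10, tb14, tb0, tb2, tb4, tb6, tb8, tb10, tb14, tb0, tb2, tb4, tb6, tb8, tb10, tb14, tb0, tb2, tb4, tb6, tb8, tb10, tb14, tb0, tb2, tb4, tb6, tb8, tb10, tb14]) 0 30772 314 rel46_98 h
  have h := PR.allR_chain (PR.fixF [tb0, tb2, tb4, tb6, tb8, tb10, tb14, tb0, tb2, tb4, tb6, tb8, tb10, tb14, tb0, tb2, tb4, tb6, tb8, tb10, tb14, tb0, tb2, tb4, tb6, tb8, tb10, tb14, tb0, tb2, tb4, tb6, tb8, tb10, tb14, tb0, tb2, tb4, tb6, tb8, tb10, tb14, tb0, tb2, tb4, tb6, tb8, tb10, tb14, tb0, tb2, tb4, tb6, tb8, tb10, tb14, tb0, tb2, tb4, tb6, tb8, tb10, tb14]) 0 31086 314 rel46_99 h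
  have h := PR.allR_chain (PR.fixF [tb0, tb2, tb4, tb6, tb8, tb10, tb14, tb0, tb2, tb4, tb6, tb8, tb10, tb14, tb0, tb2, tb4, tb6, tb8, tb10, tb14, tb0, tb2, tb4, tb6, tb8, tb10, tb14, tb0, tb2, tb4, tb6, tb8, tb10, tb14, tb0, tb2, tb4, tb6, tb8, tb10, tb14, tb0, tb2, tb4, tb6, tb8, tb10, tb14, tb0, tb2, tb4, tb6, tb8, tb10, tb14, tb0, tb2, tb4, tb6, tb8, tb10, tb14]) 0 31400 271 rel46_100 h
  exact h

theorem mp0_0 : ∀ u, 0 ≤ u → u < 1 → PR.mapsF [tb0] 0 0 u = true := by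
  have h : ∀ u, 0 ≤ u → u < 0 → PR.mapsF [tb0] 0 0 u = true := fun u h1 h2 => absurd h2 (by omega)
  have h := PR.allR_chain (PR.mapsF [tb0] 0 0) 0 0 1 mp0_0_0 h
  exact h

theorem mp0_1 : ∀ u, 0 ≤ u → u < 1 → PR.mapsF [tb2] 0 0 u = true := by
  have h : ∀ u, 0 ≤ u → u < 0 → PR.mapsF [tb2] 0 0 u = true := fun u h1 h2 => absurd h2 (by omega)
  have h := PR.allR_chain (PR.mapsF [tb2] 0 0) 0 0 1 mp0_1_0 h
  exact h

theorem mp0_2 : ∀ u, 0 ≤ u → u < 1 → PR.mapsF [tb4] 0 0 u = true := by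
  have h : ∀ u, 0 ≤ u → u < 0 → PR.mapsF [tb4] 0 0 u = true := fun u h1 h2 => absurd h2 (by omega)
  have h := PR.allR_chain (PR.mapsF [tb4] 0 0) 0 0 1 mp0_2_0 h
  exact h

theorem mp0_3 : ∀ u, 0 ≤ u → u < 1 → PR.mapsF [tb6] 0 0 u = true := by
  have h : ∀ u, 0 ≤ u → u < 0 → PR.mapsF [tb6] 0 0 u = true := fun u h1 h2 => absurd h2 (by omega)
  have h := PR.allR_chain (PR.mapsF [tb6] 0 0) 0 0 1 mp0_3_0 h
  exact h

theorem mp0_4 : ∀ u, 0 ≤ u → u < 1 → PR.mapsF [tb8] 0 0 u = true := by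
  have h : ∀ u, 0 ≤ u → u < 0 → PR.mapsF [tb8] 0 0 u = true := fun u h1 h2 => absurd h2 (by omega)
  have h := PR.allR_chain (PR.mapsF [tb8] 0 0) 0 0 1 mp0_4_0 h
  exact h

theorem mp0_5 : ∀ u, 0 ≤ u → u < 1 → PR.mapsF [tb10] 0 0 u = true := by
  have h : ∀ u, 0 ≤ u → u < 0 → PR.mapsF [tb10] 0 0 u = true := fun u h1 h2 => absurd h2 (by omega)
  have h := PR.allR_chain (PR.mapsF [tb10] 0 0) 0 0 1 mp0_5_0 h
  exact h

theorem mp0_6 : ∀ u, 0 ≤ u → u < 1 → PR.mapsF [tb12] 0 0 u = true := by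
  have h : ∀ u, 0 ≤ u → u < 0 → PR.mapsF [tb12] 0 0 u = true := fun u h1 h2 => absurd h2 (by omega)
  have h := PR.allR_chain (PR.mapsF [tb12] 0 0) 0 0 1 mp0_6_0 h
  exact h

theorem mp0_7 : ∀ u, 0 ≤ u → u < 1 → PR.mapsF [tb14] 0 0 u = true := by
  have h : ∀ u, 0 ≤ u → u < 0 → PR.mapsF [tb14] 0 0 u = true := fun u h1 h2 => absurd h2 (by omega)
  have h := PR.allR_chain (PR.mapsF [tb14] 0 0) 0 0 1 mp0_7_0 h
  exact h

theorem mp0_8 : ∀ u, 0 ≤ u → u < 1 → PR.mapsF [tb16] 0 0 u = true := by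
  have h : ∀ u, 0 ≤ u → u < 0 → PR.mapsF [tb16] 0 0 u = true := fun u h1 h2 => absurd h2 (by omega)
  have h := PR.allR_chain (PR.mapsF [tb16] 0 0) 0 0 1 mp0_8_0 h
  exact h

theorem tre0 : ∀ u, 1 ≤ u → u < 1 → PR.treeF tbW [[tb0], [tb2], [tb4], [tb6], [tb8], [tb10], [tb12], [tb14], [tb16]] 0 u = true := by
  have h : ∀ u, 1 ≤ u → u < 1 → PR.treeF tbW [[tb0], [tb2], [tb4], [tb6], [tb8], [tb10], [tb12], [tb14], [tb16]] 0 u = true := fun u h1 h2 => absurd h2 (by omega)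
  exact h

theorem mp1_0 : ∀ u, 1 ≤ u → u < 28161 → PR.mapsF [tb0] 1 28160 u = true := by
  have h : ∀ u, 1 ≤ u → u < 1 → PR.mapsF [tb0] 1 28160 u = true := fun u h1 h2 => absurd h2 (by omega)
  have h := PR.allR_chain (PR.mapsF [tb0] 1 28160) 1 1 19814 mp1_0_0 h
  have h := PR.allR_chain (PR.mapsF [tb0] 1 28160) 1 19815 8346 mp1_0_1 h
  exact h

theorem mp1_1 : ∀ u, 1 ≤ u → u < 28161 → PR.mapsF [tb2] 1 28160 u = true := by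
  have h : ∀ u, 1 ≤ u → u < 1 → PR.mapsF [tb2] 1 28160 u = true := fun u h1 h2 => absurd h2 (by omega)
  have h := PR.allR_chain (PR.mapsF [tb2] 1 28160) 1 1 19814 mp1_1_0 h
  have h := PR.allR_chain (PR.mapsF [tb2] 1 28160) 1 19815 8346 mp1_1_1 h
  exact h

theorem mp1_2 : ∀ u, 1 ≤ u → u < 28161 → PR.mapsF [tb4] 1 28160 u = true := by
  have h : ∀ u, 1 ≤ u → u < 1 → PR.mapsF [tb4] 1 28160 u = true := fun u h1 h2 => absurd h2 (by omega)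
  have h := PR.allR_chain (PR.mapsF [tb4] 1 28160) 1 1 19814 mp1_2_0 h
  have h := PR.allR_chain (PR.mapsF [tb4] 1 28160) 1 19815 8346 mp1_2_1 h
  exact h

theorem mp1_3 : ∀ u, 1 ≤ u → u < 28161 → PR.mapsF [tb6] 1 28160 u = true := by
  have h : ∀ u, 1 ≤ u → u < 1 → PR.mapsF [tb6] 1 28160 u = true := fun u h1 h2 => absurd h2 (by omega)
  have h := PR.allR_chain (PR.mapsF [tb6] 1 28160) 1 1 19814 mp1_3_0 h
  have h := PR.allR_chain (PR.mapsF [tb6] 1 28160) 1 19815 8346 mp1_3_1 h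
  exact h

theorem mp1_4 : ∀ u, 1 ≤ u → u < 28161 → PR.mapsF [tb8] 1 28160 u = true := by
  have h : ∀ u, 1 ≤ u → u < 1 → PR.mapsF [tb8] 1 28160 u = true := fun u h1 h2 => absurd h2 (by omega)
  have h := PR.allR_chain (PR.mapsF [tb8] 1 28160) 1 1 19814 mp1_4_0 h
  have h := PR.allR_chain (PR.mapsF [tb8] 1 28160) 1 19815 8346 mp1_4_1 h
  exact h

theorem mp1_5 : ∀ u, 1 ≤ u → u < 28161 → PR.mapsF [tb10] 1 28160 u = true := by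
  have h : ∀ u, 1 ≤ u → u < 1 → PR.mapsF [tb10] 1 28160 u = true := fun u h1 h2 => absurd h2 (by omega)
  have h := PR.allR_chain (PR.mapsF [tb10] 1 28160) 1 1 19814 mp1_5_0 h
  have h := PR.allR_chain (PR.mapsF [tb10] 1 28160) 1 19815 8346 mp1_5_1 h
  exact h

theorem mp1_6 : ∀ u, 1 ≤ u → u < 28161 → PR.mapsF [tb12] 1 28160 u = true := by
  have h : ∀ u, 1 ≤ u → u < 1 → PR.mapsF [tb12] 1 28160 u = true := fun u h1 h2 => absurd h2 (by omega)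
  have h := PR.allR_chain (PR.mapsF [tb12] 1 28160) 1 1 19814 mp1_6_0 h
  have h := PR.allR_chain (PR.mapsF [tb12] 1 28160) 1 19815 8346 mp1_6_1 h
  exact h

theorem mp1_7 : ∀ u, 1 ≤ u → u < 28161 → PR.mapsF [tb14] 1 28160 u = true := by
  have h : ∀ u, 1 ≤ u → u < 1 → PR.mapsF [tb14] 1 28160 u = true := fun u h1 h2 => absurd h2 (by omega)
  have h := PR.allR_chain (PR.mapsF [tb14] 1 28160) 1 1 19814 mp1_7_0 h
  have h := PR.allR_chain (PR.mapsF [tb14] 1 28160) 1 19815 8346 mp1_7_1 h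
  exact h

theorem mp1_8 : ∀ u, 1 ≤ u → u < 28161 → PR.mapsF [tb16] 1 28160 u = true := by
  have h : ∀ u, 1 ≤ u → u < 1 → PR.mapsF [tb16] 1 28160 u = true := fun u h1 h2 => absurd h2 (by omega)
  have h := PR.allR_chain (PR.mapsF [tb16] 1 28160) 1 1 19814 mp1_8_0 h
  have h := PR.allR_chain (PR.mapsF [tb16] 1 28160) 1 19815 8346 mp1_8_1 h
  exact h

theorem tre1 : ∀ u, 2 ≤ u → u < 28161 → PR.treeF tbW [[tb0], [tb2], [tb4], [tb6], [tb8], [tb10], [tb12], [tb14], [tb16]] 1 u = true := by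
  have h : ∀ u, 2 ≤ u → u < 2 → PR.treeF tbW [[tb0], [tb2], [tb4], [tb6], [tb8], [tb10], [tb12], [tb14], [tb16]] 1 u = true := fun u h1 h2 => absurd h2 (by omega)
  have h := PR.allR_chain (PR.treeF tbW [[tb0], [tb2], [tb4], [tb6], [tb8], [tb10], [tb12], [tb14], [tb16]] 1) 2 2 6604 tre1_0 h
  have h := PR.allR_chain (PR.treeF tbW [[tb0], [tb2], [tb4], [tb6], [tb8], [tb10], [tb12], [tb14], [tb16]] 1) 2 6606 6604 tre1_1 h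
  have h := PR.allR_chain (PR.treeF tbW [[tb0], [tb2], [tb4], [tb6], [tb8], [tb10], [tb12], [tb14], [tb16]] 1) 2 13210 6604 tre1_2 h
  have h := PR.allR_chain (PR.treeF tbW [[tb0], [tb2], [tb4], [tb6], [tb8], [tb10], [tb12], [tb14], [tb16]] 1) 2 19814 6604 tre1_3 h
  have h := PR.allR_chain (PR.treeF tbW [[tb0], [tb2], [tb4], [tb6], [tb8], [tb10], [tb12], [tb14], [tb16]] 1) 2 26418 1743 tre1_4 h
  exact h

theorem mp2_0 : ∀ u, 28161 ≤ u → u < 31671 → PR.mapsF [tb0] 28161 31670 u = true := by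
  have h : ∀ u, 28161 ≤ u → u < 28161 → PR.mapsF [tb0] 28161 31670 u = true := fun u h1 h2 => absurd h2 (by omega)
  have h := PR.allR_chain (PR.mapsF [tb0] 28161 31670) 28161 28161 3510 mp2_0_0 h
  exact h

theorem mp2_1 : ∀ u, 28161 ≤ u → u < 31671 → PR.mapsF [tb2] 28161 31670 u = true := by
  have h : ∀ u, 28161 ≤ u → u < 28161 → PR.mapsF [tb2] 28161 31670 u = true := fun u h1 h2 => absurd h2 (by omega)
  have h := PR.allR_chain (PR.mapsF [tb2] 28161 31670) 28161 28161 3510 mp2_1_0 h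
  exact h

theorem mp2_2 : ∀ u, 28161 ≤ u → u < 31671 → PR.mapsF [tb4] 28161 31670 u = true := by
  have h : ∀ u, 28161 ≤ u → u < 28161 → PR.mapsF [tb4] 28161 31670 u = true := fun u h1 h2 => absurd h2 (by omega)
  have h := PR.allR_chain (PR.mapsF [tb4] 28161 31670) 28161 28161 3510 mp2_2_0 h
  exact h

theorem mp2_3 : ∀ u, 28161 ≤ u → u < 31671 → PR.mapsF [tb6] 28161 31670 u = true := by
  have h : ∀ u, 28161 ≤ u → u < 28161 → PR.mapsF [tb6] 28161 31670 u = true := fun u h1 h2 => absurd h2 (by omega)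
  have h := PR.allR_chain (PR.mapsF [tb6] 28161 31670) 28161 28161 3510 mp2_3_0 h
  exact h

theorem mp2_4 : ∀ u, 28161 ≤ u → u < 31671 → PR.mapsF [tb8] 28161 31670 u = true := by
  have h : ∀ u, 28161 ≤ u → u < 28161 → PR.mapsF [tb8] 28161 31670 u = true := fun u h1 h2 => absurd h2 (by omega)
  have h := PR.allR_chain (PR.mapsF [tb8] 28161 31670) 28161 28161 3510 mp2_4_0 h
  exact h

theorem mp2_5 : ∀ u, 28161 ≤ u → u < 31671 → PR.mapsF [tb10] 28161 31670 u = true := by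
  have h : ∀ u, 28161 ≤ u → u < 28161 → PR.mapsF [tb10] 28161 31670 u = true := fun u h1 h2 => absurd h2 (by omega)
  have h := PR.allR_chain (PR.mapsF [tb10] 28161 31670) 28161 28161 3510 mp2_5_0 h
  exact h

theorem mp2_6 : ∀ u, 28161 ≤ u → u < 31671 → PR.mapsF [tb12] 28161 31670 u = true := by
  have h : ∀ u, 28161 ≤ u → u < 28161 → PR.mapsF [tb12] 28161 31670 u = true := fun u h1 h2 => absurd h2 (by omega)
  have h := PR.allR_chain (PR.mapsF [tb12] 28161 31670) 28161 28161 3510 mp2_6_0 h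
  exact h

theorem mp2_7 : ∀ u, 28161 ≤ u → u < 31671 → PR.mapsF [tb14] 28161 31670 u = true := by
  have h : ∀ u, 28161 ≤ u → u < 28161 → PR.mapsF [tb14] 28161 31670 u = true := fun u h1 h2 => absurd h2 (by omega)
  have h := PR.allR_chain (PR.mapsF [tb14] 28161 31670) 28161 28161 3510 mp2_7_0 h
  exact h

theorem mp2_8 : ∀ u, 28161 ≤ u → u < 31671 → PR.mapsF [tb16] 28161 31670 u = true := by
  have h : ∀ u, 28161 ≤ u → u < 28161 → PR.mapsF [tb16] 28161 31670 u = true := fun u h1 h2 => absurd h2 (by omega)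
  have h := PR.allR_chain (PR.mapsF [tb16] 28161 31670) 28161 28161 3510 mp2_8_0 h
  exact h

theorem tre2 : ∀ u, 28162 ≤ u → u < 31671 → PR.treeF tbW [[tb0], [tb2], [tb4], [tb6], [tb8], [tb10], [tb12], [tb14], [tb16]] 28161 u = true := by
  have h : ∀ u, 28162 ≤ u → u < 28162 → PR.treeF tbW [[tb0], [tb2], [tb4], [tb6], [tb8], [tb10], [tb12], [tb14], [tb16]] 28161 u = true := fun u h1 h2 => absurd h2 (by omega)
  have h := PR.allR_chain (PR.treeF tbW [[tb0], [tb2], [tb4], [tb6], [tb8], [tb10], [tb12], [tb14], [tb16]] 28161) 28162 28162 3509 tre2_0 h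
  exact h

theorem tables : PR.Tables 31671 tbl (fun l => l) Ls := by
  refine ⟨?_, fun l hl => hl, ?_, ?_⟩
  · intro l hl
    simp only [Ls, List.mem_cons, List.mem_nil_iff, or_false] at hl
    rcases hl with rfl | rfl | rfl | rfl | rfl | rfl | rfl | rfl | rfl | rfl
    · exact fun u hu => Nat.lt_of_le_of_lt ((PR.mapsF_iff _ _ _ _).mp (rng0 u (Nat.zero_le _) hu)).2 (by norm_num)
    · exact fun u hu => Nat.lt_of_le_of_lt ((PR.mapsF_iff _ _ _ _).mp (rng2 u (Nat.zero_le _) hu)).2 (by norm_num)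
    · exact fun u hu => Nat.lt_of_le_of_lt ((PR.mapsF_iff _ _ _ _).mp (rng4 u (Nat.zero_le _) hu)).2 (by norm_num)
    · exact fun u hu => Nat.lt_of_le_of_lt ((PR.mapsF_iff _ _ _ _).mp (rng6 u (Nat.zero_le _) hu)).2 (by norm_num)
    · exact fun u hu => Nat.lt_of_le_of_lt ((PR.mapsF_iff _ _ _ _).mp (rng8 u (Nat.zero_le _) hu)).2 (by norm_num)
    · exact fun u hu => Nat.lt_of_le_of_lt ((PR.mapsF_iff _ _ _ _).mp (rng10 u (Nat.zero_le _) hu)).2 (by norm_num)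
    · exact fun u hu => Nat.lt_of_le_of_lt ((PR.mapsF_iff _ _ _ _).mp (rng12 u (Nat.zero_le _) hu)).2 (by norm_num)
    · exact fun u hu => Nat.lt_of_le_of_lt ((PR.mapsF_iff _ _ _ _).mp (rng14 u (Nat.zero_le _) hu)).2 (by norm_num)
    · exact fun u hu => Nat.lt_of_le_of_lt ((PR.mapsF_iff _ _ _ _).mp (rng16 u (Nat.zero_le _) hu)).2 (by norm_num)
    · exact fun u hu => Nat.lt_of_le_of_lt ((PR.mapsF_iff _ _ _ _).mp (rng18 u (Nat.zero_le _) hu)).2 (by norm_num)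
  · intro l hl
    simp only [Ls, List.mem_cons, List.mem_nil_iff, or_false] at hl
    rcases hl with rfl | rfl | rfl | rfl | rfl | rfl | rfl | rfl | rfl | rfl
    · exact fun u hu => (PR.fixF_iff _ _).mp (sq0 u (Nat.zero_le _) hu)
    · exact fun u hu => (PR.fixF_iff _ _).mp (sq2 u (Nat.zero_le _) hu)
    · exact fun u hu => (PR.fixF_iff _ _).mp (sq4 u (Nat.zero_le _) hu)
    · exact fun u hu => (PR.fixF_iff _ _).mp (sq6 u (Nat.zero_le _) hu)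
    · exact fun u hu => (PR.fixF_iff _ _).mp (sq8 u (Nat.zero_le _) hu)
    · exact fun u hu => (PR.fixF_iff _ _).mp (sq10 u (Nat.zero_le _) hu)
    · exact fun u hu => (PR.fixF_iff _ _).mp (sq12 u (Nat.zero_le _) hu)
    · exact fun u hu => (PR.fixF_iff _ _).mp (sq14 u (Nat.zero_le _) hu)
    · exact fun u hu => (PR.fixF_iff _ _).mp (sq16 u (Nat.zero_le _) hu)
    · exact fun u hu => (PR.fixF_iff _ _).mp (sq18 u (Nat.zero_le _) hu)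
  · intro l hl
    simp only [Ls, List.mem_cons, List.mem_nil_iff, or_false] at hl
    rcases hl with rfl | rfl | rfl | rfl | rfl | rfl | rfl | rfl | rfl | rfl
    · exact fun u hu => (PR.fixF_iff _ _).mp (sq0 u (Nat.zero_le _) hu)
    · exact fun u hu => (PR.fixF_iff _ _).mp (sq2 u (Nat.zero_le _) hu)
    · exact fun u hu => (PR.fixF_iff _ _).mp (sq4 u (Nat.zero_le _) hu)
    · exact fun u hu => (PR.fixF_iff _ _).mp (sq6 u (Nat.zero_le _) hu)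
    · exact fun u hu => (PR.fixF_iff _ _).mp (sq8 u (Nat.zero_le _) hu)
    · exact fun u hu => (PR.fixF_iff _ _).mp (sq10 u (Nat.zero_le _) hu)
    · exact fun u hu => (PR.fixF_iff _ _).mp (sq12 u (Nat.zero_le _) hu)
    · exact fun u hu => (PR.fixF_iff _ _).mp (sq14 u (Nat.zero_le _) hu)
    · exact fun u hu => (PR.fixF_iff _ _).mp (sq16 u (Nat.zero_le _) hu)
    · exact fun u hu => (PR.fixF_iff _ _).mp (sq18 u (Nat.zero_le _) hu)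

theorem relsOK : ∀ r ∈ coxW ++ extraW, ∀ u < 31671, PR.trace (r.map tbl) u = u := by
  intro r hr
  simp only [coxW, extraW, List.mem_append, List.mem_cons, List.mem_nil_iff, or_false, or_assoc] at hr
  rcases hr with rfl | rfl | rfl | rfl | rfl | rfl | rfl | rfl | rfl | rfl | rfl | rfl | rfl | rfl | rfl | rfl | rfl | rfl | rfl | rfl | rfl | rfl | rfl | rfl | rfl | rfl | rfl | rfl | rfl | rfl | rfl | rfl | rfl | rfl | rfl | rfl | rfl | rfl | rfl | rfl | rfl | rfl | rfl | rfl | rfl | rfl | rfl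
  · exact fun u hu => (PR.fixF_iff _ _).mp (rel0 u (Nat.zero_le _) hu)
  · exact fun u hu => (PR.fixF_iff _ _).mp (rel1 u (Nat.zero_le _) hu)
  · exact fun u hu => (PR.fixF_iff _ _).mp (rel2 u (Nat.zero_le _) hu)
  · exact fun u hu => (PR.fixF_iff _ _).mp (rel3 u (Nat.zero_le _) hu)
  · exact fun u hu => (PR.fixF_iff _ _).mp (rel4 u (Nat.zero_le _) hu)
  · exact fun u hu => (PR.fixF_iff _ _).mp (rel5 u (Nat.zero_le _) hu)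
  · exact fun u hu => (PR.fixF_iff _ _).mp (rel6 u (Nat.zero_le _) hu)
  · exact fun u hu => (PR.fixF_iff _ _).mp (rel7 u (Nat.zero_le _) hu)
  · exact fun u hu => (PR.fixF_iff _ _).mp (rel8 u (Nat.zero_le _) hu)
  · exact fun u hu => (PR.fixF_iff _ _).mp (rel9 u (Nat.zero_le _) hu)
  · exact fun u hu => (PR.fixF_iff _ _).mp (rel10 u (Nat.zero_le _) hu)
  · exact fun u hu => (PR.fixF_iff _ _).mp (rel11 u (Nat.zero_le _) hu)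
  · exact fun u hu => (PR.fixF_iff _ _).mp (rel12 u (Nat.zero_le _) hu)
  · exact fun u hu => (PR.fixF_iff _ _).mp (rel13 u (Nat.zero_le _) hu)
  · exact fun u hu => (PR.fixF_iff _ _).mp (rel14 u (Nat.zero_le _) hu)
  · exact fun u hu => (PR.fixF_iff _ _).mp (rel15 u (Nat.zero_le _) hu)
  · exact fun u hu => (PR.fixF_iff _ _).mp (rel16 u (Nat.zero_le _) hu)
  · exact fun u hu => (PR.fixF_iff _ _).mp (rel17 u (Nat.zero_le _) hu)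
  · exact fun u hu => (PR.fixF_iff _ _).mp (rel18 u (Nat.zero_le _) hu)
  · exact fun u hu => (PR.fixF_iff _ _).mp (rel19 u (Nat.zero_le _) hu)
  · exact fun u hu => (PR.fixF_iff _ _).mp (rel20 u (Nat.zero_le _) hu)
  · exact fun u hu => (PR.fixF_iff _ _).mp (rel21 u (Nat.zero_le _) hu)
  · exact fun u hu => (PR.fixF_iff _ _).mp (rel22 u (Nat.zero_le _) hu)
  · exact fun u hu => (PR.fixF_iff _ _).mp (rel23 u (Nat.zero_le _) hu)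
  · exact fun u hu => (PR.fixF_iff _ _).mp (rel24 u (Nat.zero_le _) hu)
  · exact fun u hu => (PR.fixF_iff _ _).mp (rel25 u (Nat.zero_le _) hu)
  · exact fun u hu => (PR.fixF_iff _ _).mp (rel26 u (Nat.zero_le _) hu)
  · exact fun u hu => (PR.fixF_iff _ _).mp (rel27 u (Nat.zero_le _) hu)
  · exact fun u hu => (PR.fixF_iff _ _).mp (rel28 u (Nat.zero_le _) hu)
  · exact fun u hu => (PR.fixF_iff _ _).mp (rel29 u (Nat.zero_le _) hu)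
  · exact fun u hu => (PR.fixF_iff _ _).mp (rel30 u (Nat.zero_le _) hu)
  · exact fun u hu => (PR.fixF_iff _ _).mp (rel31 u (Nat.zero_le _) hu)
  · exact fun u hu => (PR.fixF_iff _ _).mp (rel32 u (Nat.zero_le _) hu)
  · exact fun u hu => (PR.fixF_iff _ _).mp (rel33 u (Nat.zero_le _) hu)
  · exact fun u hu => (PR.fixF_iff _ _).mp (rel34 u (Nat.zero_le _) hu)
  · exact fun u hu => (PR.fixF_iff _ _).mp (rel35 u (Nat.zero_le _) hu)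
  · exact fun u hu => (PR.fixF_iff _ _).mp (rel36 u (Nat.zero_le _) hu)
  · exact fun u hu => (PR.fixF_iff _ _).mp (rel37 u (Nat.zero_le _) hu)
  · exact fun u hu => (PR.fixF_iff _ _).mp (rel38 u (Nat.zero_le _) hu)
  · exact fun u hu => (PR.fixF_iff _ _).mp (rel39 u (Nat.zero_le _) hu)
  · exact fun u hu => (PR.fixF_iff _ _).mp (rel40 u (Nat.zero_le _) hu)
  · exact fun u hu => (PR.fixF_iff _ _).mp (rel41 u (Nat.zero_le _) hu)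
  · exact fun u hu => (PR.fixF_iff _ _).mp (rel42 u (Nat.zero_le _) hu)
  · exact fun u hu => (PR.fixF_iff _ _).mp (rel43 u (Nat.zero_le _) hu)
  · exact fun u hu => (PR.fixF_iff _ _).mp (rel44 u (Nat.zero_le _) hu)
  · exact fun u hu => (PR.fixF_iff _ _).mp (rel45 u (Nat.zero_le _) hu)
  · exact fun u hu => (PR.fixF_iff _ _).mp (rel46 u (Nat.zero_le _) hu)

theorem orbits : PR.Orbits 31671 tbl Ls subs ivs := by
  refine ⟨by decide, ?_, ?_, ?_, ?_, by decide, by decide⟩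
  · intro iv hiv s hs
    simp only [ivs, List.mem_cons, List.mem_nil_iff, or_false] at hiv
    simp only [subs, List.mem_cons, List.mem_nil_iff, or_false] at hs
    rcases hiv with rfl | rfl | rfl <;> rcases hs with rfl | rfl | rfl | rfl | rfl | rfl | rfl | rfl | rfl
    · exact fun u h1 h2 => ⟨((PR.mapsF_iff _ _ _ _).mp (mp0_0 u h1 h2)).1, Nat.lt_of_le_of_lt ((PR.mapsF_iff _ _ _ _).mp (mp0_0 u h1 h2)).2 (by norm_num)⟩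
    · exact fun u h1 h2 => ⟨((PR.mapsF_iff _ _ _ _).mp (mp0_1 u h1 h2)).1, Nat.lt_of_le_of_lt ((PR.mapsF_iff _ _ _ _).mp (mp0_1 u h1 h2)).2 (by norm_num)⟩
    · exact fun u h1 h2 => ⟨((PR.mapsF_iff _ _ _ _).mp (mp0_2 u h1 h2)).1, Nat.lt_of_le_of_lt ((PR.mapsF_iff _ _ _ _).mp (mp0_2 u h1 h2)).2 (by norm_num)⟩
    · exact fun u h1 h2 => ⟨((PR.mapsF_iff _ _ _ _).mp (mp0_3 u h1 h2)).1, Nat.lt_of_le_of_lt ((PR.mapsF_iff _ _ _ _).mp (mp0_3 u h1 h2)).2 (by norm_num)⟩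
    · exact fun u h1 h2 => ⟨((PR.mapsF_iff _ _ _ _).mp (mp0_4 u h1 h2)).1, Nat.lt_of_le_of_lt ((PR.mapsF_iff _ _ _ _).mp (mp0_4 u h1 h2)).2 (by norm_num)⟩
    · exact fun u h1 h2 => ⟨((PR.mapsF_iff _ _ _ _).mp (mp0_5 u h1 h2)).1, Nat.lt_of_le_of_lt ((PR.mapsF_iff _ _ _ _).mp (mp0_5 u h1 h2)).2 (by norm_num)⟩
    · exact fun u h1 h2 => ⟨((PR.mapsF_iff _ _ _ _).mp (mp0_6 u h1 h2)).1, Nat.lt_of_le_of_lt ((PR.mapsF_iff _ _ _ _).mp (mp0_6 u h1 h2)).2 (by norm_num)⟩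
    · exact fun u h1 h2 => ⟨((PR.mapsF_iff _ _ _ _).mp (mp0_7 u h1 h2)).1, Nat.lt_of_le_of_lt ((PR.mapsF_iff _ _ _ _).mp (mp0_7 u h1 h2)).2 (by norm_num)⟩
    · exact fun u h1 h2 => ⟨((PR.mapsF_iff _ _ _ _).mp (mp0_8 u h1 h2)).1, Nat.lt_of_le_of_lt ((PR.mapsF_iff _ _ _ _).mp (mp0_8 u h1 h2)).2 (by norm_num)⟩
    · exact fun u h1 h2 => ⟨((PR.mapsF_iff _ _ _ _).mp (mp1_0 u h1 h2)).1, Nat.lt_of_le_of_lt ((PR.mapsF_iff _ _ _ _).mp (mp1_0 u h1 h2)).2 (by norm_num)⟩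
    · exact fun u h1 h2 => ⟨((PR.mapsF_iff _ _ _ _).mp (mp1_1 u h1 h2)).1, Nat.lt_of_le_of_lt ((PR.mapsF_iff _ _ _ _).mp (mp1_1 u h1 h2)).2 (by norm_num)⟩
    · exact fun u h1 h2 => ⟨((PR.mapsF_iff _ _ _ _).mp (mp1_2 u h1 h2)).1, Nat.lt_of_le_of_lt ((PR.mapsF_iff _ _ _ _).mp (mp1_2 u h1 h2)).2 (by norm_num)⟩
    · exact fun u h1 h2 => ⟨((PR.mapsF_iff _ _ _ _).mp (mp1_3 u h1 h2)).1, Nat.lt_of_le_of_lt ((PR.mapsF_iff _ _ _ _).mp (mp1_3 u h1 h2)).2 (by norm_num)⟩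
    · exact fun u h1 h2 => ⟨((PR.mapsF_iff _ _ _ _).mp (mp1_4 u h1 h2)).1, Nat.lt_of_le_of_lt ((PR.mapsF_iff _ _ _ _).mp (mp1_4 u h1 h2)).2 (by norm_num)⟩
    · exact fun u h1 h2 => ⟨((PR.mapsF_iff _ _ _ _).mp (mp1_5 u h1 h2)).1, Nat.lt_of_le_of_lt ((PR.mapsF_iff _ _ _ _).mp (mp1_5 u h1 h2)).2 (by norm_num)⟩
    · exact fun u h1 h2 => ⟨((PR.mapsF_iff _ _ _ _).mp (mp1_6 u h1 h2)).1, Nat.lt_of_le_of_lt ((PR.mapsF_iff _ _ _ _).mp (mp1_6 u h1 h2)).2 (by norm_num)⟩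
    · exact fun u h1 h2 => ⟨((PR.mapsF_iff _ _ _ _).mp (mp1_7 u h1 h2)).1, Nat.lt_of_le_of_lt ((PR.mapsF_iff _ _ _ _).mp (mp1_7 u h1 h2)).2 (by norm_num)⟩
    · exact fun u h1 h2 => ⟨((PR.mapsF_iff _ _ _ _).mp (mp1_8 u h1 h2)).1, Nat.lt_of_le_of_lt ((PR.mapsF_iff _ _ _ _).mp (mp1_8 u h1 h2)).2 (by norm_num)⟩
    · exact fun u h1 h2 => ⟨((PR.mapsF_iff _ _ _ _).mp (mp2_0 u h1 h2)).1, Nat.lt_of_le_of_lt ((PR.mapsF_iff _ _ _ _).mp (mp2_0 u h1 h2)).2 (by norm_num)⟩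
    · exact fun u h1 h2 => ⟨((PR.mapsF_iff _ _ _ _).mp (mp2_1 u h1 h2)).1, Nat.lt_of_le_of_lt ((PR.mapsF_iff _ _ _ _).mp (mp2_1 u h1 h2)).2 (by norm_num)⟩
    · exact fun u h1 h2 => ⟨((PR.mapsF_iff _ _ _ _).mp (mp2_2 u h1 h2)).1, Nat.lt_of_le_of_lt ((PR.mapsF_iff _ _ _ _).mp (mp2_2 u h1 h2)).2 (by norm_num)⟩
    · exact fun u h1 h2 => ⟨((PR.mapsF_iff _ _ _ _).mp (mp2_3 u h1 h2)).1, Nat.lt_of_le_of_lt ((PR.mapsF_iff _ _ _ _).mp (mp2_3 u h1 h2)).2 (by norm_num)⟩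
    · exact fun u h1 h2 => ⟨((PR.mapsF_iff _ _ _ _).mp (mp2_4 u h1 h2)).1, Nat.lt_of_le_of_lt ((PR.mapsF_iff _ _ _ _).mp (mp2_4 u h1 h2)).2 (by norm_num)⟩
    · exact fun u h1 h2 => ⟨((PR.mapsF_iff _ _ _ _).mp (mp2_5 u h1 h2)).1, Nat.lt_of_le_of_lt ((PR.mapsF_iff _ _ _ _).mp (mp2_5 u h1 h2)).2 (by norm_num)⟩
    · exact fun u h1 h2 => ⟨((PR.mapsF_iff _ _ _ _).mp (mp2_6 u h1 h2)).1, Nat.lt_of_le_of_lt ((PR.mapsF_iff _ _ _ _).mp (mp2_6 u h1 h2)).2 (by norm_num)⟩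
    · exact fun u h1 h2 => ⟨((PR.mapsF_iff _ _ _ _).mp (mp2_7 u h1 h2)).1, Nat.lt_of_le_of_lt ((PR.mapsF_iff _ _ _ _).mp (mp2_7 u h1 h2)).2 (by norm_num)⟩
    · exact fun u h1 h2 => ⟨((PR.mapsF_iff _ _ _ _).mp (mp2_8 u h1 h2)).1, Nat.lt_of_le_of_lt ((PR.mapsF_iff _ _ _ _).mp (mp2_8 u h1 h2)).2 (by norm_num)⟩
  · intro iv hiv
    simp only [ivs, List.mem_cons, List.mem_nil_iff, or_false] at hiv
    rcases hiv with rfl | rfl | rfl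
    · intro u h1 h2
      obtain ⟨s, hs, p, hp⟩ := PR.treeF_sound _ _ _ _ (tre0 u h1 h2)
      exact PR.tree_aux tbl subs _ rfl s hs p _ _ hp
    · intro u h1 h2
      obtain ⟨s, hs, p, hp⟩ := PR.treeF_sound _ _ _ _ (tre1 u h1 h2)
      exact PR.tree_aux tbl subs _ rfl s hs p _ _ hp
    · intro u h1 h2
      obtain ⟨s, hs, p, hp⟩ := PR.treeF_sound _ _ _ _ (tre2 u h1 h2)
      exact PR.tree_aux tbl subs _ rfl s hs p _ _ hp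
  · intro iv hiv
    simp only [ivs, List.mem_cons, List.mem_nil_iff, or_false] at hiv
    rcases hiv with rfl | rfl | rfl
    · exact ⟨[], by decide, root0⟩
    · exact ⟨[18], by decide, root1⟩
    · exact ⟨[18, 12, 10, 8, 6, 4, 14, 6, 8, 10, 12, 18], by decide, root2⟩
  · intro u hu
    simp only [ivs, List.mem_cons, List.mem_nil_iff, or_false, exists_eq_or_imp, exists_eq_left]
    omega

end Cfsg.Agent.Lib.Helper11.Fi23a
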