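import Cfsg.Agent.Lib.Helper11.LBCore
import Cfsg.Agent.Lib.Helper11.Fi23aPerm
import Cfsg.Agent.Lib.Helper11.Fi23aLC0
import Cfsg.Agent.Lib.Helper11.Fi23aLC1
import Cfsg.Agent.Lib.Helper11.Fi23aLC2

set_option autoImplicit false
set_option maxRecDepth 1000000

namespace Cfsg.Agent.Lib.Helper11.Fi23a

open Cfsg.Agent.Lib.Helper11

theorem lbc0 : ∀ u, 1 ≤ u → u < 31671 → PR.lbF lP0 lM0 lwT0 u = true := by
  have h : ∀ u, 1 ≤ u → u < 1 → PR.lbF lP0 lM0 lwT0 u = true := fun u h1 h2 => absurd h2 (by omega)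
  have h := PR.allR_chain (PR.lbF lP0 lM0 lwT0) 1 1 1713 lb0_0 h
  have h := PR.allR_chain (PR.lbF lP0 lM0 lwT0) 1 1714 1713 lb0_1 h
  have h := PR.allR_chain (PR.lbF lP0 lM0 lwT0) 1 3427 1713 lb0_2 h
  have h := PR.allR_chain (PR.lbF lP0 lM0 lwT0) 1 5140 1713 lb0_3 h
  have h := PR.allR_chain (PR.lbF lP0 lM0 lwT0) 1 6853 1713 lb0_4 h
  have h := PR.allR_chain (PR.lbF lP0 lM0 lwT0) 1 8566 1713 lb0_5 h
  have h := PR.allR_chain (PR.lbF lP0 lM0 lwT0) 1 10279 1713 lb0_6 h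
  have h := PR.allR_chain (PR.lbF lP0 lM0 lwT0) 1 11992 1713 lb0_7 h
  have h := PR.allR_chain (PR.lbF lP0 lM0 lwT0) 1 13705 1713 lb0_8 h
  have h := PR.allR_chain (PR.lbF lP0 lM0 lwT0) 1 15418 1713 lb0_9 h
  have h := PR.allR_chain (PR.lbF lP0 lM0 lwT0) 1 17131 1713 lb0_10 h
  have h := PR.allR_chain (PR.lbF lP0 lM0 lwT0) 1 18844 1713 lb0_11 h
  have h := PR.allR_chain (PR.lbF lP0 lM0 lwT0) 1 20557 1713 lb0_12 h
  have h := PR.allR_chain (PR.lbF lP0 lM0 lwT0) 1 22270 1713 lb0_13 h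
  have h := PR.allR_chain (PR.lbF lP0 lM0 lwT0) 1 23983 1713 lb0_14 h
  have h := PR.allR_chain (PR.lbF lP0 lM0 lwT0) 1 25696 1713 lb0_15 h
  have h := PR.allR_chain (PR.lbF lP0 lM0 lwT0) 1 27409 1713 lb0_16 h
  have h := PR.allR_chain (PR.lbF lP0 lM0 lwT0) 1 29122 1713 lb0_17 h
  have h := PR.allR_chain (PR.lbF lP0 lM0 lwT0) 1 30835 836 lb0_18 h
  exact h

theorem lbc1 : ∀ u, 1 ≤ u → u < 28160 → PR.lbF lP1 lM1 lwT1 u = true := by
  have h : ∀ u, 1 ≤ u → u < 1 → PR.lbF lP1 lM1 lwT1 u = true := fun u h1 h2 => absurd h2 (by omega)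
  have h := PR.allR_chain (PR.lbF lP1 lM1 lwT1) 1 1 1713 lb1_0 h
  have h := PR.allR_chain (PR.lbF lP1 lM1 lwT1) 1 1714 1713 lb1_1 h
  have h := PR.allR_chain (PR.lbF lP1 lM1 lwT1) 1 3427 1713 lb1_2 h
  have h := PR.allR_chain (PR.lbF lP1 lM1 lwT1) 1 5140 1713 lb1_3 h
  have h := PR.allR_chain (PR.lbF lP1 lM1 lwT1) 1 6853 1713 lb1_4 h
  have h := PR.allR_chain (PR.lbF lP1 lM1 lwT1) 1 8566 1713 lb1_5 h
  have h := PR.allR_chain (PR.lbF lP1 lM1 lwT1) 1 10279 1713 lb1_6 h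
  have h := PR.allR_chain (PR.lbF lP1 lM1 lwT1) 1 11992 1713 lb1_7 h
  have h := PR.allR_chain (PR.lbF lP1 lM1 lwT1) 1 13705 1713 lb1_8 h
  have h := PR.allR_chain (PR.lbF lP1 lM1 lwT1) 1 15418 1713 lb1_9 h
  have h := PR.allR_chain (PR.lbF lP1 lM1 lwT1) 1 17131 1713 lb1_10 h
  have h := PR.allR_chain (PR.lbF lP1 lM1 lwT1) 1 18844 1713 lb1_11 h
  have h := PR.allR_chain (PR.lbF lP1 lM1 lwT1) 1 20557 1713 lb1_12 h
  have h := PR.allR_chain (PR.lbF lP1 lM1 lwT1) 1 22270 1713 lb1_13 h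
  have h := PR.allR_chain (PR.lbF lP1 lM1 lwT1) 1 23983 1713 lb1_14 h
  have h := PR.allR_chain (PR.lbF lP1 lM1 lwT1) 1 25696 1713 lb1_15 h
  have h := PR.allR_chain (PR.lbF lP1 lM1 lwT1) 1 27409 751 lb1_16 h
  exact h

theorem lbc2 : ∀ u, 1 ≤ u → u < 21840 → PR.lbF lP2 lM2 lwT2 u = true := by
  have h : ∀ u, 1 ≤ u → u < 1 → PR.lbF lP2 lM2 lwT2 u = true := fun u h1 h2 => absurd h2 (by omega)
  have h := PR.allR_chain (PR.lbF lP2 lM2 lwT2) 1 1 1713 lb2_0 h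
  have h := PR.allR_chain (PR.lbF lP2 lM2 lwT2) 1 1714 1713 lb2_1 h
  have h := PR.allR_chain (PR.lbF lP2 lM2 lwT2) 1 3427 1713 lb2_2 h
  have h := PR.allR_chain (PR.lbF lP2 lM2 lwT2) 1 5140 1713 lb2_3 h
  have h := PR.allR_chain (PR.lbF lP2 lM2 lwT2) 1 6853 1713 lb2_4 h
  have h := PR.allR_chain (PR.lbF lP2 lM2 lwT2) 1 8566 1713 lb2_5 h
  have h := PR.allR_chain (PR.lbF lP2 lM2 lwT2) 1 10279 1713 lb2_6 h
  have h := PR.allR_chain (PR.lbF lP2 lM2 lwT2) 1 11992 1713 lb2_7 h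
  have h := PR.allR_chain (PR.lbF lP2 lM2 lwT2) 1 13705 1713 lb2_8 h
  have h := PR.allR_chain (PR.lbF lP2 lM2 lwT2) 1 15418 1713 lb2_9 h
  have h := PR.allR_chain (PR.lbF lP2 lM2 lwT2) 1 17131 1713 lb2_10 h
  have h := PR.allR_chain (PR.lbF lP2 lM2 lwT2) 1 18844 1713 lb2_11 h
  have h := PR.allR_chain (PR.lbF lP2 lM2 lwT2) 1 20557 1283 lb2_12 h
  exact h

theorem lbc3 : ∀ u, 1 ≤ u → u < 7776 → PR.lbF lP3 lM3 lwT3 u = true := by
  have h : ∀ u, 1 ≤ u → u < 1 → PR.lbF lP3 lM3 lwT3 u = true := fun u h1 h2 => absurd h2 (by omega)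
  have h := PR.allR_chain (PR.lbF lP3 lM3 lwT3) 1 1 1341 lb3_0 h
  have h := PR.allR_chain (PR.lbF lP3 lM3 lwT3) 1 1342 1464 lb3_1 h
  have h := PR.allR_chain (PR.lbF lP3 lM3 lwT3) 1 2806 1109 lb3_2 h
  have h := PR.allR_chain (PR.lbF lP3 lM3 lwT3) 1 3915 1228 lb3_3 h
  have h := PR.allR_chain (PR.lbF lP3 lM3 lwT3) 1 5143 1031 lb3_4 h
  have h := PR.allR_chain (PR.lbF lP3 lM3 lwT3) 1 6174 1268 lb3_5 h
  have h := PR.allR_chain (PR.lbF lP3 lM3 lwT3) 1 7442 334 lb3_6 h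
  exact h

theorem lbc4 : ∀ u, 1 ≤ u → u < 27 → PR.lbF lP4 lM4 lwT4 u = true := by
  have h : ∀ u, 1 ≤ u → u < 1 → PR.lbF lP4 lM4 lwT4 u = true := fun u h1 h2 => absurd h2 (by omega)
  have h := PR.allR_chain (PR.lbF lP4 lM4 lwT4) 1 1 26 lb4_0 h
  exact h

def lbase : List Nat := [0, 1, 203, 1230, 29195]

theorem lv0 : 31671 ≤ (MulAction.orbit (PR.stabChain (PR.letterGroup 31671 tbl (fun l => l) Ls) []) (⟨0, by norm_num⟩ : Fin 31671)).ncard :=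
  PR.level_lb tables [] 0 (by norm_num) lws0 (by decide +kernel) lP0 lM0 31671 (by norm_num)
    (by decide +kernel) (by decide +kernel) (fun idx h1 h2 => lbc0 idx h1 h2)

theorem lv1 : 28160 ≤ (MulAction.orbit (PR.stabChain (PR.letterGroup 31671 tbl (fun l => l) Ls) [0]) (⟨1, by norm_num⟩ : Fin 31671)).ncard :=
  PR.level_lb tables [0] 1 (by norm_num) lws1 (by decide +kernel) lP1 lM1 28160 (by norm_num)
    (by decide +kernel) (by decide +kernel) (fun idx h1 h2 => lbc1 idx h1 h2)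

theorem lv2 : 21840 ≤ (MulAction.orbit (PR.stabChain (PR.letterGroup 31671 tbl (fun l => l) Ls) [0, 1]) (⟨203, by norm_num⟩ : Fin 31671)).ncard :=
  PR.level_lb tables [0, 1] 203 (by norm_num) lws2 (by decide +kernel) lP2 lM2 21840 (by norm_num)
    (by decide +kernel) (by decide +kernel) (fun idx h1 h2 => lbc2 idx h1 h2)

theorem lv3 : 7776 ≤ (MulAction.orbit (PR.stabChain (PR.letterGroup 31671 tbl (fun l => l) Ls) [0, 1, 203]) (⟨1230, by norm_num⟩ : Fin 31671)).ncard :=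
  PR.level_lb tables [0, 1, 203] 1230 (by norm_num) lws3 (by decide +kernel) lP3 lM3 7776 (by norm_num)
    (by decide +kernel) (by decide +kernel) (fun idx h1 h2 => lbc3 idx h1 h2)

theorem lv4 : 27 ≤ (MulAction.orbit (PR.stabChain (PR.letterGroup 31671 tbl (fun l => l) Ls) [0, 1, 203, 1230]) (⟨29195, by norm_num⟩ : Fin 31671)).ncard :=
  PR.level_lb tables [0, 1, 203, 1230] 29195 (by norm_num) lws4 (by decide +kernel) lP4 lM4 27 (by norm_num)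
    (by decide +kernel) (by decide +kernel) (fun idx h1 h2 => lbc4 idx h1 h2)

theorem lb (c : ℕ) (hc : c ≤ Nat.card (PR.stabChain (PR.letterGroup 31671 tbl (fun l => l) Ls) lbase)) : 4089470473293004800 * c ≤ Nat.card (PR.letterGroup 31671 tbl (fun l => l) Ls) := by
  have h4 := PR.chain_step (n := 31671) (tbl := tbl) (inv := fun l => l) (Ls := Ls) [0, 1, 203, 1230] 29195 (by norm_num) 27 _ lv4 hc
  have h3 := PR.chain_step (n := 31671) (tbl := tbl) (inv := fun l => l) (Ls := Ls) [0, 1, 203] 1230 (by norm_num) 7776 _ lv3 h4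
  have h2 := PR.chain_step (n := 31671) (tbl := tbl) (inv := fun l => l) (Ls := Ls) [0, 1] 203 (by norm_num) 21840 _ lv2 h3
  have h1 := PR.chain_step (n := 31671) (tbl := tbl) (inv := fun l => l) (Ls := Ls) [0] 1 (by norm_num) 28160 _ lv1 h2
  have h0 := PR.chain_step (n := 31671) (tbl := tbl) (inv := fun l => l) (Ls := Ls) [] 0 (by norm_num) 31671 _ lv0 h1
  have e : 4089470473293004800 * c = 31671 * (28160 * (21840 * (7776 * (27 * (c))))) := by omega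
  rw [e]; exact h0

end Cfsg.Agent.Lib.Helper11.Fi23a
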