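import Cfsg.Agent.Lib.Helper11.SimpleCert

/-! # From a checked permutation representation to a permutation group -/

set_option autoImplicit false

namespace Cfsg.Agent.Lib.Helper11.PR

open Cfsg.Agent.Lib.Helper11.TC Cfsg.Agent.Lib.Helper11

/-- the point stabiliser of the checked action is the subgroup generated by the words `subs` -/
theorem stab_eq {G : Type*} [Group G] {n : ℕ} {tbl : ℕ → ℕ → ℕ} {inv : ℕ → ℕ} {Ls : List ℕ}
    {subs : List (List ℕ)} {ivs : List (ℕ × ℕ)}
    (hT : Tables n tbl inv Ls) (hO : Orbits n tbl Ls subs ivs)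
    (φ : G →* Equiv.Perm (Fin n)) (gen : ℕ → G) (hφ : ∀ l ∈ Ls, φ (gen l) = pg n tbl inv Ls l)
    (hn : 0 < n)
    (H : Subgroup G) (hH : H = Subgroup.closure {g | ∃ s ∈ subs, g = ev gen s})
    (hidx : H.index = n) (g : G) : g ∈ H ↔ φ g ⟨0, hn⟩ = ⟨0, hn⟩ := by
  obtain ⟨htr, _⟩ := act_facts hT hO φ gen hφ hn
  letI : MulAction G (Fin n) := MulAction.compHom (Fin n) φ
  have smul_def : ∀ (g : G) (u : Fin n), g • u = φ g u := fun g u => rfl
  have key : ∀ (w : List ℕ), (∀ l ∈ w, l ∈ Ls) → ∀ u : Fin n,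
      (((ev gen w)⁻¹ • u : Fin n) : ℕ) = trace (w.map tbl) u := by
    intro w hw u
    rw [smul_def, map_inv, map_ev φ gen _ Ls hφ w hw, ev_pg_inv_apply hT w hw]
  set S : Subgroup G := MulAction.stabilizer G (⟨0, hn⟩ : Fin n) with hS
  have hle : H ≤ S := by
    rw [hH, Subgroup.closure_le]
    rintro _ ⟨s, hs, rfl⟩
    have h1 : (ev gen s)⁻¹ ∈ S := by
      rw [hS, MulAction.mem_stabilizer_iff]
      apply Fin.ext
      rw [key s (hO.subL s hs)]
      have := hO.maps (0, 1) hO.first s hs 0 (le_refl _) (by norm_num)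
      simp only at this
      show trace (s.map tbl) 0 = 0
      omega
    simpa using S.inv_mem h1
  have htrans : MulAction.orbit G (⟨0, hn⟩ : Fin n) = Set.univ := by
    rw [Set.eq_univ_iff_forall]
    intro u
    obtain ⟨g, hg⟩ := htr u
    exact ⟨g, hg⟩
  have hidxS : S.index = n := by
    rw [hS, MulAction.index_stabilizer, htrans, Set.ncard_univ]; simp
  have hrel := Subgroup.relIndex_mul_index hle
  rw [hidx, hidxS] at hrel
  have h1 : H.relIndex S = 1 := by
    have : H.relIndex S * n = 1 * n := by rw [hrel, one_mul]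
    exact Nat.eq_of_mul_eq_mul_right hn this
  have hSle : S ≤ H := Subgroup.relIndex_eq_one.mp h1
  have hEq : H = S := le_antisymm hle hSle
  rw [hEq, hS, MulAction.mem_stabilizer_iff]
  rfl

/-- the image of the checked action as a transitive permutation group -/
theorem realize {G : Type*} [Group G] {n : ℕ} {tbl : ℕ → ℕ → ℕ} {inv : ℕ → ℕ} {Ls : List ℕ}
    {subs : List (List ℕ)} {ivs : List (ℕ × ℕ)}
    (hT : Tables n tbl inv Ls) (hO : Orbits n tbl Ls subs ivs)
    (φ : G →* Equiv.Perm (Fin n)) (gen : ℕ → G) (hφ : ∀ l ∈ Ls, φ (gen l) = pg n tbl inv Ls l)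
    (hinj : Function.Injective φ) (hn : 0 < n)
    (H : Subgroup G) (hH : H = Subgroup.closure {g | ∃ s ∈ subs, g = ev gen s})
    (hidx : H.index = n) :
    Nonempty (G ≃* φ.range) ∧ MulAction.IsPretransitive φ.range (Fin n) ∧
      Nonempty (MulAction.stabilizer φ.range (⟨0, hn⟩ : Fin n) ≃* H) := by
  obtain ⟨htr, _⟩ := act_facts hT hO φ gen hφ hn
  have hst := stab_eq hT hO φ gen hφ hn H hH hidx
  let e : G ≃* φ.range := MonoidHom.ofInjective hinj
  have he : ∀ g : G, ((e g : φ.range) : Equiv.Perm (Fin n)) = φ g := fun g => rfl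
  refine ⟨⟨e⟩, ⟨?_⟩, ?_⟩
  · intro x y
    obtain ⟨g, hg⟩ := htr x
    obtain ⟨k, hk⟩ := htr y
    refine ⟨e (k * g⁻¹), ?_⟩
    show ((e (k * g⁻¹) : φ.range) : Equiv.Perm (Fin n)) x = y
    rw [he, map_mul, map_inv, Equiv.Perm.mul_apply, ← hg]
    simp [hk]
  · have hmap : MulAction.stabilizer φ.range (⟨0, hn⟩ : Fin n) = H.map e.toMonoidHom := by
      ext x
      rw [MulAction.mem_stabilizer_iff]
      constructor
      · intro hx
        obtain ⟨g, rfl⟩ := e.surjective x
        exact ⟨g, (hst g).mpr hx, rfl⟩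
      · rintro ⟨g, hg, rfl⟩
        exact (hst g).mp hg
    rw [hmap]
    exact ⟨(Subgroup.equivMapOfInjective H e.toMonoidHom e.injective).symm⟩

end Cfsg.Agent.Lib.Helper11.PR
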