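import Cfsg.Agent.Lib.Helper11.Realize
import Cfsg.Agent.Lib.Helper11.SimpleCore
import Cfsg.Prelude.Def_SporadicB

/-! # Classes of 3-transpositions from a checked rank 3 permutation representation -/

set_option autoImplicit false

namespace Cfsg.Agent.Lib.Helper11.TT

open Cfsg.Agent.Lib.Helper11.TC Cfsg.Agent.Lib.Helper11
open scoped Pointwise

theorem map_center {H H' : Type*} [Group H] [Group H'] (e : H ≃* H') :
    (Subgroup.center H).map e.toMonoidHom = Subgroup.center H' := by
  ext x
  rw [Subgroup.mem_map_equiv, Subgroup.mem_center_iff, Subgroup.mem_center_iff]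
  constructor
  · intro h g
    have := congrArg e (h (e.symm g))
    simpa using this
  · intro h g
    have := congrArg e.symm (h (e g))
    simpa using this

/-- nonsplit double covers are invariant under isomorphism -/
theorem nonsplit_congr {H H' K : Type*} [Group H] [Group H'] [Group K] (e : H ≃* H')
    (h : Cfsg.IsNonsplitDoubleCover H K) : Cfsg.IsNonsplitDoubleCover H' K := by
  obtain ⟨h1, ⟨f⟩, h3⟩ := h
  refine ⟨?_, ?_, ?_⟩
  · rw [← h1]
    exact Nat.card_congr (Subgroup.centerCongr e).symm.toEquiv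
  · exact ⟨(QuotientGroup.congr (Subgroup.center H) (Subgroup.center H') e (map_center e)).symm.trans f⟩
  · intro L hL
    apply h3 (L.comap e.toMonoidHom)
    apply Subgroup.isComplement'_of_disjoint_and_mul_eq_univ
    · rw [Subgroup.disjoint_def]
      intro x hx1 hx2
      have h4 : e x ∈ Subgroup.center H' := by
        rw [← map_center e]; exact ⟨x, hx1, rfl⟩
      have h5 := Subgroup.disjoint_def.mp hL.disjoint h4 hx2
      exact e.injective (by rw [h5, map_one])
    · rw [Set.eq_univ_iff_forall]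
      intro g
      have h4 : e g ∈ ((Subgroup.center H' : Set H') * (L : Set H')) := by
        rw [Subgroup.IsComplement.mul_eq hL]; exact Set.mem_univ _
      obtain ⟨a, ha, b, hb, hab⟩ := h4
      refine ⟨e.symm a, ?_, e.symm b, ?_, ?_⟩
      · have : a ∈ (Subgroup.center H).map e.toMonoidHom := by rw [map_center e]; exact ha
        exact (Subgroup.mem_map_equiv).mp this
      · show e (e.symm b) ∈ L
        simpa using hb
      · apply e.injective
        simpa using hab

theorem centralizer_conj {G : Type*} [Group G] (z c : G) :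
    Nonempty (Subgroup.centralizer ({c * z * c⁻¹} : Set G) ≃* Subgroup.centralizer ({z} : Set G)) := by
  have h : (Subgroup.centralizer ({z} : Set G)).map (MulAut.conj c).toMonoidHom =
      Subgroup.centralizer ({c * z * c⁻¹} : Set G) := by
    ext x
    rw [Subgroup.mem_map_equiv, Subgroup.mem_centralizer_singleton_iff,
      Subgroup.mem_centralizer_singleton_iff, MulAut.conj_symm_apply]
    constructor
    · intro h
      have := congrArg (fun t => c * t * c⁻¹) h
      simpa [mul_assoc] using this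
    · intro h
      have := congrArg (fun t => c⁻¹ * t * c) h
      simpa [mul_assoc] using this
  exact ⟨(MulEquiv.subgroupCongr h.symm).trans
    (Subgroup.equivMapOfInjective _ (MulAut.conj c).toMonoidHom (MulAut.conj c).injective).symm⟩

theorem card_conjugatesOf {G : Type*} [Group G] (z : G) :
    Nat.card (conjugatesOf z) = (Subgroup.centralizer ({z} : Set G)).index := by
  have h : (Subgroup.centralizer ({z} : Set G)).index =
      (MulAction.stabilizer (ConjAct G) z).index := by
    rw [Subgroup.centralizer_eq_comap_stabilizer]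
    exact Subgroup.index_comap_of_surjective _ ConjAct.toConjAct.surjective
  rw [h, MulAction.index_stabilizer, Nat.card_coe_set_eq]
  congr 1
  ext x
  rw [ConjAct.mem_orbit_conjAct, isConj_comm]
  rfl

open Simp in
theorem transp_class {G : Type*} [Group G] (hs : IsSimpleGroup G) (hcard2 : Nat.card G ≠ 2)
    {n : ℕ} {tbl : ℕ → ℕ → ℕ} {inv : ℕ → ℕ} {Ls : List ℕ}
    {subs : List (List ℕ)} {tl : List (ℕ × ℕ)}
    (hT : PR.Tables n tbl inv Ls) (hO : PR.Orbits n tbl Ls subs ((0, 1) :: tl))
    (φ : G →* Equiv.Perm (Fin n)) (gen : ℕ → G) (hφ : ∀ l ∈ Ls, φ (gen l) = PR.pg n tbl inv Ls l)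
    (hn : 0 < n)
    (H : Subgroup G) (hH : H = Subgroup.closure {g | ∃ s ∈ subs, g = ev gen s})
    (hidx : H.index = n)
    (hchain : isChain tl 1 n = true)
    (harith : ∀ s ∈ sums tl, (1 + s) ∣ n → s = 0 ∨ 1 + s = n)
    (z : G) (hz1 : z ≠ 1) (hz2 : z * z = 1) (hzH : ∀ h ∈ H, h * z = z * h)
    (hrep : ∀ iv ∈ (0, 1) :: tl, ∃ x : G, (iv.1 ≤ (φ x ⟨0, hn⟩).1 ∧ (φ x ⟨0, hn⟩).1 < iv.2) ∧
      ((z * (x * z * x⁻¹)) ^ 2 = 1 ∨ (z * (x * z * x⁻¹)) ^ 3 = 1)) :
    Cfsg.IsThreeTranspositionClass (conjugatesOf z) ∧ Nat.card (conjugatesOf z) = n ∧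
      ∀ d ∈ conjugatesOf z, Nonempty (Subgroup.centralizer ({d} : Set G) ≃* H) := by
  obtain ⟨htr, horb⟩ := PR.act_facts hT hO φ gen hφ hn
  have hst := PR.stab_eq hT hO φ gen hφ hn H hH hidx
  let _ : MulAction G (Fin n) := MulAction.compHom (Fin n) φ
  have smul_def : ∀ (g : G) (u : Fin n), g • u = φ g u := fun g u => rfl
  have htrans : MulAction.orbit G (⟨0, hn⟩ : Fin n) = Set.univ := by
    rw [Set.eq_univ_iff_forall]
    intro u
    obtain ⟨g, hg⟩ := htr u
    exact ⟨g, hg⟩
  have hHS : H = MulAction.stabilizer G (⟨0, hn⟩ : Fin n) := by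
    ext g
    rw [hst g, MulAction.mem_stabilizer_iff]
    rfl
  have hord : orderOf z = 2 := orderOf_eq_prime (by rw [pow_two, hz2]) hz1
  -- the centraliser of `z`
  have hC : Subgroup.centralizer ({z} : Set G) = H := by
    have hle : MulAction.stabilizer G (⟨0, hn⟩ : Fin n) ≤ Subgroup.centralizer ({z} : Set G) := by
      intro h hh
      rw [← hHS] at hh
      rw [Subgroup.mem_centralizer_singleton_iff]
      exact hzH h hh
    rcases maximal_stab (G := G) (⟨0, hn⟩ : Fin n) rfl htrans tl
      (fun iv hiv u v h1 h2 h3 h4 => by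
        obtain ⟨k, hk1, hk2⟩ := horb iv (List.mem_cons_of_mem _ hiv) u v h1 h2 h3 h4
        exact ⟨k, hk1, hk2⟩) hchain harith _ hle with h | h
    · rw [h, hHS]
    · exfalso
      have hcomm : ∀ g : G, Commute g z := by
        intro g
        have : g ∈ Subgroup.centralizer ({z} : Set G) := by rw [h]; exact Subgroup.mem_top _
        rw [Subgroup.mem_centralizer_singleton_iff] at this
        exact this
      have hN : (Subgroup.zpowers z).Normal := by
        constructor
        intro x hx g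
        obtain ⟨k, rfl⟩ := Subgroup.mem_zpowers_iff.mp hx
        have h5 : g * z ^ k * g⁻¹ = z ^ k := by
          rw [((hcomm g).zpow_right k).eq, mul_assoc, mul_inv_cancel, mul_one]
        rw [h5]
        exact hx
      rcases hs.eq_bot_or_eq_top_of_normal _ hN with h6 | h6
      · exact hz1 (Subgroup.zpowers_eq_bot.mp h6)
      · apply hcard2
        rw [← Nat.card_congr (Subgroup.topEquiv (G := G)).toEquiv, ← h6, Nat.card_zpowers, hord]
  -- products with `z`
  have key : ∀ g : G, (z * (g * z * g⁻¹)) ^ 2 = 1 ∨ (z * (g * z * g⁻¹)) ^ 3 = 1 := by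
    intro g
    obtain ⟨iv, hiv, hu1, hu2⟩ := hO.cover (φ g ⟨0, hn⟩).1 (φ g ⟨0, hn⟩).2
    obtain ⟨x, ⟨hx1, hx2⟩, hx3⟩ := hrep iv hiv
    obtain ⟨k, hk1, hk2⟩ := horb iv hiv (φ g ⟨0, hn⟩) (φ x ⟨0, hn⟩) hu1 hu2 hx1 hx2
    have hkH : k ∈ H := (hst k).mpr hk1
    have hh : x⁻¹ * (k * g) ∈ H := by
      rw [hst, map_mul, map_mul, map_inv, Equiv.Perm.mul_apply, Equiv.Perm.mul_apply, hk2]
      simp
    set h := x⁻¹ * (k * g) with hh_def
    have hg : g = k⁻¹ * (x * h) := by rw [hh_def]; group
    have hzh : h * z * h⁻¹ = z := by rw [hzH h hh, mul_assoc, mul_inv_cancel, mul_one]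
    have hzk : k⁻¹ * z * k = z := by
      have := hzH k hkH
      rw [mul_assoc, ← this, ← mul_assoc, inv_mul_cancel, one_mul]
    have h7 : z * (g * z * g⁻¹) = k⁻¹ * (z * (x * z * x⁻¹)) * k := by
      have h8 : g * z * g⁻¹ = k⁻¹ * (x * (h * z * h⁻¹) * x⁻¹) * k := by rw [hg]; group
      rw [h8, hzh]
      nth_rewrite 1 [← hzk]
      group
    have h9 : ∀ m : ℕ, (z * (g * z * g⁻¹)) ^ m = k⁻¹ * (z * (x * z * x⁻¹)) ^ m * k := by
      intro m
      rw [h7]
      have := conj_pow (a := k⁻¹) (b := z * (x * z * x⁻¹)) (i := m)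
      rw [inv_inv] at this
      exact this
    rcases hx3 with h10 | h10
    · left; rw [h9, h10]; group
    · right; rw [h9, h10]; group
  refine ⟨⟨⟨?_, ?_⟩, ⟨z, mem_conjugatesOf_self, rfl⟩, ?_⟩, ?_, ?_⟩
  · intro d hd
    obtain ⟨c, hc⟩ := isConj_iff.mp (show IsConj z d from hd)
    rw [← hord, ← hc]
    have h5 : c * z * c⁻¹ = MulAut.conj c z := rfl
    rw [h5]
    exact MulEquiv.orderOf_eq _ _
  · intro d hd e he
    obtain ⟨a, rfl⟩ := isConj_iff.mp (show IsConj z d from hd)
    obtain ⟨b, rfl⟩ := isConj_iff.mp (show IsConj z e from he)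
    have h7 : a * z * a⁻¹ * (b * z * b⁻¹) = a * (z * ((a⁻¹ * b) * z * (a⁻¹ * b)⁻¹)) * a⁻¹ := by group
    have h9 : ∀ m : ℕ, (a * z * a⁻¹ * (b * z * b⁻¹)) ^ m =
        a * (z * ((a⁻¹ * b) * z * (a⁻¹ * b)⁻¹)) ^ m * a⁻¹ := by
      intro m
      rw [h7, conj_pow]
    rcases key (a⁻¹ * b) with h10 | h10
    · left; rw [h9, h10]; group
    · right; rw [h9, h10]; group
  · have h1 : Subgroup.closure (conjugatesOf z) = Subgroup.normalClosure {z} := by
      rw [Subgroup.normalClosure]
      congr 1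
      simp [Group.conjugatesOfSet]
    rw [h1]
    rcases hs.eq_bot_or_eq_top_of_normal _ (Subgroup.normalClosure_normal (s := {z})) with h | h
    · exfalso
      have : z ∈ Subgroup.normalClosure {z} := Subgroup.subset_normalClosure rfl
      rw [h] at this
      exact hz1 this
    · exact h
  · rw [card_conjugatesOf, hC, hidx]
  · intro d hd
    obtain ⟨c, rfl⟩ := isConj_iff.mp (show IsConj z d from hd)
    obtain ⟨e⟩ := centralizer_conj z c
    exact ⟨e.trans (MulEquiv.subgroupCongr hC)⟩

end Cfsg.Agent.Lib.Helper11.TT
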